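import Mathlib
import Cfsg.Prelude.Def_LieTypeDatum
import Cfsg.Agent.Lib.Helper8.PSUAut

set_option autoImplicit false

/-!
# Automorphisms of `PSU_n(q)`: basic material

The quotient map, special unitary matrices with prescribed matrix, unitary transvections,
root subgroups and some linear algebra of the Hermitian form.
-/

namespace Cfsg.Agent.Lib.Helper43.AutPSU

open Matrix Cfsg.Agent.Lib.Helper13 Cfsg.Agent.Lib.Helper45 Cfsg.Agent.Lib.Helper44

set_option linter.unusedSectionVars false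

variable {n : ℕ} {F : Type*} [Field F] [Fintype F] {q : ℕ}

local notation "V" => Fin n → F
local notation "Mx" => Matrix (Fin n) (Fin n) F
set_option quotPrecheck false in
local notation "SUn" => ↥(Cfsg.SU n F q)
local notation "PSUn" => Cfsg.PSU n F q
local notation "hh" => Cfsg.hermForm n F q

/-! ### The action on vectors -/

theorem coe_mul (A C : SUn) : (A * C).1.1 = A.1.1 * C.1.1 := rfl

theorem coe_one : (1 : SUn).1.1 = (1 : Mx) := rfl

theorem mulVec_mul (A C : SUn) (v : V) : (A * C).1.1 *ᵥ v = A.1.1 *ᵥ (C.1.1 *ᵥ v) := by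
  rw [coe_mul, Matrix.mulVec_mulVec]

theorem mulVec_one (v : V) : (1 : SUn).1.1 *ᵥ v = v := by
  rw [coe_one, Matrix.one_mulVec]

theorem inv_mulVec (A : SUn) (v : V) : (A⁻¹).1.1 *ᵥ (A.1.1 *ᵥ v) = v := by
  rw [← mulVec_mul, inv_mul_cancel, mulVec_one]

theorem mulVec_inv (A : SUn) (v : V) : A.1.1 *ᵥ ((A⁻¹).1.1 *ᵥ v) = v := by
  rw [← mulVec_mul, mul_inv_cancel, mulVec_one]

theorem su_ext' {A C : SUn} (h : ∀ v : V, A.1.1 *ᵥ v = C.1.1 *ᵥ v) : A = C := by
  apply Subtype.ext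
  apply Subtype.ext
  exact Matrix.ext_iff_mulVec.mpr h

theorem hh_su (A : SUn) (u v : V) : hh (A.1.1 *ᵥ u) (A.1.1 *ᵥ v) = hh u v := A.2 u v

theorem hh_su_inv (A : SUn) (u v : V) : hh ((A⁻¹).1.1 *ᵥ u) v = hh u (A.1.1 *ᵥ v) := by
  rw [← hh_su A, mulVec_inv]

theorem mulVec_ne_zero (A : SUn) {v : V} (hv : v ≠ 0) : A.1.1 *ᵥ v ≠ 0 := by
  intro h
  apply hv
  rw [← inv_mulVec A v, h, Matrix.mulVec_zero]

theorem su_isHermIso (A : SUn) : IsHermIso n F q A.1.1 := A.2

theorem su_det (A : SUn) : A.1.1.det = 1 := A.1.2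

/-! ### Special unitary matrices from matrices -/

open Classical in
/-- The special unitary matrix with a given matrix (junk value `1`). -/
noncomputable def toSU (M : Matrix (Fin n) (Fin n) F) : ↥(Cfsg.SU n F q) :=
  if h : IsHermIso n F q M ∧ M.det = 1 then ⟨⟨M, h.2⟩, h.1⟩ else 1

theorem toSU_coe {M : Mx} (h1 : IsHermIso n F q M) (h2 : M.det = 1) :
    (toSU M : SUn).1.1 = M := by
  unfold toSU
  rw [dif_pos ⟨h1, h2⟩]

theorem toSU_self (A : SUn) : toSU A.1.1 = A := by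
  apply Subtype.ext
  apply Subtype.ext
  exact toSU_coe A.2 A.1.2

theorem toSU_one : (toSU (1 : Mx) : SUn) = 1 := toSU_self 1

/-! ### The quotient map -/

/-- The projection `SU → PSU`. -/
def pm : ↥(Cfsg.SU n F q) →* Cfsg.PSU n F q := QuotientGroup.mk' _

theorem pm_surjective : Function.Surjective (pm (n := n) (F := F) (q := q)) :=
  QuotientGroup.mk'_surjective _

theorem exists_scalar_of_pm_eq (hF : Fintype.card F = q ^ 2) (hn : 1 ≤ n) {A C : SUn}
    (h : pm A = pm C) : ∃ ζ : F, C.1.1 = ζ • A.1.1 := by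
  have h1 : A⁻¹ * C ∈ Subgroup.center SUn := QuotientGroup.eq.mp h
  have hZ : ∀ M : Mx, IsHermIso n F q M → M.det = 1 →
      M * (A⁻¹ * C).1.1 = (A⁻¹ * C).1.1 * M := by
    intro M hM hdet
    have := Subgroup.mem_center_iff.mp h1 ⟨⟨M, hdet⟩, hM⟩
    exact congrArg (fun s : SUn => s.1.1) this
  obtain ⟨ζ, hζ⟩ : ∃ ζ : F, (A⁻¹ * C).1.1 = ζ • (1 : Mx) := ⟨_, central_scalar hF hn _ hZ⟩
  refine ⟨ζ, ?_⟩
  have : C.1.1 = A.1.1 * (A⁻¹ * C).1.1 := by rw [← coe_mul, mul_inv_cancel_left]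
  rw [this, hζ, Matrix.mul_smul, Matrix.mul_one]

theorem pm_eq_of_smul {A C : SUn} (ζ : F) (h : C.1.1 = ζ • A.1.1) : pm A = pm C := by
  apply QuotientGroup.eq.mpr
  rw [Subgroup.mem_center_iff]
  intro g
  apply Subtype.ext
  apply Subtype.ext
  show g.1.1 * (A⁻¹ * C).1.1 = (A⁻¹ * C).1.1 * g.1.1
  have : (A⁻¹ * C).1.1 = ζ • (1 : Mx) := by
    rw [coe_mul, h, Matrix.mul_smul, ← coe_mul, inv_mul_cancel, coe_one]
  rw [this, Matrix.mul_smul, Matrix.smul_mul, Matrix.mul_one, Matrix.one_mul]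

/-- If two special unitary matrices with the same image in `PSU` fix a common non-zero vector,
they are equal. -/
theorem eq_of_pm_eq_of_fix (hF : Fintype.card F = q ^ 2) (hn : 1 ≤ n) {A C : SUn}
    (h : pm A = pm C) {x : V} (hx : x ≠ 0) (h1 : A.1.1 *ᵥ x = x) (h2 : C.1.1 *ᵥ x = x) :
    A = C := by
  obtain ⟨ζ, hζ⟩ := exists_scalar_of_pm_eq hF hn h
  have h3 : x = ζ • x := by
    have := congrArg (fun M : Mx => M *ᵥ x) hζ
    simp only [Matrix.smul_mulVec, h1, h2] at this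
    exact this
  have h4 : ζ = 1 := by
    have h5 : (ζ - 1) • x = 0 := by rw [sub_smul, one_smul, ← h3, sub_self]
    rcases smul_eq_zero.mp h5 with h | h
    · exact sub_eq_zero.mp h
    · exact absurd h hx
  apply Subtype.ext
  apply Subtype.ext
  rw [hζ, h4, one_smul]

/-! ### Linear algebra of the form -/

theorem hh_zero_left (hF : Fintype.card F = q ^ 2) (v : V) : hh 0 v = 0 := herm_zero_left hF n v

theorem hh_zero_right (hF : Fintype.card F = q ^ 2) (v : V) : hh v 0 = 0 := herm_zero_right hF n v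

theorem hh_neg_left (u v : V) : hh (-u) v = -hh u v := by
  have := herm_smul_left (q := q) n (-1 : F) u v
  rwa [neg_smul, one_smul, neg_one_mul] at this

theorem hh_neg_right (hF : Fintype.card F = q ^ 2) (u v : V) : hh u (-v) = -hh u v := by
  have := herm_sub_right hF n u 0 v
  rwa [zero_sub, hh_zero_right hF, zero_sub] at this

theorem hh_swap_zero (hF : Fintype.card F = q ^ 2) {u v : V} (h : hh u v = 0) : hh v u = 0 := by
  rw [← herm_conj hF, h, conj_zero hF]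

theorem hh_self_fix (hF : Fintype.card F = q ^ 2) (u : V) : hh u u ^ q = hh u u := herm_conj hF n u u

/-- A vector perpendicular to everything is zero. -/
theorem eq_zero_of_perp (hF : Fintype.card F = q ^ 2) {u : V} (h : ∀ y : V, hh y u = 0) :
    u = 0 := by
  classical
  have hq : q ≠ 0 := by have := two_le_q hF; omega
  funext i
  have h2 : hh u (Pi.single i 1) = 0 := hh_swap_zero hF (h _)
  rw [herm_single_right hq] at h2
  exact h2

theorem exists_hh_ne_zero (hF : Fintype.card F = q ^ 2) {u : V} (hu : u ≠ 0) :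
    ∃ y : V, hh y u ≠ 0 := by
  by_contra hcon
  push Not at hcon
  exact hu (eq_zero_of_perp hF hcon)

theorem herm_eq_dot (t a : V) : hh t a = (fun i => a i ^ q) ⬝ᵥ t := by
  rw [herm_def, dotProduct]
  exact Finset.sum_congr rfl fun i _ => mul_comm _ _

/-- Two vectors have a common non-zero perpendicular vector when `n ≥ 3`. -/
theorem exists_perp2 (hn : 3 ≤ n) (a b : V) : ∃ x : V, x ≠ 0 ∧ hh x a = 0 ∧ hh x b = 0 := by
  let L : V →ₗ[F] (Fin 2 → F) :=
    (Matrix.of ![fun i => a i ^ q, fun i => b i ^ q]).mulVecLin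
  have hker : LinearMap.ker L ≠ ⊥ := by
    apply LinearMap.ker_ne_bot_of_finrank_lt
    rw [Module.finrank_fin_fun, Module.finrank_fin_fun]
    omega
  obtain ⟨x, hx, hx0⟩ := (Submodule.ne_bot_iff _).mp hker
  refine ⟨x, hx0, ?_, ?_⟩
  · have := congrFun (LinearMap.mem_ker.mp hx) 0
    rw [herm_eq_dot]
    exact this
  · have := congrFun (LinearMap.mem_ker.mp hx) 1
    rw [herm_eq_dot]
    exact this

/-- Three vectors have a common non-zero perpendicular vector when `n ≥ 4`. -/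
theorem exists_perp3 (hn : 4 ≤ n) (a b c : V) :
    ∃ x : V, x ≠ 0 ∧ hh x a = 0 ∧ hh x b = 0 ∧ hh x c = 0 := by
  let L : V →ₗ[F] (Fin 3 → F) :=
    (Matrix.of ![fun i => a i ^ q, fun i => b i ^ q, fun i => c i ^ q]).mulVecLin
  have hker : LinearMap.ker L ≠ ⊥ := by
    apply LinearMap.ker_ne_bot_of_finrank_lt
    rw [Module.finrank_fin_fun, Module.finrank_fin_fun]
    omega
  obtain ⟨x, hx, hx0⟩ := (Submodule.ne_bot_iff _).mp hker
  refine ⟨x, hx0, ?_, ?_, ?_⟩
  · have := congrFun (LinearMap.mem_ker.mp hx) 0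
    rw [herm_eq_dot]
    exact this
  · have := congrFun (LinearMap.mem_ker.mp hx) 1
    rw [herm_eq_dot]
    exact this
  · have := congrFun (LinearMap.mem_ker.mp hx) 2
    rw [herm_eq_dot]
    exact this

/-- The functional `t ↦ h(t, a)`. -/
def hL (q : ℕ) (a : Fin n → F) : (Fin n → F) →ₗ[F] F where
  toFun t := Cfsg.hermForm n F q t a
  map_add' := fun x y => herm_add_left n x y a
  map_smul' := fun c x => by
    rw [herm_smul_left, RingHom.id_apply, smul_eq_mul]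

theorem hL_apply (a t : V) : hL q a t = hh t a := rfl

/-- Double perpendicular of a pair of vectors. -/
theorem mem_span_pair_of_perp (hF : Fintype.card F = q ^ 2) {a b z : V}
    (h : ∀ t : V, hh t a = 0 → hh t b = 0 → hh t z = 0) : ∃ l k : F, z = l • a + k • b := by
  have h1 : ⨅ i, LinearMap.ker (![hL q a, hL q b] i) ≤ LinearMap.ker (hL q z) := by
    intro t ht
    rw [Submodule.mem_iInf] at ht
    rw [LinearMap.mem_ker]
    exact h t (LinearMap.mem_ker.mp (ht 0)) (LinearMap.mem_ker.mp (ht 1))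
  have h2 := mem_span_of_iInf_ker_le_ker h1
  rw [Submodule.mem_span_range_iff_exists_fun] at h2
  obtain ⟨c, hc⟩ := h2
  rw [Fin.sum_univ_two] at hc
  refine ⟨c 0 ^ q, c 1 ^ q, ?_⟩
  have h3 : ∀ t : V, hh t (z - (c 0 ^ q • a + c 1 ^ q • b)) = 0 := by
    intro t
    have h4 := LinearMap.congr_fun hc t
    have h5 : c 0 * hh t a + c 1 * hh t b = hh t z := h4
    rw [herm_sub_right hF, herm_add_right hF, herm_smul_right, herm_smul_right, conj_conj hF,
      conj_conj hF, ← h5]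
    ring
  exact sub_eq_zero.mp (eq_zero_of_perp hF h3)

/-! ### Parallel vectors -/

/-- `v` is a non-zero multiple of `u`. -/
def Par (u v : Fin n → F) : Prop := ∃ a : F, a ≠ 0 ∧ v = a • u

theorem Par.rfl' (u : V) : Par u u := ⟨1, one_ne_zero, (one_smul F u).symm⟩

theorem Par.symm {u v : V} (h : Par u v) : Par v u := by
  obtain ⟨a, ha, rfl⟩ := h
  exact ⟨a⁻¹, inv_ne_zero ha, by rw [smul_smul, inv_mul_cancel₀ ha, one_smul]⟩

theorem Par.trans {u v w : V} (h₁ : Par u v) (h₂ : Par v w) : Par u w := by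
  obtain ⟨a, ha, rfl⟩ := h₁
  obtain ⟨b, hb, rfl⟩ := h₂
  exact ⟨b * a, mul_ne_zero hb ha, by rw [smul_smul]⟩

theorem Par.ne_zero {u v : V} (h : Par u v) (hu : u ≠ 0) : v ≠ 0 := by
  obtain ⟨a, ha, rfl⟩ := h
  exact smul_ne_zero ha hu

theorem Par.perp_iff {u v : V} (h : Par u v) (y : V) : hh v y = 0 ↔ hh u y = 0 := by
  obtain ⟨a, ha, rfl⟩ := h
  rw [herm_smul_left, mul_eq_zero]
  exact ⟨fun h => h.resolve_left ha, fun h => Or.inr h⟩

theorem Par.perp_iff' {u v : V} (h : Par u v) (y : V) : hh y v = 0 ↔ hh y u = 0 := by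
  obtain ⟨a, ha, rfl⟩ := h
  rw [herm_smul_right, mul_eq_zero]
  exact ⟨fun h => h.resolve_left (pow_ne_zero _ ha), fun h => Or.inr h⟩

theorem Par.mulVec {u v : V} (h : Par u v) (A : Mx) : Par (A *ᵥ u) (A *ᵥ v) := by
  obtain ⟨a, ha, rfl⟩ := h
  exact ⟨a, ha, Matrix.mulVec_smul _ _ _⟩

theorem Par.iso {u v : V} (h : Par u v) (hu : hh u u = 0) : hh v v = 0 := by
  rw [h.perp_iff, h.perp_iff']
  exact hu

theorem Par.smul {u : V} {a : F} (ha : a ≠ 0) : Par u (a • u) := ⟨a, ha, rfl⟩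

/-- Two non-zero vectors with the same perpendicular space are parallel. -/
theorem par_of_perp_imp (hF : Fintype.card F = q ^ 2) {u v : V} (hv : v ≠ 0)
    (h : ∀ y : V, hh y u = 0 → hh y v = 0) : Par u v := by
  obtain ⟨l, k, e⟩ := mem_span_pair_of_perp hF (a := u) (b := u) (z := v) (fun t h1 _ => h t h1)
  refine ⟨l + k, ?_, by rw [e, add_smul]⟩
  intro h0
  rw [← add_smul, h0, zero_smul] at e
  exact hv e

/-! ### Skew elements -/

theorem skew_add (hF : Fintype.card F = q ^ 2) {c d : F} (hc : c ^ q = -c) (hd : d ^ q = -d) :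
    (c + d) ^ q = -(c + d) := by
  rw [conj_add hF, hc, hd]
  ring

theorem skew_zero (hF : Fintype.card F = q ^ 2) : (0 : F) ^ q = -0 := by
  rw [conj_zero hF, neg_zero]

theorem skew_neg (hF : Fintype.card F = q ^ 2) {c : F} (hc : c ^ q = -c) : (-c) ^ q = -(-c) := by
  rw [conj_neg hF, hc]

theorem skew_norm_mul (hF : Fintype.card F = q ^ 2) (a : F) {c : F} (hc : c ^ q = -c) :
    (a ^ (q + 1) * c) ^ q = -(a ^ (q + 1) * c) := by
  rw [mul_pow, norm_fixed hF, hc]
  ring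

/-! ### Transvections -/

/-- The unitary transvection `x ↦ x + c h(x, u) u` as an element of `SU` (junk value `1`). -/
noncomputable def tvU (u : Fin n → F) (c : F) : ↥(Cfsg.SU n F q) :=
  toSU (Cfsg.unitaryTransvection n q u c)

theorem tvU_coe (hF : Fintype.card F = q ^ 2) {u : V} (hu : hh u u = 0) {c : F}
    (hc : c ^ q = -c) : (tvU u c : SUn).1.1 = Cfsg.unitaryTransvection n q u c :=
  toSU_coe (isHermIso_utransv hF u c hu hc) (det_utransv u c hu)

theorem tvU_mulVec (hF : Fintype.card F = q ^ 2) {u : V} (hu : hh u u = 0) {c : F}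
    (hc : c ^ q = -c) (x : V) : (tvU u c : SUn).1.1 *ᵥ x = x + (c * hh x u) • u := by
  rw [tvU_coe hF hu hc, utransv_mulVec]

theorem conj_tvU (hF : Fintype.card F = q ^ 2) (g : SUn) {u : V} (hu : hh u u = 0) {c : F}
    (hc : c ^ q = -c) : g * tvU u c * g⁻¹ = tvU (g.1.1 *ᵥ u) c := by
  have hu' : hh (g.1.1 *ᵥ u) (g.1.1 *ᵥ u) = 0 := by rw [hh_su, hu]
  apply su_ext'
  intro x
  rw [mulVec_mul, mulVec_mul, tvU_mulVec hF hu hc, tvU_mulVec hF hu' hc, Matrix.mulVec_add,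
    mulVec_inv, Matrix.mulVec_smul, hh_su_inv]

theorem tvU_mul (hF : Fintype.card F = q ^ 2) {u : V} (hu : hh u u = 0) {c d : F}
    (hc : c ^ q = -c) (hd : d ^ q = -d) : (tvU u c : SUn) * tvU u d = tvU u (c + d) := by
  apply su_ext'
  intro x
  rw [mulVec_mul, tvU_mulVec hF hu hd, tvU_mulVec hF hu hc, tvU_mulVec hF hu (skew_add hF hc hd),
    herm_add_left, herm_smul_left, hu]
  module

theorem tvU_zero (u : V) : (tvU u (0 : F) : SUn) = 1 := by
  unfold tvU
  rw [utransv_zero, toSU_one]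

theorem tvU_inv (hF : Fintype.card F = q ^ 2) {u : V} (hu : hh u u = 0) {c : F}
    (hc : c ^ q = -c) : (tvU u c : SUn)⁻¹ = tvU u (-c) := by
  rw [inv_eq_iff_mul_eq_one, tvU_mul hF hu hc (skew_neg hF hc), add_neg_cancel, tvU_zero]

theorem tvU_smul (hF : Fintype.card F = q ^ 2) (a : F) {u : V} (hu : hh u u = 0) {c : F}
    (hc : c ^ q = -c) : (tvU (a • u) c : SUn) = tvU u (a ^ (q + 1) * c) := by
  unfold tvU
  rw [utransv_smul]

theorem tvU_fix (hF : Fintype.card F = q ^ 2) {u x : V} (hu : hh u u = 0) {c : F}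
    (hc : c ^ q = -c) (h : hh x u = 0) : (tvU u c : SUn).1.1 *ᵥ x = x := by
  rw [tvU_mulVec hF hu hc, h, mul_zero, zero_smul, add_zero]

theorem tvU_pow (hF : Fintype.card F = q ^ 2) {u : V} (hu : hh u u = 0) {c : F}
    (hc : c ^ q = -c) (k : ℕ) : (tvU u c : SUn) ^ k = tvU u (k * c) := by
  have hk : ∀ k : ℕ, ((k : F) * c) ^ q = -((k : F) * c) := by
    intro k
    have h1 : ((k : F)) ^ q = k := by
      have := map_natCast (sigmaQ hF) k
      rwa [sigmaQ_apply] at this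
    rw [mul_pow, h1, hc]
    ring
  induction k with
  | zero => rw [pow_zero, Nat.cast_zero, zero_mul, tvU_zero]
  | succ k ih =>
    rw [pow_succ, ih, tvU_mul hF hu (hk k) hc]
    congr 1
    push_cast
    ring

theorem tvU_comm (hF : Fintype.card F = q ^ 2) {u v : V} (hu : hh u u = 0) (hv : hh v v = 0)
    (h : hh u v = 0) {c d : F} (hc : c ^ q = -c) (hd : d ^ q = -d) :
    (tvU u c : SUn) * tvU v d = tvU v d * tvU u c := by
  have h' : hh v u = 0 := hh_swap_zero hF h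
  apply su_ext'
  intro x
  rw [mulVec_mul, mulVec_mul, tvU_mulVec hF hv hd, tvU_mulVec hF hu hc, tvU_mulVec hF hu hc,
    tvU_mulVec hF hv hd]
  simp only [herm_add_left, herm_smul_left, h, h']
  module

theorem tvU_ne_one (hF : Fintype.card F = q ^ 2) {u : V} (hu0 : u ≠ 0) (hu : hh u u = 0)
    {c : F} (hc : c ^ q = -c) (hc0 : c ≠ 0) : (tvU u c : SUn) ≠ 1 := by
  intro h
  obtain ⟨y, hy⟩ := exists_hh_ne_zero hF hu0
  have := congrArg (fun M : SUn => M.1.1 *ᵥ y) h
  simp only [tvU_mulVec hF hu hc, mulVec_one] at this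
  have h2 : (c * hh y u) • u = 0 := by
    have := sub_eq_zero.mpr this
    rwa [add_sub_cancel_left] at this
  rcases smul_eq_zero.mp h2 with h3 | h3
  · exact (mul_ne_zero hc0 hy) h3
  · exact hu0 h3

/-- Equal non-trivial transvections have parallel centres. -/
theorem par_of_tvU_eq (hF : Fintype.card F = q ^ 2) {u v : V} (hu0 : u ≠ 0) (hu : hh u u = 0)
    (hv : hh v v = 0) {c d : F} (hc : c ^ q = -c) (hd : d ^ q = -d) (hc0 : c ≠ 0)
    (h : (tvU u c : SUn) = tvU v d) : Par v u := by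
  obtain ⟨y, hy⟩ := exists_hh_ne_zero hF hu0
  have := congrArg (fun M : SUn => M.1.1 *ᵥ y) h
  simp only [tvU_mulVec hF hu hc, tvU_mulVec hF hv hd] at this
  have h2 : (c * hh y u) • u = (d * hh y v) • v := add_left_cancel this
  have h3 : u = ((c * hh y u)⁻¹ * (d * hh y v)) • v := by
    rw [← smul_smul, ← h2, smul_smul, inv_mul_cancel₀ (mul_ne_zero hc0 hy), one_smul]
  refine ⟨_, ?_, h3⟩
  intro h0
  rw [h0, zero_smul] at h3
  exact hu0 h3

/-! ### Root subgroups in `PSU` -/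

/-- The image in `PSU` of the transvection group with centre `u`. -/
def Rt (u : Fin n → F) : Set (Cfsg.PSU n F q) := {x | ∃ c : F, c ^ q = -c ∧ pm (tvU u c) = x}

theorem one_mem_Rt (hF : Fintype.card F = q ^ 2) (u : V) : (1 : PSUn) ∈ Rt u :=
  ⟨0, skew_zero hF, by rw [tvU_zero, map_one]⟩

theorem Rt_smul (hF : Fintype.card F = q ^ 2) {a : F} (ha : a ≠ 0) {u : V} (hu : hh u u = 0) :
    (Rt (a • u) : Set PSUn) = Rt u := by
  ext x
  constructor
  · rintro ⟨c, hc, rfl⟩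
    exact ⟨a ^ (q + 1) * c, skew_norm_mul hF a hc, by rw [tvU_smul hF a hu hc]⟩
  · rintro ⟨c, hc, rfl⟩
    have hN : a ^ (q + 1) ≠ 0 := pow_ne_zero _ ha
    have hc' : (c / a ^ (q + 1)) ^ q = -(c / a ^ (q + 1)) := by
      rw [div_pow, norm_fixed hF, hc, neg_div]
    refine ⟨c / a ^ (q + 1), hc', ?_⟩
    rw [tvU_smul hF a hu hc', mul_div_cancel₀ _ hN]

theorem Rt_eq_of_par (hF : Fintype.card F = q ^ 2) {u v : V} (hu : hh u u = 0) (h : Par u v) :
    (Rt u : Set PSUn) = Rt v := by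
  obtain ⟨a, ha, rfl⟩ := h
  exact (Rt_smul hF ha hu).symm

theorem conj_mem_Rt (hF : Fintype.card F = q ^ 2) (g : SUn) {u : V} (hu : hh u u = 0) {x : PSUn}
    (hx : x ∈ Rt u) : pm g * x * (pm g)⁻¹ ∈ Rt (g.1.1 *ᵥ u) := by
  obtain ⟨c, hc, rfl⟩ := hx
  exact ⟨c, hc, by rw [← conj_tvU hF g hu hc, map_mul, map_mul, map_inv]⟩

theorem conj_Rt (hF : Fintype.card F = q ^ 2) (g : SUn) {u : V} (hu : hh u u = 0) :
    (fun x => pm g * x * (pm g)⁻¹) '' Rt u = Rt (g.1.1 *ᵥ u) := by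
  apply Set.Subset.antisymm
  · rintro _ ⟨x, hx, rfl⟩
    exact conj_mem_Rt hF g hu hx
  · intro y hy
    refine ⟨(pm g)⁻¹ * y * pm g, ?_, by group⟩
    have hu' : hh (g.1.1 *ᵥ u) (g.1.1 *ᵥ u) = 0 := by rw [hh_su, hu]
    have := conj_mem_Rt hF g⁻¹ hu' hy
    rwa [inv_mulVec, map_inv, inv_inv] at this

theorem tvU_eq_of_pm_eq (hF : Fintype.card F = q ^ 2) (hn : 3 ≤ n) {u v : V} (hu : hh u u = 0)
    (hv : hh v v = 0) {c d : F} (hc : c ^ q = -c) (hd : d ^ q = -d)
    (h : pm (tvU u c : SUn) = pm (tvU v d)) : (tvU u c : SUn) = tvU v d := by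
  obtain ⟨x, hx, h1, h2⟩ := exists_perp2 (q := q) hn u v
  exact eq_of_pm_eq_of_fix hF (by omega) h hx (tvU_fix hF hu hc h1) (tvU_fix hF hv hd h2)

theorem pm_tvU_ne_one (hF : Fintype.card F = q ^ 2) (hn : 3 ≤ n) {u : V} (hu0 : u ≠ 0)
    (hu : hh u u = 0) {c : F} (hc : c ^ q = -c) (hc0 : c ≠ 0) : pm (tvU u c : SUn) ≠ 1 := by
  intro h
  apply tvU_ne_one hF hu0 hu hc hc0
  have h1 : pm (tvU u c : SUn) = pm (tvU u 0) := by rw [h, tvU_zero, map_one]
  rw [tvU_eq_of_pm_eq hF hn hu hu hc (skew_zero hF) h1, tvU_zero]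

theorem par_of_Rt_eq (hF : Fintype.card F = q ^ 2) (hn : 3 ≤ n) {u v : V} (hu0 : u ≠ 0)
    (hu : hh u u = 0) (hv : hh v v = 0) (h : (Rt u : Set PSUn) = Rt v) : Par v u := by
  obtain ⟨i, hi0, hi⟩ := exists_skew hF
  have h1 : pm (tvU u i : SUn) ∈ (Rt v : Set PSUn) := by
    rw [← h]
    exact ⟨i, hi, rfl⟩
  obtain ⟨d, hd, hd'⟩ := h1
  exact par_of_tvU_eq hF hu0 hu hv hi hd hi0 (tvU_eq_of_pm_eq hF hn hv hu hd hi hd').symm

/-- Root subgroups commute exactly when their centres are perpendicular. -/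
theorem Rt_comm_iff (hF : Fintype.card F = q ^ 2) (hn : 3 ≤ n) {u v : V} (hu0 : u ≠ 0)
    (hu : hh u u = 0) (hv : hh v v = 0) :
    (∀ x ∈ (Rt u : Set PSUn), ∀ y ∈ (Rt v : Set PSUn), x * y = y * x) ↔ hh u v = 0 := by
  constructor
  · intro h
    obtain ⟨i, hi0, hi⟩ := exists_skew hF
    have h0 := h _ ⟨i, hi, rfl⟩ _ ⟨i, hi, rfl⟩
    rw [← map_mul, ← map_mul] at h0
    obtain ⟨x, hx, h1, h2⟩ := exists_perp2 (q := q) hn u v
    have h3 : (tvU u i : SUn) * tvU v i = tvU v i * tvU u i := by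
      apply eq_of_pm_eq_of_fix hF (by omega) h0 hx
      · rw [mulVec_mul, tvU_fix hF hv hi h2, tvU_fix hF hu hi h1]
      · rw [mulVec_mul, tvU_fix hF hu hi h1, tvU_fix hF hv hi h2]
    have h4 := congrArg (fun M : SUn => M.1.1 *ᵥ u) h3
    simp only [mulVec_mul, tvU_mulVec hF hu hi, tvU_mulVec hF hv hi, herm_add_left,
      herm_smul_left, hu, mul_zero, zero_smul, add_zero] at h4
    by_contra hne
    have h5 : (i * (i * hh u v * hh v u)) • u = 0 := by
      have := sub_eq_zero.mpr h4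
      rw [← this]
      module
    rcases smul_eq_zero.mp h5 with h6 | h6
    · have : hh v u ≠ 0 := fun h7 => hne (hh_swap_zero hF h7)
      exact (mul_ne_zero hi0 (mul_ne_zero (mul_ne_zero hi0 hne) this)) h6
    · exact hu0 h6
  · rintro h x ⟨c, hc, rfl⟩ y ⟨d, hd, rfl⟩
    rw [← map_mul, ← map_mul, tvU_comm hF hu hv h hc hd]

end Cfsg.Agent.Lib.Helper43.AutPSU
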