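import Mathlib
import Cfsg.Agent.Lib.Helper43.AutPSU.Basic

set_option autoImplicit false

/-!
# Hyperbolic frames and the radical `E(w, c)` of a point stabiliser in `SU_n(q)`
-/

namespace Cfsg.Agent.Lib.Helper43.AutPSU

open Matrix Cfsg.Agent.Lib.Helper13 Cfsg.Agent.Lib.Helper45 Cfsg.Agent.Lib.Helper44

set_option linter.unusedSectionVars false

variable {n : ℕ} {F : Type*} [Field F] [Fintype F] {q : ℕ}

local notation "V" => Fin n → F
local notation "Mx" => Matrix (Fin n) (Fin n) F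
set_option quotPrecheck false in
local notation "SUn" => ↥(Cfsg.SU n F q)
local notation "PSUn" => Cfsg.PSU n F q
local notation "hh" => Cfsg.hermForm n F q

/-- A hyperbolic pair. -/
structure HFrame (n : ℕ) (F : Type*) [Field F] (q : ℕ) where
  e : Fin n → F
  f : Fin n → F
  ee : Cfsg.hermForm n F q e e = 0
  ff : Cfsg.hermForm n F q f f = 0
  ef : Cfsg.hermForm n F q e f = 1
  fe : Cfsg.hermForm n F q f e = 1

theorem exists_frame (hF : Fintype.card F = q ^ 2) (hn : 2 ≤ n) : Nonempty (HFrame n F q) := by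
  classical
  obtain ⟨v, hv0, hv⟩ := exists_isotropic_ne_zero (n := n) hF hn
  obtain ⟨f, hf, hvf, hfv⟩ := exists_hyp_partner hF v hv0 hv
  exact ⟨⟨v, f, hv, hf, hvf, hfv⟩⟩

variable (Fr : HFrame n F q)

theorem HFrame.e_ne_zero (hF : Fintype.card F = q ^ 2) : Fr.e ≠ 0 := by
  intro h
  have := Fr.ef
  rw [h, hh_zero_left hF] at this
  exact zero_ne_one this

theorem HFrame.f_ne_zero (hF : Fintype.card F = q ^ 2) : Fr.f ≠ 0 := by
  intro h
  have := Fr.fe
  rw [h, hh_zero_left hF] at this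
  exact zero_ne_one this

/-- The orthogonal complement of the hyperbolic pair. -/
def InW (w : Fin n → F) : Prop :=
  Cfsg.hermForm n F q w Fr.e = 0 ∧ Cfsg.hermForm n F q w Fr.f = 0

variable {Fr}

theorem InW.zero (hF : Fintype.card F = q ^ 2) : InW Fr (0 : V) :=
  ⟨hh_zero_left hF _, hh_zero_left hF _⟩

theorem InW.add {w w' : V} (h : InW Fr w) (h' : InW Fr w') : InW Fr (w + w') :=
  ⟨by rw [herm_add_left, h.1, h'.1, add_zero], by rw [herm_add_left, h.2, h'.2, add_zero]⟩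

theorem InW.smul {w : V} (h : InW Fr w) (a : F) : InW Fr (a • w) :=
  ⟨by rw [herm_smul_left, h.1, mul_zero], by rw [herm_smul_left, h.2, mul_zero]⟩

theorem InW.neg {w : V} (h : InW Fr w) : InW Fr (-w) := by
  have := h.smul (-1)
  rwa [neg_smul, one_smul] at this

theorem InW.sub {w w' : V} (h : InW Fr w) (h' : InW Fr w') : InW Fr (w - w') := by
  rw [sub_eq_add_neg]
  exact h.add h'.neg

theorem InW.e_left (hF : Fintype.card F = q ^ 2) {w : V} (h : InW Fr w) : hh Fr.e w = 0 :=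
  hh_swap_zero hF h.1

theorem InW.f_left (hF : Fintype.card F = q ^ 2) {w : V} (h : InW Fr w) : hh Fr.f w = 0 :=
  hh_swap_zero hF h.2

variable (Fr)

/-- The projection to the complement. -/
def prW (v : Fin n → F) : Fin n → F :=
  v - Cfsg.hermForm n F q v Fr.f • Fr.e - Cfsg.hermForm n F q v Fr.e • Fr.f

theorem prW_inW (v : V) : InW Fr (prW Fr v) := by
  constructor
  · unfold prW
    rw [herm_sub_left, herm_sub_left, herm_smul_left, herm_smul_left, Fr.ee, Fr.fe]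
    ring
  · unfold prW
    rw [herm_sub_left, herm_sub_left, herm_smul_left, herm_smul_left, Fr.ef, Fr.ff]
    ring

theorem decomp (v : V) : v = hh v Fr.f • Fr.e + hh v Fr.e • Fr.f + prW Fr v := by
  unfold prW
  module

variable {Fr}

theorem prW_of_inW {w : V} (h : InW Fr w) : prW Fr w = w := by
  unfold prW
  rw [h.1, h.2, zero_smul, zero_smul, sub_zero, sub_zero]

theorem hh_prW (hF : Fintype.card F = q ^ 2) (v : V) {y : V} (hy : InW Fr y) :
    hh (prW Fr v) y = hh v y := by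
  unfold prW
  rw [herm_sub_left, herm_sub_left, herm_smul_left, herm_smul_left, hy.e_left hF, hy.f_left hF,
    mul_zero, mul_zero, sub_zero, sub_zero]

theorem hh_prW' (hF : Fintype.card F = q ^ 2) (v : V) {y : V} (hy : InW Fr y) :
    hh y (prW Fr v) = hh y v := by
  unfold prW
  rw [herm_sub_right hF, herm_sub_right hF, herm_smul_right, herm_smul_right, hy.1, hy.2,
    mul_zero, mul_zero, sub_zero, sub_zero]

variable (Fr)

theorem prW_add (u v : V) : prW Fr (u + v) = prW Fr u + prW Fr v := by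
  unfold prW
  rw [herm_add_left, herm_add_left]
  module

theorem prW_smul (a : F) (v : V) : prW Fr (a • v) = a • prW Fr v := by
  unfold prW
  rw [herm_smul_left, herm_smul_left]
  module

theorem prW_e : prW Fr Fr.e = 0 := by
  unfold prW
  rw [Fr.ef, Fr.ee]
  module

theorem prW_f : prW Fr Fr.f = 0 := by
  unfold prW
  rw [Fr.fe, Fr.ff]
  module

theorem prW_zero (hF : Fintype.card F = q ^ 2) : prW Fr (0 : V) = 0 :=
  prW_of_inW (InW.zero hF)

variable {Fr}

/-- A vector of the complement perpendicular to the complement is zero. -/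
theorem eq_zero_of_inW_perp (hF : Fintype.card F = q ^ 2) {w : V} (hw : InW Fr w)
    (h : ∀ y : V, InW Fr y → hh y w = 0) : w = 0 := by
  apply eq_zero_of_perp hF
  intro y
  rw [decomp Fr y, herm_add_left, herm_add_left, herm_smul_left, herm_smul_left, hw.e_left hF,
    hw.f_left hF, h _ (prW_inW Fr y)]
  ring

/-- Two matrices agreeing on the hyperbolic pair and its complement are equal. -/
theorem mx_ext_frame {A C : Mx} (he : A *ᵥ Fr.e = C *ᵥ Fr.e) (hf : A *ᵥ Fr.f = C *ᵥ Fr.f)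
    (hw : ∀ w : V, InW Fr w → A *ᵥ w = C *ᵥ w) : A = C := by
  rw [Matrix.ext_iff_mulVec]
  intro v
  rw [decomp Fr v, Matrix.mulVec_add, Matrix.mulVec_add, Matrix.mulVec_smul, Matrix.mulVec_smul,
    Matrix.mulVec_add, Matrix.mulVec_add, Matrix.mulVec_smul, Matrix.mulVec_smul, he, hf,
    hw _ (prW_inW Fr v)]

theorem exists_inW_ne_zero (hn : 3 ≤ n) : ∃ w : V, InW Fr w ∧ w ≠ 0 := by
  obtain ⟨x, hx, h1, h2⟩ := exists_perp2 (q := q) hn Fr.e Fr.f
  exact ⟨x, ⟨h1, h2⟩, hx⟩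

/-- Every non-zero vector of the complement has a partner in the complement. -/
theorem exists_inW_pair (hF : Fintype.card F = q ^ 2) {w : V} (hw : InW Fr w) (hw0 : w ≠ 0) :
    ∃ w' : V, InW Fr w' ∧ hh w w' = 1 := by
  obtain ⟨y, hy⟩ := exists_hh_ne_zero hF hw0
  have h1 : hh w (prW Fr y) ≠ 0 := by
    intro h
    apply hy
    rw [← hh_prW hF y hw]
    exact hh_swap_zero hF h
  refine ⟨((hh w (prW Fr y))⁻¹) ^ q • prW Fr y, (prW_inW Fr y).smul _, ?_⟩
  rw [herm_smul_right, conj_conj hF, inv_mul_cancel₀ h1]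

/-! ### The radical -/

variable (Fr)

/-- The pairs `(w, c)` parametrising the radical. -/
def Val (w : Fin n → F) (c : F) : Prop :=
  InW Fr w ∧ c + c ^ q + Cfsg.hermForm n F q w w = 0

/-- The Siegel element `x ↦ x + h(x,e) w - h(x,w) e + c h(x,e) e`. -/
noncomputable def Em (w : Fin n → F) (c : F) : ↥(Cfsg.SU n F q) := toSU (siegel q Fr.e w c)

variable {Fr}

theorem Em_coe (hF : Fintype.card F = q ^ 2) {w : V} {c : F} (hv : Val Fr w c) :
    (Em Fr w c).1.1 = siegel q Fr.e w c :=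
  toSU_coe (isHermIso_siegel hF Fr.e w c Fr.ee hv.1.1 hv.2)
    (det_siegel Fr.e w c Fr.ee hv.1.1 (hv.1.e_left hF))

theorem Em_mulVec (hF : Fintype.card F = q ^ 2) {w : V} {c : F} (hv : Val Fr w c) (x : V) :
    (Em Fr w c).1.1 *ᵥ x = x + hh x Fr.e • w - hh x w • Fr.e + (c * hh x Fr.e) • Fr.e := by
  rw [Em_coe hF hv, siegel_mulVec _ _ _ Fr.ee]

theorem Em_e (hF : Fintype.card F = q ^ 2) {w : V} {c : F} (hv : Val Fr w c) :
    (Em Fr w c).1.1 *ᵥ Fr.e = Fr.e := by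
  rw [Em_mulVec hF hv, Fr.ee, hv.1.e_left hF]
  module

theorem Em_f (hF : Fintype.card F = q ^ 2) {w : V} {c : F} (hv : Val Fr w c) :
    (Em Fr w c).1.1 *ᵥ Fr.f = Fr.f + w + c • Fr.e := by
  rw [Em_mulVec hF hv, Fr.fe, hv.1.f_left hF]
  module

theorem Em_perp (hF : Fintype.card F = q ^ 2) {w : V} {c : F} (hv : Val Fr w c) {y : V}
    (hy : hh y Fr.e = 0) : (Em Fr w c).1.1 *ᵥ y = y - hh y w • Fr.e := by
  rw [Em_mulVec hF hv, hy]
  module

theorem Val.mul (hF : Fintype.card F = q ^ 2) {w w' : V} {c c' : F} (hv : Val Fr w c)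
    (hv' : Val Fr w' c') : Val Fr (w + w') (c + c' - hh w' w) :=
  ⟨hv.1.add hv'.1, siegel_valid_add hF w w' c c' hv.2 hv'.2⟩

theorem Em_mul (hF : Fintype.card F = q ^ 2) {w w' : V} {c c' : F} (hv : Val Fr w c)
    (hv' : Val Fr w' c') : Em Fr w c * Em Fr w' c' = Em Fr (w + w') (c + c' - hh w' w) := by
  apply Subtype.ext
  apply Subtype.ext
  rw [coe_mul, Em_coe hF hv, Em_coe hF hv', Em_coe hF (hv.mul hF hv')]
  exact siegel_mul hF Fr.e w w' c c' Fr.ee hv'.1.1 (hv.1.e_left hF)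

theorem Val.zero (hF : Fintype.card F = q ^ 2) {c : F} (hc : c ^ q = -c) : Val Fr (0 : V) c := by
  refine ⟨InW.zero hF, ?_⟩
  rw [hc, hh_zero_left hF]
  ring

theorem Val.skew (hF : Fintype.card F = q ^ 2) {c : F} (hv : Val Fr (0 : V) c) : c ^ q = -c := by
  have := hv.2
  rw [hh_zero_left hF] at this
  linear_combination this

theorem Em_zero (hF : Fintype.card F = q ^ 2) {c : F} (hc : c ^ q = -c) :
    Em Fr (0 : V) c = tvU Fr.e c := by
  unfold Em tvU
  rw [siegel_zero hF Fr.e c Fr.ee]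

theorem Em_zero_zero (hF : Fintype.card F = q ^ 2) : Em Fr (0 : V) (0 : F) = 1 := by
  rw [Em_zero hF (skew_zero hF), tvU_zero]

theorem Val.neg (hF : Fintype.card F = q ^ 2) {w : V} {c : F} (hv : Val Fr w c) :
    Val Fr (-w) (c ^ q) :=
  ⟨hv.1.neg, siegel_inv_valid hF w c hv.2⟩

theorem Em_inv (hF : Fintype.card F = q ^ 2) {w : V} {c : F} (hv : Val Fr w c) :
    (Em Fr w c)⁻¹ = Em Fr (-w) (c ^ q) := by
  symm
  rw [eq_inv_iff_mul_eq_one]
  apply Subtype.ext
  apply Subtype.ext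
  rw [coe_mul, Em_coe hF hv, Em_coe hF (hv.neg hF)]
  exact siegel_inv hF Fr.e w c Fr.ee hv.1.1 hv.2

theorem Em_inj (hF : Fintype.card F = q ^ 2) {w w' : V} {c c' : F} (hv : Val Fr w c)
    (hv' : Val Fr w' c') (h : Em Fr w c = Em Fr w' c') : w = w' ∧ c = c' := by
  have h1 := congrArg (fun M : SUn => M.1.1 *ᵥ Fr.f) h
  simp only [Em_f hF hv, Em_f hF hv'] at h1
  have h2 : c = c' := by
    have := congrArg (fun v : V => hh v Fr.f) h1
    simp only [herm_add_left, herm_smul_left, Fr.ff, hv.1.2, hv'.1.2, Fr.ef] at this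
    simpa using this
  subst h2
  refine ⟨?_, rfl⟩
  have := add_right_cancel h1
  exact add_left_cancel this

theorem pm_Em_inj (hF : Fintype.card F = q ^ 2) (hn : 1 ≤ n) {w w' : V} {c c' : F}
    (hv : Val Fr w c) (hv' : Val Fr w' c') (h : pm (Em Fr w c) = pm (Em Fr w' c')) :
    w = w' ∧ c = c' :=
  Em_inj hF hv hv' (eq_of_pm_eq_of_fix hF hn h (Fr.e_ne_zero hF) (Em_e hF hv) (Em_e hF hv'))

theorem exists_val (hF : Fintype.card F = q ^ 2) {w : V} (hw : InW Fr w) : ∃ c : F, Val Fr w c := by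
  obtain ⟨c, hc⟩ := exists_trace_eq hF (-(hh w w)) (by rw [conj_neg hF, hh_self_fix hF])
  exact ⟨c, hw, by rw [hc]; ring⟩

theorem Val.sub_skew (hF : Fintype.card F = q ^ 2) {w : V} {c c' : F} (hv : Val Fr w c)
    (hv' : Val Fr w c') : (c' - c) ^ q = -(c' - c) := by
  rw [conj_sub hF]
  linear_combination hv'.2 - hv.2

theorem Val.add_skew {w : V} {c s : F} (hv : Val Fr w c) (hF : Fintype.card F = q ^ 2)
    (hs : s ^ q = -s) : Val Fr w (c + s) := by
  refine ⟨hv.1, ?_⟩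
  rw [conj_add hF, hs]
  linear_combination hv.2

theorem Em_add_skew (hF : Fintype.card F = q ^ 2) {w : V} {c s : F} (hv : Val Fr w c)
    (hs : s ^ q = -s) : Em Fr w (c + s) = Em Fr w c * Em Fr 0 s := by
  rw [Em_mul hF hv (Val.zero hF hs), hh_zero_left hF, add_zero, sub_zero]

theorem Em_pow (hF : Fintype.card F = q ^ 2) {w : V} {c : F} (hv : Val Fr w c) (k : ℕ) :
    ∃ c' : F, Val Fr ((k : F) • w) c' ∧ Em Fr w c ^ k = Em Fr ((k : F) • w) c' := by
  induction k with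
  | zero =>
    refine ⟨0, ?_, ?_⟩
    · rw [Nat.cast_zero, zero_smul]
      exact Val.zero hF (skew_zero hF)
    · rw [pow_zero, Nat.cast_zero, zero_smul, Em_zero_zero hF]
  | succ k ih =>
    obtain ⟨c', hv', e⟩ := ih
    have h1 : ((k + 1 : ℕ) : F) • w = (k : F) • w + w := by
      push_cast
      module
    refine ⟨c' + c - hh w ((k : F) • w), ?_, ?_⟩
    · rw [h1]
      exact hv'.mul hF hv
    · rw [pow_succ, e, Em_mul hF hv' hv, h1]

theorem Em_pow_p2 (hF : Fintype.card F = q ^ 2) (p : ℕ) [CharP F p] {w : V} {c : F}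
    (hv : Val Fr w c) : Em Fr w c ^ (p ^ 2) = 1 := by
  obtain ⟨c', hv', e⟩ := Em_pow hF hv p
  rw [CharP.cast_eq_zero F p, zero_smul] at hv' e
  have hs := hv'.skew hF
  rw [pow_two, pow_mul, e, Em_zero hF hs, tvU_pow hF Fr.ee hs, CharP.cast_eq_zero F p, zero_mul,
    tvU_zero]

theorem hh_opp (hF : Fintype.card F = q ^ 2) {w : V} (hw : InW Fr w) (c : F) {w' : V}
    (hw' : InW Fr w') (c' : F) :
    hh (Fr.f + w + c • Fr.e) (Fr.f + w' + c' • Fr.e) = c + c' ^ q + hh w w' := by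
  simp only [herm_add_left, herm_add_right hF, herm_smul_left, herm_smul_right, Fr.ee, Fr.ff,
    Fr.ef, Fr.fe, hw.1, hw.2, hw'.e_left hF, hw'.f_left hF]
  ring

/-- An isometry fixing `e` and acting trivially on `e^⊥ / e` is a Siegel element. -/
theorem eq_siegel_of_fix (hF : Fintype.card F = q ^ 2) {M : Mx} (hM : IsHermIso n F q M)
    (he : M *ᵥ Fr.e = Fr.e) (hw : ∀ w : V, InW Fr w → ∃ a : F, M *ᵥ w = w + a • Fr.e) :
    ∃ (w : V) (c : F), Val Fr w c ∧ M = siegel q Fr.e w c := by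
  obtain ⟨y, hy⟩ : ∃ y : V, y = M *ᵥ Fr.f := ⟨_, rfl⟩
  have hye : hh y Fr.e = 1 := by
    have := hM Fr.f Fr.e
    rwa [he, Fr.fe, ← hy] at this
  have hyy : hh y y = 0 := by
    have := hM Fr.f Fr.f
    rwa [Fr.ff, ← hy] at this
  have hW := prW_inW Fr y
  have hdec : y = Fr.f + prW Fr y + hh y Fr.f • Fr.e := by
    have := decomp Fr y
    rw [hye, one_smul] at this
    nth_rewrite 1 [this]
    module
  have hval : Val Fr (prW Fr y) (hh y Fr.f) := by
    refine ⟨hW, ?_⟩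
    have h1 := hh_opp hF hW (hh y Fr.f) hW (hh y Fr.f)
    rw [← hdec, hyy] at h1
    linear_combination -h1
  refine ⟨prW Fr y, hh y Fr.f, hval, ?_⟩
  apply mx_ext_frame (Fr := Fr)
  · rw [he, ← Em_coe hF hval, Em_e hF hval]
  · rw [← hy, ← Em_coe hF hval, Em_f hF hval]
    exact hdec
  · intro w hw'
    obtain ⟨a, ha⟩ := hw w hw'
    rw [ha, ← Em_coe hF hval, Em_perp hF hval hw'.1]
    have h1 : hh (M *ᵥ Fr.f) (M *ᵥ w) = 0 := by rw [hM, hw'.f_left hF]
    rw [ha, ← hy, herm_add_right hF, herm_smul_right, hye, mul_one] at h1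
    have h2 : hh y w = hh (prW Fr y) w := (hh_prW hF y hw').symm
    have h3 : a = -hh w (prW Fr y) := by
      have h4 : a ^ q = -hh (prW Fr y) w := by rw [← h2]; linear_combination h1
      have h5 := congrArg (fun t : F => t ^ q) h4
      simp only [conj_conj hF, conj_neg hF, herm_conj hF] at h5
      exact h5
    rw [h3]
    module

/-! ### Commuting with the root group of `e` -/

/-- An element commuting with a non-trivial transvection centred at `e` maps `e` to a multiple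
of norm one. -/
theorem fix_e_of_comm (hF : Fintype.card F = q ^ 2) {x : SUn} {a : F} (ha : a ^ q = -a)
    (ha0 : a ≠ 0) (h : x * tvU Fr.e a = tvU Fr.e a * x) :
    ∃ l : F, l ^ (q + 1) = 1 ∧ x.1.1 *ᵥ Fr.e = l • Fr.e := by
  have hxe : hh (x.1.1 *ᵥ Fr.e) (x.1.1 *ᵥ Fr.e) = 0 := by rw [hh_su, Fr.ee]
  have h1 : (tvU (x.1.1 *ᵥ Fr.e) a : SUn) = tvU Fr.e a := by
    rw [← conj_tvU hF x Fr.ee ha, h, mul_inv_cancel_right]
  have h2 := congrArg (fun M : SUn => M.1.1 *ᵥ Fr.f) h1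
  simp only [tvU_mulVec hF hxe ha, tvU_mulVec hF Fr.ee ha, Fr.fe, mul_one] at h2
  have h3 : (a * hh Fr.f (x.1.1 *ᵥ Fr.e)) • (x.1.1 *ᵥ Fr.e) = a • Fr.e := add_left_cancel h2
  obtain ⟨b, hbdef⟩ : ∃ b : F, hh Fr.f (x.1.1 *ᵥ Fr.e) = b := ⟨_, rfl⟩
  rw [hbdef] at h3
  have hb : b ≠ 0 := by
    intro h0
    rw [h0, mul_zero, zero_smul] at h3
    exact (smul_ne_zero ha0 (Fr.e_ne_zero hF)) h3.symm
  have h4 : x.1.1 *ᵥ Fr.e = b⁻¹ • Fr.e := by
    have := congrArg (fun v : V => (a * b)⁻¹ • v) h3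
    simp only [smul_smul] at this
    rw [inv_mul_cancel₀ (mul_ne_zero ha0 hb), one_smul] at this
    rw [this]
    congr 1
    rw [mul_inv, mul_comm a⁻¹, mul_assoc, inv_mul_cancel₀ ha0, mul_one]
  refine ⟨b⁻¹, ?_, h4⟩
  rw [h4, herm_smul_right, Fr.fe, mul_one] at hbdef
  rw [pow_succ, hbdef, mul_inv_cancel₀ hb]

theorem fix_e_of_pm_comm (hF : Fintype.card F = q ^ 2) (hn : 3 ≤ n) {a : F} (ha : a ^ q = -a)
    (ha0 : a ≠ 0) (g : SUn) (h : pm g * pm (tvU Fr.e a) = pm (tvU Fr.e a) * pm g) :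
    ∃ l : F, l ^ (q + 1) = 1 ∧ g.1.1 *ᵥ Fr.e = l • Fr.e := by
  have hge : hh (g.1.1 *ᵥ Fr.e) (g.1.1 *ᵥ Fr.e) = 0 := by rw [hh_su, Fr.ee]
  have h1 : pm (tvU (g.1.1 *ᵥ Fr.e) a : SUn) = pm (tvU Fr.e a) := by
    rw [← conj_tvU hF g Fr.ee ha, map_mul, map_mul, h, map_inv, mul_inv_cancel_right]
  have h2 := tvU_eq_of_pm_eq hF hn hge Fr.ee ha ha h1
  have h3 : g * tvU Fr.e a = tvU Fr.e a * g := by
    have := conj_tvU hF g Fr.ee ha
    rw [h2] at this
    exact eq_mul_of_mul_inv_eq this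
  exact fix_e_of_comm hF ha ha0 h3

theorem tvU_e_inj (hF : Fintype.card F = q ^ 2) {c d : F} (hc : c ^ q = -c) (hd : d ^ q = -d)
    (h : (tvU Fr.e c : SUn) = tvU Fr.e d) : c = d := by
  have h1 := congrArg (fun M : SUn => M.1.1 *ᵥ Fr.f) h
  simp only [tvU_mulVec hF Fr.ee hc, tvU_mulVec hF Fr.ee hd, Fr.fe, mul_one] at h1
  have h2 := congrArg (fun v : V => hh v Fr.f) (add_left_cancel h1)
  simpa [herm_smul_left, Fr.ef] using h2

theorem pm_tvU_e_inj (hF : Fintype.card F = q ^ 2) (hn : 3 ≤ n) {c d : F} (hc : c ^ q = -c)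
    (hd : d ^ q = -d) (h : pm (tvU Fr.e c : SUn) = pm (tvU Fr.e d)) : c = d :=
  tvU_e_inj hF hc hd (tvU_eq_of_pm_eq hF hn Fr.ee Fr.ee hc hd h)

end Cfsg.Agent.Lib.Helper43.AutPSU
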