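import Mathlib
import Cfsg.Agent.Lib.Helper43.AutPSU.Frame
import Cfsg.Agent.Lib.Helper43.AutPSp.SylowOdd

set_option autoImplicit false

/-!
# Root subgroups of `PSU_n(q)` as centres of Sylow subgroups

Automorphisms permute the root subgroups.
-/

namespace Cfsg.Agent.Lib.Helper43.AutPSU

open Matrix Cfsg.Agent.Lib.Helper13 Cfsg.Agent.Lib.Helper45 Cfsg.Agent.Lib.Helper44
open Cfsg.Agent.Lib.Helper43.AutPSp (ZS mem_aut_smul_sylow' mem_smul_sylow' ZS_aut_smul ZS_smul)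
open scoped Pointwise

set_option linter.unusedSectionVars false

variable {n : ℕ} {F : Type*} [Field F] [Fintype F] {q : ℕ}

local notation "V" => Fin n → F
local notation "Mx" => Matrix (Fin n) (Fin n) F
set_option quotPrecheck false in
local notation "SUn" => ↥(Cfsg.SU n F q)
local notation "PSUn" => Cfsg.PSU n F q
local notation "hh" => Cfsg.hermForm n F q

theorem exists_not_fixed (hF : Fintype.card F = q ^ 2) : ∃ θ : F, θ ^ q ≠ θ := by
  by_contra hcon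
  push Not at hcon
  apply sigmaQ_ne_id hF
  ext t
  rw [sigmaQ_apply, hcon t, RingHom.id_apply]

theorem conj_eq_inv (hF : Fintype.card F = q ^ 2) {l : F} (hl : l ^ (q + 1) = 1) : l ^ q = l⁻¹ := by
  rw [pow_succ] at hl
  exact eq_inv_of_mul_eq_one_left hl

theorem ne_zero_of_norm_one {l : F} (hl : l ^ (q + 1) = 1) : l ≠ 0 := by
  rintro rfl
  rw [zero_pow (Nat.succ_ne_zero q)] at hl
  exact zero_ne_one hl

/-- Transitivity of `SU` on non-zero isotropic vectors. -/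
theorem exists_su_map (hF : Fintype.card F = q ^ 2) (hn : 3 ≤ n) {u v : V} (hu0 : u ≠ 0)
    (hu : hh u u = 0) (hv0 : v ≠ 0) (hv : hh v v = 0) : ∃ g : SUn, g.1.1 *ᵥ u = v := by
  obtain ⟨t, ht, htx⟩ := tRel_isotropic hF hn u v hu0 hv0 hu hv
  obtain ⟨h1, h2⟩ := inT_iso_det hF ht
  exact ⟨⟨⟨t, h2⟩, h1⟩, htx⟩

variable {Fr : HFrame n F q}

/-- The radical as a subgroup. -/
def Qe (Fr : HFrame n F q) (hF : Fintype.card F = q ^ 2) : Subgroup ↥(Cfsg.SU n F q) where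
  carrier := {x | ∃ (w : Fin n → F) (c : F), Val Fr w c ∧ x = Em Fr w c}
  mul_mem' := by
    rintro _ _ ⟨w, c, hv, rfl⟩ ⟨w', c', hv', rfl⟩
    exact ⟨_, _, hv.mul hF hv', Em_mul hF hv hv'⟩
  one_mem' := ⟨0, 0, Val.zero hF (skew_zero hF), (Em_zero_zero hF).symm⟩
  inv_mem' := by
    rintro _ ⟨w, c, hv, rfl⟩
    exact ⟨_, _, hv.neg hF, Em_inv hF hv⟩

theorem Em_mem_Qe (hF : Fintype.card F = q ^ 2) {w : V} {c : F} (hv : Val Fr w c) :
    Em Fr w c ∈ Qe Fr hF := ⟨w, c, hv, rfl⟩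

theorem isPGroup_Qe (hF : Fintype.card F = q ^ 2) (p : ℕ) [CharP F p] :
    IsPGroup p ↥((Qe Fr hF).map pm) := by
  rintro ⟨g, hg⟩
  obtain ⟨x, ⟨w, c, hv, rfl⟩, rfl⟩ := hg
  refine ⟨2, ?_⟩
  apply Subtype.ext
  show pm (Em Fr w c) ^ p ^ 2 = 1
  rw [← map_pow, Em_pow_p2 hF p hv, map_one]

/-- An element of `PSU` commuting with the whole radical is a transvection centred at `e`. -/
theorem comm_Qe_imp (hF : Fintype.card F = q ^ 2) (hn : 3 ≤ n) (x : SUn)
    (hx : ∀ (w : V) (c : F), Val Fr w c → pm x * pm (Em Fr w c) = pm (Em Fr w c) * pm x) :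
    pm x ∈ (Rt Fr.e : Set PSUn) := by
  obtain ⟨i, hi0, hi⟩ := exists_skew hF
  have h0 := hx 0 i (Val.zero hF hi)
  rw [Em_zero hF hi] at h0
  obtain ⟨l, hl, hxe⟩ := fix_e_of_pm_comm hF hn hi hi0 x h0
  have hl0 : l ≠ 0 := ne_zero_of_norm_one hl
  have hlq : l ^ q = l⁻¹ := conj_eq_inv hF hl
  have hxie : (x⁻¹).1.1 *ᵥ Fr.e = l⁻¹ • Fr.e := by
    have h1 := inv_mulVec x Fr.e
    rw [hxe, Matrix.mulVec_smul] at h1
    have h2 := congrArg (fun v : V => l⁻¹ • v) h1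
    simp only [smul_smul] at h2
    rwa [inv_mul_cancel₀ hl0, one_smul] at h2
  -- exact commutation
  have hc : ∀ (w : V) (c : F), Val Fr w c → x * Em Fr w c = Em Fr w c * x := by
    intro w c hv
    have h1 : x * Em Fr w c * x⁻¹ = Em Fr w c := by
      apply eq_of_pm_eq_of_fix hF (by omega) _ (Fr.e_ne_zero hF) _ (Em_e hF hv)
      · rw [map_mul, map_mul, map_inv, hx w c hv, mul_inv_cancel_right]
      · rw [mulVec_mul, mulVec_mul, hxie, Matrix.mulVec_smul, Em_e hF hv, Matrix.mulVec_smul, hxe,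
          smul_smul, inv_mul_cancel₀ hl0, one_smul]
    exact eq_mul_of_mul_inv_eq h1
  obtain ⟨y, hy⟩ : ∃ y : V, y = x.1.1 *ᵥ Fr.f := ⟨_, rfl⟩
  have hye : hh y Fr.e = l := by
    have h1 := hh_su x Fr.f Fr.e
    rw [hxe, herm_smul_right, Fr.fe, ← hy, hlq, inv_mul_eq_iff_eq_mul₀ hl0, mul_one] at h1
    exact h1
  have hyy : hh y y = 0 := by
    have := hh_su x Fr.f Fr.f
    rwa [Fr.ff, ← hy] at this
  have hw1 : ∀ w : V, InW Fr w → x.1.1 *ᵥ w = l • w - hh y w • Fr.e := by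
    intro w hw
    obtain ⟨c, hv⟩ := exists_val hF hw
    have h1 := congrArg (fun M : SUn => M.1.1 *ᵥ Fr.f) (hc w c hv)
    simp only [mulVec_mul, Em_f hF hv, ← hy, Em_mulVec hF hv, hye, Matrix.mulVec_add,
      Matrix.mulVec_smul, hxe] at h1
    have h2 := sub_eq_zero.mpr h1
    rw [← sub_eq_zero, ← h2]
    module
  obtain ⟨θ, hθ⟩ := exists_not_fixed hF
  have hw0 : ∀ w : V, InW Fr w → hh y w = 0 := by
    intro w hw
    have key : ∀ w' : V, InW Fr w' → l ^ q * hh y w' = l * hh y w' ^ q := by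
      intro w' hw'
      have h1 : hh (x.1.1 *ᵥ Fr.f) (x.1.1 *ᵥ w') = 0 := by rw [hh_su, hw'.f_left hF]
      rw [hw1 w' hw', ← hy, herm_sub_right hF, herm_smul_right, herm_smul_right, hye] at h1
      linear_combination h1
    have h1 := key w hw
    have h2 := key (θ • w) (hw.smul θ)
    rw [herm_smul_right, mul_pow, conj_conj hF] at h2
    have h3 : (θ ^ q - θ) * (l ^ q * hh y w) = 0 := by linear_combination h2 - θ * h1
    rcases mul_eq_zero.mp h3 with h4 | h4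
    · exact absurd (sub_eq_zero.mp h4) hθ
    · exact (mul_eq_zero.mp h4).resolve_left (pow_ne_zero _ hl0)
  have hpr : prW Fr y = 0 := by
    apply eq_zero_of_inW_perp hF (prW_inW Fr y)
    intro w hw
    rw [hh_prW' hF y hw]
    exact hh_swap_zero hF (hw0 w hw)
  have hdec : y = hh y Fr.f • Fr.e + l • Fr.f := by
    have := decomp Fr y
    rw [hpr, add_zero, hye] at this
    exact this
  obtain ⟨d, hd⟩ : ∃ d : F, d = hh y Fr.f := ⟨_, rfl⟩
  rw [← hd] at hdec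
  have hsk : (d * l⁻¹) ^ q = -(d * l⁻¹) := by
    have h1 := hyy
    rw [hdec] at h1
    simp only [herm_add_left, herm_add_right hF, herm_smul_left, herm_smul_right, Fr.ee, Fr.ff,
      Fr.ef, Fr.fe] at h1
    rw [hlq] at h1
    rw [mul_pow, inv_pow, hlq, inv_inv]
    have h2 : d * l⁻¹ + d ^ q * l = 0 := by linear_combination h1
    linear_combination h2
  have hmat : x.1.1 = l • (tvU Fr.e (d * l⁻¹) : SUn).1.1 := by
    apply mx_ext_frame (Fr := Fr)
    · rw [hxe, Matrix.smul_mulVec, tvU_fix hF Fr.ee hsk Fr.ee]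
    · rw [← hy, Matrix.smul_mulVec, tvU_mulVec hF Fr.ee hsk, Fr.fe, hdec, smul_add, smul_smul,
        mul_one, ← mul_assoc, mul_comm l d, mul_assoc, mul_inv_cancel₀ hl0, mul_one, add_comm]
    · intro w hw
      rw [hw1 w hw, hw0 w hw, zero_smul, sub_zero, Matrix.smul_mulVec, tvU_fix hF Fr.ee hsk hw.1]
  exact ⟨d * l⁻¹, hsk, pm_eq_of_smul l hmat⟩

/-- An element of `PSU` commuting with one non-trivial transvection centred at `e` commutes
with all of them. -/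
theorem comm_tv_imp (hF : Fintype.card F = q ^ 2) (hn : 3 ≤ n) {a : F} (ha : a ^ q = -a)
    (ha0 : a ≠ 0) (g : SUn) (h : pm g * pm (tvU Fr.e a) = pm (tvU Fr.e a) * pm g) {c : F}
    (hc : c ^ q = -c) : pm g * pm (tvU Fr.e c) = pm (tvU Fr.e c) * pm g := by
  obtain ⟨l, hl, hge⟩ := fix_e_of_pm_comm hF hn ha ha0 g h
  have h4 : (tvU (g.1.1 *ᵥ Fr.e) c : SUn) = tvU Fr.e c := by
    rw [hge, tvU_smul hF l Fr.ee hc, hl, one_mul]
  rw [← map_mul, ← map_mul]
  congr 1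
  have := conj_tvU hF g Fr.ee hc
  rw [h4] at this
  exact eq_mul_of_mul_inv_eq this

instance instFiniteSL : Finite (Matrix.SpecialLinearGroup (Fin n) F) :=
  Finite.of_injective (fun A => A.1) Subtype.val_injective

instance instFinitePSU : Finite (Cfsg.PSU n F q) := Finite.of_surjective pm pm_surjective

/-- The centre of a Sylow `p`-subgroup containing the radical is the root group of `e`. -/
theorem ZS_sylow (hF : Fintype.card F = q ^ 2) (hn : 3 ≤ n) {p : ℕ} [Fact p.Prime] [CharP F p]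
    (P : Sylow p (Cfsg.PSU n F q)) (hQ : (Qe Fr hF).map pm ≤ P) :
    ZS (P : Subgroup (Cfsg.PSU n F q)) = Rt Fr.e := by
  have hsub : ZS (P : Subgroup PSUn) ⊆ Rt Fr.e := by
    rintro z ⟨hz, hc⟩
    obtain ⟨x, rfl⟩ := pm_surjective z
    apply comm_Qe_imp hF hn
    intro w c hv
    exact (hc _ (hQ ⟨_, Em_mem_Qe hF hv, rfl⟩)).symm
  have hmemP : ∀ c : F, c ^ q = -c → pm (tvU Fr.e c : SUn) ∈ P := by
    intro c hc
    apply hQ
    exact ⟨_, Em_mem_Qe hF (Val.zero hF hc), by rw [Em_zero hF hc]⟩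
  obtain ⟨i, hi0, hi⟩ := exists_skew hF
  haveI : Nontrivial ↥(P : Subgroup PSUn) := by
    refine ⟨⟨⟨pm (tvU Fr.e i), hmemP i hi⟩, 1, ?_⟩⟩
    intro h
    exact pm_tvU_ne_one hF hn (Fr.e_ne_zero hF) Fr.ee hi hi0 (congrArg Subtype.val h)
  haveI := P.isPGroup'.center_nontrivial
  obtain ⟨⟨z₀, hz₀⟩, hne⟩ := exists_ne (1 : Subgroup.center ↥(P : Subgroup PSUn))
  have hz₀c : (z₀ : PSUn) ∈ ZS (P : Subgroup PSUn) := by
    refine ⟨z₀.2, fun y hy => ?_⟩
    have := Subgroup.mem_center_iff.mp hz₀ ⟨y, hy⟩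
    exact congrArg Subtype.val this
  obtain ⟨a, ha, ha'⟩ := hsub hz₀c
  have ha0 : a ≠ 0 := by
    rintro rfl
    apply hne
    apply Subtype.ext
    apply Subtype.ext
    show (z₀ : PSUn) = 1
    rw [← ha', tvU_zero, map_one]
  apply Set.Subset.antisymm hsub
  rintro z ⟨c, hc, rfl⟩
  refine ⟨hmemP c hc, fun y hy => ?_⟩
  obtain ⟨g, rfl⟩ := pm_surjective y
  apply comm_tv_imp hF hn ha ha0 _ _ hc
  rw [ha']
  exact hz₀c.2 _ hy

/-- Automorphisms permute the root subgroups. -/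
theorem root_perm (hF : Fintype.card F = q ^ 2) (hn : 3 ≤ n) (α : MulAut (Cfsg.PSU n F q))
    (u : V) (hu0 : u ≠ 0) (hu : hh u u = 0) :
    ∃ u' : V, u' ≠ 0 ∧ hh u' u' = 0 ∧ α '' Rt u = Rt u' := by
  obtain ⟨Fr⟩ := exists_frame (n := n) hF (by omega)
  obtain ⟨p, hp⟩ := CharP.exists F
  haveI : Fact p.Prime := ⟨CharP.char_is_prime F p⟩
  obtain ⟨P, hP⟩ := (isPGroup_Qe (Fr := Fr) hF p).exists_le_sylow
  have hZ := ZS_sylow hF hn P hP
  obtain ⟨g, hg⟩ := exists_su_map hF hn (Fr.e_ne_zero hF) Fr.ee hu0 hu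
  have h1 : Rt u = ZS ((pm g • P : Sylow p PSUn) : Subgroup PSUn) := by
    rw [ZS_smul, hZ, conj_Rt hF g Fr.ee]
    exact congrArg Rt hg.symm
  obtain ⟨k, hk⟩ := MulAction.exists_smul_eq PSUn P (α • (pm g • P))
  obtain ⟨h, rfl⟩ := pm_surjective k
  refine ⟨h.1.1 *ᵥ Fr.e, mulVec_ne_zero h (Fr.e_ne_zero hF), by rw [hh_su, Fr.ee], ?_⟩
  rw [h1, ← ZS_aut_smul, ← hk, ZS_smul, hZ, conj_Rt hF h Fr.ee]

end Cfsg.Agent.Lib.Helper43.AutPSU
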