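import Mathlib
import Cfsg.Agent.Lib.Helper43.AutPSU.Sylow

set_option autoImplicit false

/-!
# The map on isotropic points induced by an automorphism of `PSU_n(q)`
-/

namespace Cfsg.Agent.Lib.Helper43.AutPSU

open Matrix Cfsg.Agent.Lib.Helper13 Cfsg.Agent.Lib.Helper45 Cfsg.Agent.Lib.Helper44

set_option linter.unusedSectionVars false

variable {n : ℕ} {F : Type*} [Field F] [Fintype F] {q : ℕ}

local notation "V" => Fin n → F
local notation "Mx" => Matrix (Fin n) (Fin n) F
set_option quotPrecheck false in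
local notation "SUn" => ↥(Cfsg.SU n F q)
local notation "PSUn" => Cfsg.PSU n F q
local notation "hh" => Cfsg.hermForm n F q

/-- A non-zero isotropic vector. -/
def Iso (q : ℕ) (u : Fin n → F) : Prop := u ≠ 0 ∧ Cfsg.hermForm n F q u u = 0

theorem Iso.par {u v : V} (hu : Iso q u) (h : Par u v) : Iso q v := ⟨h.ne_zero hu.1, h.iso hu.2⟩

theorem Iso.smul {u : V} (hu : Iso q u) {a : F} (ha : a ≠ 0) : Iso q (a • u) := hu.par (Par.smul ha)

theorem Iso.mulVec {u : V} (hu : Iso q u) (g : SUn) : Iso q (g.1.1 *ᵥ u) :=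
  ⟨mulVec_ne_zero g hu.1, by rw [hh_su, hu.2]⟩

theorem HFrame.iso_e (Fr : HFrame n F q) (hF : Fintype.card F = q ^ 2) : Iso q Fr.e :=
  ⟨Fr.e_ne_zero hF, Fr.ee⟩

theorem HFrame.iso_f (Fr : HFrame n F q) (hF : Fintype.card F = q ^ 2) : Iso q Fr.f :=
  ⟨Fr.f_ne_zero hF, Fr.ff⟩

open Classical in
/-- The induced map on (representatives of) isotropic points. -/
noncomputable def phi (hF : Fintype.card F = q ^ 2) (hn : 3 ≤ n) (α : MulAut (Cfsg.PSU n F q))
    (u : Fin n → F) : Fin n → F :=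
  if hu : u ≠ 0 ∧ Cfsg.hermForm n F q u u = 0 then (root_perm hF hn α u hu.1 hu.2).choose else 0

variable (hF : Fintype.card F = q ^ 2) (hn : 3 ≤ n)

theorem phi_iso (α : MulAut PSUn) {u : V} (hu : Iso q u) : Iso q (phi hF hn α u) := by
  unfold phi
  rw [dif_pos (show u ≠ 0 ∧ hh u u = 0 from hu)]
  exact ⟨(root_perm hF hn α u hu.1 hu.2).choose_spec.1, (root_perm hF hn α u hu.1 hu.2).choose_spec.2.1⟩

theorem phi_Rt (α : MulAut PSUn) {u : V} (hu : Iso q u) :
    α '' Rt u = Rt (phi hF hn α u) := by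
  unfold phi
  rw [dif_pos (show u ≠ 0 ∧ hh u u = 0 from hu)]
  exact (root_perm hF hn α u hu.1 hu.2).choose_spec.2.2

theorem phi_par_of_image (α : MulAut PSUn) {u u' : V} (hu : Iso q u) (hu' : hh u' u' = 0)
    (h : α '' Rt u = Rt u') : Par u' (phi hF hn α u) :=
  par_of_Rt_eq hF hn (phi_iso hF hn α hu).1 (phi_iso hF hn α hu).2 hu' (by rw [← phi_Rt hF hn α hu, h])

theorem phi_par (α : MulAut PSUn) {u v : V} (hu : Iso q u) (h : Par u v) :
    Par (phi hF hn α u) (phi hF hn α v) := by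
  have hv : Iso q v := hu.par h
  apply par_of_Rt_eq hF hn (phi_iso hF hn α hv).1 (phi_iso hF hn α hv).2 (phi_iso hF hn α hu).2
  rw [← phi_Rt hF hn α hv, ← phi_Rt hF hn α hu, Rt_eq_of_par hF hu.2 h]

theorem phi_perp (α : MulAut PSUn) {u v : V} (hu : Iso q u) (hv : Iso q v) :
    hh (phi hF hn α u) (phi hF hn α v) = 0 ↔ hh u v = 0 := by
  rw [← Rt_comm_iff hF hn (phi_iso hF hn α hu).1 (phi_iso hF hn α hu).2 (phi_iso hF hn α hv).2,
    ← Rt_comm_iff hF hn hu.1 hu.2 hv.2, ← phi_Rt hF hn α hu, ← phi_Rt hF hn α hv]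
  constructor
  · intro h x hx y hy
    have := h (α x) ⟨x, hx, rfl⟩ (α y) ⟨y, hy, rfl⟩
    rw [← map_mul, ← map_mul] at this
    exact α.injective this
  · rintro h _ ⟨x, hx, rfl⟩ _ ⟨y, hy, rfl⟩
    rw [← map_mul, ← map_mul, h x hx y hy]

/-- Equivariance of the point map. -/
theorem phi_equiv (α : MulAut PSUn) (x x' : SUn) (h : α (pm x) = pm x') {y : V} (hy : Iso q y) :
    Par (x'.1.1 *ᵥ phi hF hn α y) (phi hF hn α (x.1.1 *ᵥ y)) := by
  have hxy : Iso q (x.1.1 *ᵥ y) := hy.mulVec x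
  apply par_of_Rt_eq hF hn (phi_iso hF hn α hxy).1 (phi_iso hF hn α hxy).2
    ((phi_iso hF hn α hy).mulVec x').2
  rw [← phi_Rt hF hn α hxy, ← conj_Rt hF x hy.2, ← conj_Rt hF x' (phi_iso hF hn α hy).2,
    ← phi_Rt hF hn α hy, Set.image_image, Set.image_image]
  apply Set.image_congr
  intro z _
  rw [map_mul, map_mul, map_inv, h]

theorem phi_surj (α : MulAut PSUn) {v' : V} (hv' : Iso q v') :
    ∃ v : V, Iso q v ∧ Par (phi hF hn α v) v' := by
  refine ⟨phi hF hn α⁻¹ v', phi_iso hF hn α⁻¹ hv', ?_⟩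
  apply (phi_par_of_image hF hn α (phi_iso hF hn α⁻¹ hv') hv'.2 _).symm
  rw [← phi_Rt hF hn α⁻¹ hv', Set.image_image]
  simp

theorem phi_inj (α : MulAut PSUn) {u v : V} (hu : Iso q u) (hv : Iso q v)
    (h : Par (phi hF hn α u) (phi hF hn α v)) : Par u v := by
  have h1 : α '' Rt u = α '' Rt v := by
    rw [phi_Rt hF hn α hu, phi_Rt hF hn α hv, Rt_eq_of_par hF (phi_iso hF hn α hu).2 h]
  have h2 : (Rt u : Set PSUn) = Rt v := Set.image_injective.mpr α.injective h1
  exact par_of_Rt_eq hF hn hv.1 hv.2 hu.2 h2.symm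

/-! ### Collinearity -/

include hF in
/-- Adding a multiple of an isotropic vector to make a vector isotropic. -/
theorem exists_iso_add (y z : V) (hz : hh z z = 0) (hzy : hh z y ≠ 0) :
    ∃ l : F, hh (y + l • z) (y + l • z) = 0 := by
  obtain ⟨t, ht⟩ := exists_trace_eq hF (-(hh y y)) (by rw [conj_neg hF, hh_self_fix hF])
  refine ⟨t / hh z y, ?_⟩
  have h1 : hh y z = hh z y ^ q := (herm_conj hF n z y).symm
  have key : ∀ l : F, hh (y + l • z) (y + l • z) = hh y y + l * hh z y + (l * hh z y) ^ q := by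
    intro l
    simp only [herm_add_left, herm_add_right hF, herm_smul_left, herm_smul_right, hz, h1, mul_pow]
    ring
  rw [key, div_mul_cancel₀ _ hzy]
  linear_combination ht

include hF in
/-- An isotropic vector perpendicular to all isotropic vectors of `{a, b}^⊥` lies in the span of
`a` and `b`. -/
theorem mem_span_of_iso_perp {a b z : V} (hz : hh z z = 0) (hza : hh z a = 0) (hzb : hh z b = 0)
    (h : ∀ t : V, hh t t = 0 → hh t a = 0 → hh t b = 0 → hh t z = 0) :
    ∃ l k : F, z = l • a + k • b := by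
  apply mem_span_pair_of_perp hF
  intro y hya hyb
  by_contra hyz
  have hzy : hh z y ≠ 0 := fun h0 => hyz (hh_swap_zero hF h0)
  obtain ⟨l, hl⟩ := exists_iso_add hF y z hz hzy
  have h1 := h (y + l • z) hl (by rw [herm_add_left, herm_smul_left, hya, hza]; ring)
    (by rw [herm_add_left, herm_smul_left, hyb, hzb]; ring)
  rw [herm_add_left, herm_smul_left, hz, mul_zero, add_zero] at h1
  exact hyz h1

/-- The point map preserves totally isotropic lines. -/
theorem phi_span (α : MulAut PSUn) {a b z : V} (ha : Iso q a) (hb : Iso q b) (hab : hh a b = 0)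
    (hz : Iso q z) (h : ∃ l k : F, z = l • a + k • b) :
    ∃ l k : F, phi hF hn α z = l • phi hF hn α a + k • phi hF hn α b := by
  have hba : hh b a = 0 := hh_swap_zero hF hab
  obtain ⟨l, k, rfl⟩ := h
  apply mem_span_of_iso_perp hF (phi_iso hF hn α hz).2
  · rw [phi_perp hF hn α hz ha, herm_add_left, herm_smul_left, herm_smul_left, ha.2, hba]
    ring
  · rw [phi_perp hF hn α hz hb, herm_add_left, herm_smul_left, herm_smul_left, hb.2, hab]
    ring
  · intro t' ht' h1 h2
    by_cases ht0 : t' = 0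
    · rw [ht0, hh_zero_left hF]
    · obtain ⟨t, ht, hpar⟩ := phi_surj hF hn α (v' := t') ⟨ht0, ht'⟩
      rw [hpar.perp_iff] at h1 h2 ⊢
      rw [phi_perp hF hn α ht ha] at h1
      rw [phi_perp hF hn α ht hb] at h2
      rw [phi_perp hF hn α ht hz, herm_add_right hF, herm_smul_right, herm_smul_right, h1, h2]
      ring

/-! ### Elements fixing every isotropic point -/

attribute [local instance] suMulAction

include hF hn in
/-- Two special unitary matrices inducing the same map on isotropic points have the same image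
in `PSU`. -/
theorem pm_eq_of_par (h32 : ¬ (n = 3 ∧ q = 2)) (x x' : SUn)
    (h : ∀ y : V, Iso q y → Par (x.1.1 *ᵥ y) (x'.1.1 *ᵥ y)) : pm x = pm x' := by
  apply QuotientGroup.eq.mpr
  apply su_mem_center_of_fixes hF hn h32
  intro P
  obtain ⟨v, hv0, hv, rfl⟩ := isoPts_exists_rep P
  rw [su_smul_isoMk, isoMk_eq_iff]
  obtain ⟨a, -, ha⟩ := h v ⟨hv0, hv⟩
  refine ⟨a, ?_⟩
  show a • v = (x⁻¹ * x').1.1 *ᵥ v
  rw [mulVec_mul, ha, Matrix.mulVec_smul, inv_mulVec]

end Cfsg.Agent.Lib.Helper43.AutPSU
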