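import Mathlib
import Cfsg.Agent.Lib.Helper43.AutPSU.Point

set_option autoImplicit false

/-!
# The action of a normalised automorphism of `PSU_n(q)` on the radical
-/

namespace Cfsg.Agent.Lib.Helper43.AutPSU

open Matrix Cfsg.Agent.Lib.Helper13 Cfsg.Agent.Lib.Helper45 Cfsg.Agent.Lib.Helper44

set_option linter.unusedSectionVars false

variable {n : ℕ} {F : Type*} [Field F] [Fintype F] {q : ℕ}

local notation "V" => Fin n → F
local notation "Mx" => Matrix (Fin n) (Fin n) F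
set_option quotPrecheck false in
local notation "SUn" => ↥(Cfsg.SU n F q)
local notation "PSUn" => Cfsg.PSU n F q
local notation "hh" => Cfsg.hermForm n F q

variable {Fr : HFrame n F q}

/-! ### The complement of the frame -/

/-- For `n = 3` the complement is a line. -/
theorem inW_line (hn3 : n = 3) {w w' : V} (hw : InW Fr w) (hw0 : w ≠ 0) (hw' : InW Fr w') :
    ∃ b : F, w' = b • w := by
  let L : V →ₗ[F] (Fin 2 → F) :=
    (Matrix.of ![fun i => Fr.e i ^ q, fun i => Fr.f i ^ q]).mulVecLin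
  have hL : ∀ x : V, L x = ![hh x Fr.e, hh x Fr.f] := by
    intro x
    ext i
    fin_cases i
    · show (fun i => Fr.e i ^ q) ⬝ᵥ x = _
      rw [← herm_eq_dot]
      rfl
    · show (fun i => Fr.f i ^ q) ⬝ᵥ x = _
      rw [← herm_eq_dot]
      rfl
  have hsurj : LinearMap.range L = ⊤ := by
    rw [LinearMap.range_eq_top]
    intro y
    refine ⟨y 0 • Fr.f + y 1 • Fr.e, ?_⟩
    rw [hL]
    ext i
    fin_cases i
    · simp [herm_add_left, herm_smul_left, Fr.fe, Fr.ee]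
    · simp [herm_add_left, herm_smul_left, Fr.ff, Fr.ef]
  have hrank : Module.finrank F (LinearMap.ker L) = 1 := by
    have h1 := LinearMap.finrank_range_add_finrank_ker L
    rw [hsurj, finrank_top, Module.finrank_fin_fun, Module.finrank_fin_fun] at h1
    omega
  have hmem : ∀ x : V, InW Fr x → x ∈ LinearMap.ker L := by
    intro x hx
    rw [LinearMap.mem_ker, hL, hx.1, hx.2]
    ext i
    fin_cases i <;> rfl
  have hne : (⟨w, hmem w hw⟩ : LinearMap.ker L) ≠ 0 := by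
    intro h
    exact hw0 (congrArg Subtype.val h)
  obtain ⟨c, hc⟩ := (finrank_eq_one_iff_of_nonzero' _ hne).mp hrank ⟨w', hmem w' hw'⟩
  exact ⟨c, (congrArg Subtype.val hc).symm⟩

/-- For `n ≥ 4` the complement contains a non-zero isotropic vector. -/
theorem exists_inW_iso (hF : Fintype.card F = q ^ 2) (hn4 : 4 ≤ n) :
    ∃ u : V, InW Fr u ∧ Iso q u := by
  obtain ⟨w₁, hw₁, hw₁0⟩ := exists_inW_ne_zero (Fr := Fr) (by omega : 3 ≤ n)
  by_cases h1 : hh w₁ w₁ = 0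
  · exact ⟨w₁, hw₁, hw₁0, h1⟩
  obtain ⟨w₂, hw₂0, h2e, h2f, h21⟩ := exists_perp3 (q := q) hn4 Fr.e Fr.f w₁
  have hw₂ : InW Fr w₂ := ⟨h2e, h2f⟩
  by_cases h2 : hh w₂ w₂ = 0
  · exact ⟨w₂, hw₂, hw₂0, h2⟩
  have h12 : hh w₁ w₂ = 0 := hh_swap_zero hF h21
  obtain ⟨μ, hμ⟩ := exists_norm_eq hF (-(hh w₁ w₁) / hh w₂ w₂)
    (div_ne_zero (neg_ne_zero.mpr h1) h2)
    (by rw [div_pow, conj_neg hF, hh_self_fix hF, hh_self_fix hF])
  refine ⟨w₁ + μ • w₂, hw₁.add (hw₂.smul μ), ?_, ?_⟩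
  · intro h0
    apply h1
    have h3 : w₁ = -(μ • w₂) := eq_neg_of_add_eq_zero_left h0
    nth_rewrite 1 [h3]
    rw [hh_neg_left, herm_smul_left, h21, mul_zero, neg_zero]
  · simp only [herm_add_left, herm_add_right hF, herm_smul_left, herm_smul_right, h12, h21]
    have h3 : μ * μ ^ q = -(hh w₁ w₁) / hh w₂ w₂ := by rw [← hμ, pow_succ']
    have h4 : μ * μ ^ q * hh w₂ w₂ = -(hh w₁ w₁) := by rw [h3, div_mul_cancel₀ _ h2]
    linear_combination h4

/-- Hyperbolic partners inside the complement. -/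
theorem exists_inW_partner (hF : Fintype.card F = q ^ 2) {u : V} (hu : InW Fr u)
    (hiso : Iso q u) :
    ∃ u' : V, InW Fr u' ∧ hh u' u' = 0 ∧ hh u u' = 1 ∧ hh u' u = 1 := by
  obtain ⟨w', hw', h1⟩ := exists_inW_pair hF hu hiso.1
  obtain ⟨l, hl⟩ := exists_iso_add hF w' u hiso.2 (by rw [h1]; exact one_ne_zero)
  refine ⟨w' + l • u, hw'.add (hu.smul l), hl, ?_, ?_⟩
  · rw [herm_add_right hF, herm_smul_right, hiso.2, mul_zero, add_zero, h1]
  · rw [herm_add_left, herm_smul_left, hiso.2, mul_zero, add_zero, ← herm_conj hF, h1, one_pow]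

/-- For `n ≥ 4` the complement is spanned by its isotropic vectors. -/
theorem inW_induction (hF : Fintype.card F = q ^ 2) (hn4 : 4 ≤ n) (P : V → Prop)
    (h0 : ∀ u : V, InW Fr u → hh u u = 0 → P u)
    (hadd : ∀ u v : V, InW Fr u → InW Fr v → P u → P v → P (u + v)) :
    ∀ w : V, InW Fr w → P w := by
  obtain ⟨u, hu, hiso⟩ := exists_inW_iso (Fr := Fr) hF hn4
  obtain ⟨u', hu', hu'iso, huu', hu'u⟩ := exists_inW_partner hF hu hiso
  have key : ∀ w : V, InW Fr w → hh u w ≠ 0 → P w := by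
    intro w hw hne
    obtain ⟨l, hl⟩ := exists_iso_add hF w u hiso.2 hne
    have h1 : w = (w + l • u) + (-l) • u := by module
    rw [h1]
    exact hadd _ _ (hw.add (hu.smul l)) (hu.smul _) (h0 _ (hw.add (hu.smul l)) hl)
      (h0 _ (hu.smul _) (by rw [herm_smul_left, herm_smul_right, hiso.2]; ring))
  intro w hw
  by_cases hne : hh u w = 0
  · have h1 : w = (w + u') + (-1 : F) • u' := by module
    rw [h1]
    refine hadd _ _ (hw.add hu') (hu'.smul _) (key _ (hw.add hu') ?_) (h0 _ (hu'.smul _) ?_)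
    · rw [herm_add_right hF, hne, huu', zero_add]
      exact one_ne_zero
    · rw [herm_smul_left, herm_smul_right, hu'iso]
      ring
  · exact key w hw hne

/-! ### Powers -/

theorem pow_e {x : SUn} {l : F} (hxe : x.1.1 *ᵥ Fr.e = l • Fr.e) (k : ℕ) :
    (x ^ k).1.1 *ᵥ Fr.e = l ^ k • Fr.e := by
  induction k with
  | zero => rw [pow_zero, mulVec_one, pow_zero, one_smul]
  | succ k ih =>
    rw [pow_succ, mulVec_mul, hxe, Matrix.mulVec_smul, ih, smul_smul, pow_succ, mul_comm]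

theorem pow_line {x : SUn} {l b c : F} {w : V} (hxe : x.1.1 *ᵥ Fr.e = l • Fr.e)
    (hxw : x.1.1 *ᵥ w = b • w + c • Fr.e) (k : ℕ) :
    ∃ c' : F, (x ^ k).1.1 *ᵥ w = b ^ k • w + c' • Fr.e := by
  induction k with
  | zero => exact ⟨0, by rw [pow_zero, mulVec_one, pow_zero, one_smul, zero_smul, add_zero]⟩
  | succ k ih =>
    obtain ⟨c', h⟩ := ih
    refine ⟨b * c' + c * l ^ k, ?_⟩
    rw [pow_succ, mulVec_mul, hxw, Matrix.mulVec_add, Matrix.mulVec_smul, Matrix.mulVec_smul, h,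
      pow_e hxe]
    module

theorem scalar_eq (p : ℕ) [Fact p.Prime] [CharP F p] {x : SUn} {l ζ b c : F} {w : V}
    (hF : Fintype.card F = q ^ 2)
    (hxe : x.1.1 *ᵥ Fr.e = l • Fr.e) (hz : (x ^ (p ^ 2)).1.1 = ζ • (1 : Mx)) (hw : InW Fr w)
    (hw0 : w ≠ 0) (hxw : x.1.1 *ᵥ w = b • w + c • Fr.e) : b = l := by
  have h1 := pow_e hxe (p ^ 2)
  rw [hz, Matrix.smul_mulVec, Matrix.one_mulVec] at h1
  have hζ : ζ = l ^ (p ^ 2) := by
    have h5 : (ζ - l ^ (p ^ 2)) • Fr.e = 0 := by rw [sub_smul, h1, sub_self]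
    rcases smul_eq_zero.mp h5 with h | h
    · exact sub_eq_zero.mp h
    · exact absurd h (Fr.e_ne_zero hF)
  obtain ⟨c', h2⟩ := pow_line hxe hxw (p ^ 2)
  rw [hz, Matrix.smul_mulVec, Matrix.one_mulVec] at h2
  have h3 := congrArg (prW Fr) h2
  rw [prW_smul, prW_add, prW_smul, prW_smul, prW_of_inW hw, prW_e, smul_zero, add_zero] at h3
  have hb : ζ = b ^ (p ^ 2) := by
    have h5 : (ζ - b ^ (p ^ 2)) • w = 0 := by rw [sub_smul, h3, sub_self]
    rcases smul_eq_zero.mp h5 with h | h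
    · exact sub_eq_zero.mp h
    · exact absurd h hw0
  have h4 : (b - l) ^ (p ^ 2) = 0 := by rw [sub_pow_char_pow, ← hb, ← hζ, sub_self]
  exact sub_eq_zero.mp (pow_eq_zero_iff (pow_ne_zero 2 (Fact.out : p.Prime).ne_zero) |>.mp h4)

/-! ### Invariance of the radical -/

variable (hF : Fintype.card F = q ^ 2) (hn : 3 ≤ n)

theorem phi_e (α : MulAut PSUn) (hE : α '' Rt Fr.e = Rt Fr.e) :
    Par Fr.e (phi hF hn α Fr.e) := phi_par_of_image hF hn α (Fr.iso_e hF) Fr.ee hE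

include hF in
theorem tv_map (α : MulAut PSUn) (hE : α '' Rt Fr.e = Rt Fr.e) {c : F} (hc : c ^ q = -c) :
    ∃ c' : F, c' ^ q = -c' ∧ α (pm (tvU Fr.e c)) = pm (tvU Fr.e c') := by
  have : α (pm (tvU Fr.e c)) ∈ (Rt Fr.e : Set PSUn) := by
    rw [← hE]
    exact ⟨_, ⟨c, hc, rfl⟩, rfl⟩
  obtain ⟨c', hc', e⟩ := this
  exact ⟨c', hc', e.symm⟩

include hF hn in
/-- A preimage of the image of an element of the radical maps `e` to a multiple of norm one. -/
theorem map_fix_e (α : MulAut PSUn) (hE : α '' Rt Fr.e = Rt Fr.e) {w : V} {c : F}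
    (hv : Val Fr w c) {x' : SUn} (hx' : pm x' = α (pm (Em Fr w c))) :
    ∃ l : F, l ^ (q + 1) = 1 ∧ x'.1.1 *ᵥ Fr.e = l • Fr.e := by
  obtain ⟨i, hi0, hi⟩ := exists_skew hF
  obtain ⟨a, ha, hia⟩ := tv_map hF α hE hi
  have ha0 : a ≠ 0 := by
    rintro rfl
    rw [tvU_zero, map_one] at hia
    have := α.injective (hia.trans (map_one α).symm)
    exact pm_tvU_ne_one hF hn (Fr.e_ne_zero hF) Fr.ee hi hi0 this
  have hcomm : Em Fr w c * tvU Fr.e i = tvU Fr.e i * Em Fr w c := by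
    rw [← Em_zero hF hi, Em_mul hF hv (Val.zero hF hi), Em_mul hF (Val.zero hF hi) hv,
      hh_zero_left hF, hh_zero_right hF, add_zero, zero_add, add_comm c i]
  apply fix_e_of_pm_comm hF hn ha ha0
  rw [hx', ← hia, ← map_mul, ← map_mul, ← map_mul, ← map_mul, hcomm]

include hF hn in
/-- A preimage of the image of an element of the radical fixes the totally isotropic lines
through `e`. -/
theorem map_fix_line (α : MulAut PSUn) (hE : α '' Rt Fr.e = Rt Fr.e) {w : V} {c : F}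
    (hv : Val Fr w c) {x' : SUn} (hx' : pm x' = α (pm (Em Fr w c))) {y : V} (hy : hh y y = 0)
    (hye : hh y Fr.e = 0) : ∃ a b : F, x'.1.1 *ᵥ y = a • y + b • Fr.e := by
  by_cases hy0 : y = 0
  · exact ⟨0, 0, by rw [hy0, Matrix.mulVec_zero, zero_smul, zero_smul, add_zero]⟩
  have hpe := phi_e hF hn α hE
  obtain ⟨y₀, hy₀, hpar⟩ := phi_surj hF hn α (v' := y) ⟨hy0, hy⟩
  have hy₀e : hh y₀ Fr.e = 0 := by
    rw [← phi_perp hF hn α hy₀ (Fr.iso_e hF), hpe.perp_iff', ← hpar.perp_iff]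
    exact hye
  have hEy : (Em Fr w c).1.1 *ᵥ y₀ = (1 : F) • y₀ + (-hh y₀ w) • Fr.e := by
    rw [Em_perp hF hv hy₀e]
    module
  obtain ⟨l, k, hlk⟩ := phi_span hF hn α hy₀ (Fr.iso_e hF) hy₀e (hy₀.mulVec (Em Fr w c))
    ⟨_, _, hEy⟩
  obtain ⟨c₁, hc₁, hc₁'⟩ := phi_equiv hF hn α (Em Fr w c) x' hx'.symm hy₀
  obtain ⟨d, hd, rfl⟩ := hpar
  obtain ⟨d', hd', hpe'⟩ := hpe
  have h1 : x'.1.1 *ᵥ phi hF hn α y₀ = c₁⁻¹ • phi hF hn α ((Em Fr w c).1.1 *ᵥ y₀) := by
    rw [hc₁', smul_smul, inv_mul_cancel₀ hc₁, one_smul]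
  refine ⟨c₁⁻¹ * l, d * c₁⁻¹ * k * d', ?_⟩
  rw [Matrix.mulVec_smul, h1, hlk, hpe']
  module

include hF in
/-- An element acting as a scalar of norm one on `e^⊥` modulo `e` lies in the radical modulo
scalars. -/
theorem pm_eq_Em_of_scalar {x' : SUn} {l : F} (hl : l ^ (q + 1) = 1)
    (hxe : x'.1.1 *ᵥ Fr.e = l • Fr.e)
    (hW : ∀ v : V, InW Fr v → ∃ a : F, x'.1.1 *ᵥ v = l • v + a • Fr.e) :
    ∃ (w' : V) (c' : F), Val Fr w' c' ∧ pm x' = pm (Em Fr w' c') := by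
  have hl0 : l ≠ 0 := ne_zero_of_norm_one hl
  have hlq : l ^ q = l⁻¹ := conj_eq_inv hF hl
  have hM : IsHermIso n F q (l⁻¹ • x'.1.1) := by
    intro u v
    rw [Matrix.smul_mulVec, Matrix.smul_mulVec, herm_smul_left, herm_smul_right, hh_su, inv_pow,
      hlq, inv_inv, ← mul_assoc, inv_mul_cancel₀ hl0, one_mul]
  obtain ⟨w', c', hv', e⟩ := eq_siegel_of_fix (Fr := Fr) hF hM
    (by rw [Matrix.smul_mulVec, hxe, smul_smul, inv_mul_cancel₀ hl0, one_smul])
    (by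
      intro v hv
      obtain ⟨a, ha⟩ := hW v hv
      refine ⟨l⁻¹ * a, ?_⟩
      rw [Matrix.smul_mulVec, ha, smul_add, smul_smul, smul_smul, inv_mul_cancel₀ hl0, one_smul])
  refine ⟨w', c', hv', (pm_eq_of_smul l ?_).symm⟩
  rw [Em_coe hF hv', ← e, smul_smul, mul_inv_cancel₀ hl0, one_smul]

include hF hn in
/-- A normalised automorphism maps the radical to itself. -/
theorem Em_map (α : MulAut PSUn) (hE : α '' Rt Fr.e = Rt Fr.e) {w : V} {c : F}
    (hv : Val Fr w c) :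
    ∃ (w' : V) (c' : F), Val Fr w' c' ∧ α (pm (Em Fr w c)) = pm (Em Fr w' c') := by
  obtain ⟨p, hp⟩ := CharP.exists F
  haveI : Fact p.Prime := ⟨CharP.char_is_prime F p⟩
  obtain ⟨x', hx'⟩ := pm_surjective (α (pm (Em Fr w c)))
  obtain ⟨l, hl, hxe⟩ := map_fix_e hF hn α hE hv hx'
  obtain ⟨ζ, hζ⟩ : ∃ ζ : F, (x' ^ (p ^ 2)).1.1 = ζ • (1 : Mx) := by
    have h1 : pm (1 : SUn) = pm (x' ^ (p ^ 2)) := by
      rw [map_pow, hx', ← map_pow, ← map_pow, Em_pow_p2 hF p hv, map_one, map_one]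
    obtain ⟨ζ, h2⟩ := exists_scalar_of_pm_eq hF (by omega) h1
    exact ⟨ζ, by rw [h2, coe_one]⟩
  have hW : ∀ v : V, InW Fr v → ∃ a : F, x'.1.1 *ᵥ v = l • v + a • Fr.e := by
    by_cases hn4 : 4 ≤ n
    · apply inW_induction hF hn4
      · intro u hu huu
        by_cases hu0 : u = 0
        · exact ⟨0, by rw [hu0, Matrix.mulVec_zero, smul_zero, zero_smul, add_zero]⟩
        obtain ⟨a, b, hab⟩ := map_fix_line hF hn α hE hv hx' huu hu.1
        have := scalar_eq p hF hxe hζ hu hu0 hab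
        exact ⟨b, by rw [hab, this]⟩
      · rintro u v hu hv ⟨a, ha⟩ ⟨b, hb⟩
        exact ⟨a + b, by rw [Matrix.mulVec_add, ha, hb]; module⟩
    · have hn3 : n = 3 := by omega
      intro v hv'
      by_cases hv0 : v = 0
      · exact ⟨0, by rw [hv0, Matrix.mulVec_zero, smul_zero, zero_smul, add_zero]⟩
      have h1 : hh (x'.1.1 *ᵥ v) Fr.e = 0 := by
        have h2 := hh_su x' v Fr.e
        rw [hxe, herm_smul_right, hv'.1] at h2
        exact (mul_eq_zero.mp h2).resolve_left (pow_ne_zero _ (ne_zero_of_norm_one hl))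
      obtain ⟨b, hb⟩ := inW_line hn3 hv' hv0 (prW_inW Fr (x'.1.1 *ᵥ v))
      have h3 : x'.1.1 *ᵥ v = b • v + hh (x'.1.1 *ᵥ v) Fr.f • Fr.e := by
        have := decomp Fr (x'.1.1 *ᵥ v)
        rw [h1, zero_smul, add_zero, hb] at this
        rw [add_comm]
        exact this
      have := scalar_eq p hF hxe hζ hv' hv0 h3
      exact ⟨_, by rw [← this]; exact h3⟩
  obtain ⟨w', c', hv', e⟩ := pm_eq_Em_of_scalar hF hl hxe hW
  exact ⟨w', c', hv', by rw [← hx', e]⟩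

/-! ### The radical data -/

/-- The data describing the action of an automorphism on the radical. -/
structure RadData (Fr : HFrame n F q) (α : MulAut (Cfsg.PSU n F q))
    (A : (Fin n → F) → (Fin n → F)) (Ψ : (Fin n → F) → F → F) : Prop where
  val : ∀ w c, Val Fr w c → Val Fr (A w) (Ψ w c)
  em : ∀ w c, Val Fr w c → α (pm (Em Fr w c)) = pm (Em Fr (A w) (Ψ w c))

include hF hn in
theorem exists_radData (α : MulAut PSUn) (hE : α '' Rt Fr.e = Rt Fr.e) :
    ∃ (A : V → V) (Ψ : V → F → F), RadData Fr α A Ψ := by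
  classical
  -- a section of the valid pairs
  have h0 : ∀ w : V, ∃ c₀ : F, InW Fr w → Val Fr w c₀ := by
    intro w
    by_cases hw : InW Fr w
    · obtain ⟨c, hc⟩ := exists_val hF hw
      exact ⟨c, fun _ => hc⟩
    · exact ⟨0, fun h => absurd h hw⟩
  choose c₀ hc₀ using h0
  have h1 : ∀ w : V, ∃ (w' : V) (d : F), InW Fr w →
      (Val Fr w' d ∧ α (pm (Em Fr w (c₀ w))) = pm (Em Fr w' d)) := by
    intro w
    by_cases hw : InW Fr w
    · obtain ⟨w', d, hv', e⟩ := Em_map hF hn α hE (hc₀ w hw)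
      exact ⟨w', d, fun _ => ⟨hv', e⟩⟩
    · exact ⟨0, 0, fun h => absurd h hw⟩
  choose A d₀ hA using h1
  have h2 : ∀ (w : V) (c : F), ∃ d : F, Val Fr w c →
      (Val Fr (A w) d ∧ α (pm (Em Fr w c)) = pm (Em Fr (A w) d)) := by
    intro w c
    by_cases hv : Val Fr w c
    · obtain ⟨hv', e⟩ := hA w hv.1
      have hs := (hc₀ w hv.1).sub_skew hF hv
      obtain ⟨s', hs', es⟩ := tv_map hF α hE hs
      refine ⟨d₀ w + s', fun _ => ⟨hv'.add_skew hF hs', ?_⟩⟩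
      have h3 : Em Fr w c = Em Fr w (c₀ w) * Em Fr 0 (c - c₀ w) := by
        rw [← Em_add_skew hF (hc₀ w hv.1) hs, add_sub_cancel]
      rw [h3, map_mul, map_mul, e, Em_zero hF hs, es, ← Em_zero hF hs', ← map_mul,
        ← Em_add_skew hF hv' hs']
    · exact ⟨0, fun h => absurd h hv⟩
  choose Ψ hΨ using h2
  exact ⟨A, Ψ, fun w c hv => (hΨ w c hv).1, fun w c hv => (hΨ w c hv).2⟩

variable {α : MulAut (Cfsg.PSU n F q)} {A : (Fin n → F) → (Fin n → F)}
  {Ψ : (Fin n → F) → F → F}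

include hF in
theorem RadData.mapsW (D : RadData Fr α A Ψ) {w : V} (hw : InW Fr w) : InW Fr (A w) := by
  obtain ⟨c, hc⟩ := exists_val hF hw
  exact (D.val w c hc).1

include hF hn in
theorem RadData.mul (D : RadData Fr α A Ψ) {w w' : V} {c c' : F} (hv : Val Fr w c)
    (hv' : Val Fr w' c') :
    A (w + w') = A w + A w' ∧
      Ψ (w + w') (c + c' - hh w' w) = Ψ w c + Ψ w' c' - hh (A w') (A w) := by
  have h1 := Em_mul hF hv hv'
  have h2 := congrArg (fun x => α (pm x)) h1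
  simp only [map_mul] at h2
  rw [D.em w c hv, D.em w' c' hv', D.em _ _ (hv.mul hF hv'), ← map_mul,
    Em_mul hF (D.val w c hv) (D.val w' c' hv')] at h2
  obtain ⟨e1, e2⟩ := pm_Em_inj hF (by omega) ((D.val w c hv).mul hF (D.val w' c' hv'))
    (D.val _ _ (hv.mul hF hv')) h2
  exact ⟨e1.symm, e2.symm⟩

include hF hn in
theorem RadData.A_add (D : RadData Fr α A Ψ) {w w' : V} (hw : InW Fr w) (hw' : InW Fr w') :
    A (w + w') = A w + A w' := by
  obtain ⟨c, hc⟩ := exists_val hF hw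
  obtain ⟨c', hc'⟩ := exists_val hF hw'
  exact (D.mul hF hn hc hc').1

include hF hn in
theorem RadData.zero (D : RadData Fr α A Ψ) : A 0 = 0 ∧ Ψ 0 0 = 0 := by
  have hv0 : Val Fr (0 : V) (0 : F) := Val.zero hF (skew_zero hF)
  have h := D.em 0 0 hv0
  rw [Em_zero_zero hF, map_one, map_one] at h
  have h' : pm (Em Fr (A 0) (Ψ 0 0)) = pm (Em Fr (0 : V) 0) := by
    rw [← h, Em_zero_zero hF, map_one]
  exact pm_Em_inj hF (by omega) (D.val 0 0 hv0) hv0 h'

include hF hn in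
theorem RadData.psi_skew (D : RadData Fr α A Ψ) {s : F} (hs : s ^ q = -s) :
    Ψ 0 s ^ q = -Ψ 0 s := by
  have h := D.val 0 s (Val.zero hF hs)
  rw [(D.zero hF hn).1] at h
  exact h.skew hF

include hF hn in
theorem RadData.Psi_add_skew (D : RadData Fr α A Ψ) {w : V} {c s : F} (hv : Val Fr w c)
    (hs : s ^ q = -s) : Ψ w (c + s) = Ψ w c + Ψ 0 s := by
  have h := (D.mul hF hn hv (Val.zero hF hs)).2
  rw [(D.zero hF hn).1, hh_zero_left hF, hh_zero_left hF, add_zero, sub_zero, sub_zero] at h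
  exact h

include hF hn in
theorem RadData.psi_add (D : RadData Fr α A Ψ) {s t : F} (hs : s ^ q = -s) (ht : t ^ q = -t) :
    Ψ 0 (s + t) = Ψ 0 s + Ψ 0 t :=
  D.Psi_add_skew hF hn (Val.zero hF hs) ht

include hF hn in
theorem RadData.psi_inj (D : RadData Fr α A Ψ) {s t : F} (hs : s ^ q = -s) (ht : t ^ q = -t)
    (h : Ψ 0 s = Ψ 0 t) : s = t := by
  have h1 := D.em 0 s (Val.zero hF hs)
  rw [h, ← D.em 0 t (Val.zero hF ht)] at h1
  exact (pm_Em_inj hF (by omega) (Val.zero hF hs) (Val.zero hF ht) (α.injective h1)).2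

include hF hn in
theorem RadData.psi_zero (D : RadData Fr α A Ψ) : Ψ 0 0 = 0 := (D.zero hF hn).2

include hF hn in
theorem RadData.A_inj (D : RadData Fr α A Ψ) (hE : α '' Rt Fr.e = Rt Fr.e) {w : V}
    (hw : InW Fr w) (h : A w = 0) : w = 0 := by
  obtain ⟨c, hv⟩ := exists_val hF hw
  have h1 := D.em w c hv
  have hv' := D.val w c hv
  rw [h] at h1 hv'
  have hs := hv'.skew hF
  rw [Em_zero hF hs] at h1
  have h2 : α (pm (Em Fr w c)) ∈ α '' (Rt Fr.e : Set PSUn) := by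
    rw [hE, h1]
    exact ⟨_, hs, rfl⟩
  obtain ⟨x, ⟨s, hs', rfl⟩, hx⟩ := h2
  have h3 := α.injective hx
  rw [← Em_zero hF hs'] at h3
  exact (pm_Em_inj hF (by omega) hv (Val.zero hF hs') h3.symm).1

include hF hn in
theorem RadData.A_surj (D : RadData Fr α A Ψ) (hE : α '' Rt Fr.e = Rt Fr.e) {y : V}
    (hy : InW Fr y) : ∃ w : V, InW Fr w ∧ A w = y := by
  let f : {w : V // InW Fr w} → {w : V // InW Fr w} := fun w => ⟨A w.1, D.mapsW hF w.2⟩
  have hinj : Function.Injective f := by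
    rintro ⟨w, hw⟩ ⟨w', hw'⟩ h
    have h1 : A w = A w' := congrArg Subtype.val h
    have h2 := D.A_add hF hn (hw.sub hw') hw'
    rw [sub_add_cancel, h1] at h2
    have h3 : A (w - w') = 0 := by
      have h5 : A (w - w') + A w' = 0 + A w' := by rw [zero_add]; exact h2.symm
      exact add_right_cancel h5
    have h4 := D.A_inj hF hn hE (hw.sub hw') h3
    exact Subtype.ext (sub_eq_zero.mp h4)
  obtain ⟨⟨w, hw⟩, h⟩ := Finite.surjective_of_injective hinj ⟨y, hy⟩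
  exact ⟨w, hw, congrArg Subtype.val h⟩

include hF hn in
/-- The commutator relation. -/
theorem RadData.kappa (D : RadData Fr α A Ψ) {w₁ w₂ : V} (hw₁ : InW Fr w₁) (hw₂ : InW Fr w₂) :
    hh (A w₁) (A w₂) - hh (A w₂) (A w₁) = Ψ 0 (hh w₁ w₂ - hh w₂ w₁) := by
  obtain ⟨c₁, hv₁⟩ := exists_val hF hw₁
  obtain ⟨c₂, hv₂⟩ := exists_val hF hw₂
  have m1 := (D.mul hF hn hv₁ hv₂).2
  have m2 := (D.mul hF hn hv₂ hv₁).2
  have hs : (hh w₁ w₂ - hh w₂ w₁) ^ q = -(hh w₁ w₂ - hh w₂ w₁) := by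
    rw [conj_sub hF, herm_conj hF, herm_conj hF]
    ring
  have m3 := D.Psi_add_skew hF hn (hv₂.mul hF hv₁) hs
  have e1 : c₂ + c₁ - hh w₁ w₂ + (hh w₁ w₂ - hh w₂ w₁) = c₁ + c₂ - hh w₂ w₁ := by ring
  rw [e1, add_comm w₂ w₁, m1] at m3
  rw [add_comm w₂ w₁] at m2
  rw [m2] at m3
  linear_combination m3

end Cfsg.Agent.Lib.Helper43.AutPSU
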