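import Mathlib
import Cfsg.Agent.Lib.Helper43.AutPSU.Radical

set_option autoImplicit false

/-!
# The action of the Levi complement and the torus elements
-/

namespace Cfsg.Agent.Lib.Helper43.AutPSU

open Matrix Cfsg.Agent.Lib.Helper13 Cfsg.Agent.Lib.Helper45 Cfsg.Agent.Lib.Helper44

set_option linter.unusedSectionVars false

variable {n : ℕ} {F : Type*} [Field F] [Fintype F] {q : ℕ}

local notation "V" => Fin n → F
local notation "Mx" => Matrix (Fin n) (Fin n) F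
set_option quotPrecheck false in
local notation "SUn" => ↥(Cfsg.SU n F q)
local notation "PSUn" => Cfsg.PSU n F q
local notation "hh" => Cfsg.hermForm n F q

variable {Fr : HFrame n F q}

variable (hF : Fintype.card F = q ^ 2) (hn : 3 ≤ n)

/-! ### Conjugating the radical by the Levi complement -/

include hF in
theorem levi_inW {x : SUn} {a b : F} (hxe : x.1.1 *ᵥ Fr.e = a • Fr.e)
    (hxf : x.1.1 *ᵥ Fr.f = b • Fr.f) {w : V} (hw : InW Fr w) : InW Fr (x.1.1 *ᵥ w) := by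
  have ha : a ≠ 0 := by
    rintro rfl
    rw [zero_smul] at hxe
    exact mulVec_ne_zero x (Fr.e_ne_zero hF) hxe
  have hb : b ≠ 0 := by
    rintro rfl
    rw [zero_smul] at hxf
    exact mulVec_ne_zero x (Fr.f_ne_zero hF) hxf
  constructor
  · have h1 := hh_su x w Fr.e
    rw [hxe, herm_smul_right, hw.1] at h1
    exact (mul_eq_zero.mp h1).resolve_left (pow_ne_zero _ ha)
  · have h1 := hh_su x w Fr.f
    rw [hxf, herm_smul_right, hw.2] at h1
    exact (mul_eq_zero.mp h1).resolve_left (pow_ne_zero _ hb)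

include hF in
theorem conj_Em {x : SUn} {a b : F} (hxe : x.1.1 *ᵥ Fr.e = a • Fr.e)
    (hxf : x.1.1 *ᵥ Fr.f = b • Fr.f) {w : V} {c : F} (hv : Val Fr w c) :
    Val Fr (a ^ q • x.1.1 *ᵥ w) (a ^ (q + 1) * c) ∧
      x * Em Fr w c * x⁻¹ = Em Fr (a ^ q • x.1.1 *ᵥ w) (a ^ (q + 1) * c) := by
  have hv1 : Val Fr (a ^ q • x.1.1 *ᵥ w) (a ^ (q + 1) * c) := by
    refine ⟨(levi_inW hF hxe hxf hv.1).smul _, ?_⟩
    rw [herm_smul_left, herm_smul_right, conj_conj hF, hh_su, mul_pow, norm_fixed hF, pow_succ]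
    linear_combination a ^ q * a * hv.2
  refine ⟨hv1, ?_⟩
  rw [mul_inv_eq_iff_eq_mul]
  apply Subtype.ext
  apply Subtype.ext
  rw [coe_mul, coe_mul, Em_coe hF hv, Em_coe hF hv1, siegel_conj (su_isHermIso x) _ _ _ Fr.ee, hxe,
    siegel_smul_left hF _ _ _ _ Fr.ee]

variable {α : MulAut (Cfsg.PSU n F q)} {A : (Fin n → F) → (Fin n → F)}
  {Ψ : (Fin n → F) → F → F}

include hF hn in
/-- The image of an element fixing the two points of the frame fixes these points. -/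
theorem levi_fix (hE : α '' Rt Fr.e = Rt Fr.e) (hF0 : α '' Rt Fr.f = Rt Fr.f) {x x' : SUn}
    (hx' : α (pm x) = pm x') {a b : F} (hxe : x.1.1 *ᵥ Fr.e = a • Fr.e)
    (hxf : x.1.1 *ᵥ Fr.f = b • Fr.f) :
    ∃ a' b' : F, x'.1.1 *ᵥ Fr.e = a' • Fr.e ∧ x'.1.1 *ᵥ Fr.f = b' • Fr.f := by
  have ha : a ≠ 0 := by
    rintro rfl
    rw [zero_smul] at hxe
    exact mulVec_ne_zero x (Fr.e_ne_zero hF) hxe
  have hb : b ≠ 0 := by
    rintro rfl
    rw [zero_smul] at hxf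
    exact mulVec_ne_zero x (Fr.f_ne_zero hF) hxf
  have hpe := phi_e hF hn α hE
  have hpf : Par Fr.f (phi hF hn α Fr.f) := phi_par_of_image hF hn α (Fr.iso_f hF) Fr.ff hF0
  have h1 := phi_equiv hF hn α x x' hx' (Fr.iso_e hF)
  rw [hxe] at h1
  have h2 : Par (x'.1.1 *ᵥ Fr.e) Fr.e :=
    (((hpe.mulVec x'.1.1).trans h1).trans (phi_par hF hn α (Fr.iso_e hF) (Par.smul ha)).symm).trans
      hpe.symm
  have h3 := phi_equiv hF hn α x x' hx' (Fr.iso_f hF)
  rw [hxf] at h3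
  have h4 : Par (x'.1.1 *ᵥ Fr.f) Fr.f :=
    (((hpf.mulVec x'.1.1).trans h3).trans (phi_par hF hn α (Fr.iso_f hF) (Par.smul hb)).symm).trans
      hpf.symm
  obtain ⟨a', -, ha'⟩ := h2.symm
  obtain ⟨b', -, hb'⟩ := h4.symm
  exact ⟨a', b', ha', hb'⟩

include hF hn in
/-- Equivariance of the radical data under the Levi complement. -/
theorem levi (D : RadData Fr α A Ψ) {x x' : SUn} (hx' : α (pm x) = pm x') {a b a' b' : F}
    (hxe : x.1.1 *ᵥ Fr.e = a • Fr.e) (hxf : x.1.1 *ᵥ Fr.f = b • Fr.f)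
    (hxe' : x'.1.1 *ᵥ Fr.e = a' • Fr.e) (hxf' : x'.1.1 *ᵥ Fr.f = b' • Fr.f) {w : V} {c : F}
    (hv : Val Fr w c) :
    A (a ^ q • x.1.1 *ᵥ w) = a' ^ q • x'.1.1 *ᵥ A w ∧
      Ψ (a ^ q • x.1.1 *ᵥ w) (a ^ (q + 1) * c) = a' ^ (q + 1) * Ψ w c := by
  obtain ⟨hv1, e1⟩ := conj_Em hF hxe hxf hv
  obtain ⟨hv2, e2⟩ := conj_Em hF hxe' hxf' (D.val w c hv)
  have h1 := congrArg (fun y => α (pm y)) e1
  simp only [map_mul, map_inv] at h1
  rw [hx', D.em w c hv, D.em _ _ hv1, ← map_inv, ← map_mul, ← map_mul, e2] at h1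
  obtain ⟨h2, h3⟩ := pm_Em_inj hF (by omega) hv2 (D.val _ _ hv1) h1
  exact ⟨h2.symm, h3.symm⟩

/-! ### Fixed points of elements of the radical -/

include hF in
theorem Em_par_iff {w : V} {c : F} (hv : Val Fr w c) {t : V} (hte : hh t Fr.e = 0) :
    Par t ((Em Fr w c).1.1 *ᵥ t) ↔ hh t w = 0 := by
  rw [Em_perp hF hv hte]
  constructor
  · rintro ⟨k, -, hk⟩
    by_contra hne
    have h1 : (1 - k) • t = hh t w • Fr.e := by
      rw [sub_smul, one_smul, ← hk]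
      module
    have h2 := congrArg (fun y : V => hh y w) h1
    simp only [herm_smul_left, hv.1.e_left hF, mul_zero] at h2
    have hk1 : k = 1 := by
      rcases mul_eq_zero.mp h2 with h | h
      · exact (sub_eq_zero.mp h).symm
      · exact absurd h hne
    rw [hk1, sub_self, zero_smul] at h1
    rcases smul_eq_zero.mp h1.symm with h | h
    · exact hne h
    · exact Fr.e_ne_zero hF h
  · intro h
    rw [h, zero_smul, sub_zero]
    exact Par.rfl' t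

include hF hn in
/-- On isotropic vectors of the complement, `A` follows the point map. -/
theorem A_par_phi (D : RadData Fr α A Ψ) (hE : α '' Rt Fr.e = Rt Fr.e)
    (hF0 : α '' Rt Fr.f = Rt Fr.f) {u : V} (hu : InW Fr u) (hiso : Iso q u) :
    Par (A u) (phi hF hn α u) := by
  have hpe := phi_e hF hn α hE
  have hpf : Par Fr.f (phi hF hn α Fr.f) := phi_par_of_image hF hn α (Fr.iso_f hF) Fr.ff hF0
  have hφu := phi_iso hF hn α hiso
  have hφW : InW Fr (phi hF hn α u) := by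
    constructor
    · rw [← hpe.perp_iff', phi_perp hF hn α hiso (Fr.iso_e hF)]
      exact hu.1
    · rw [← hpf.perp_iff', phi_perp hF hn α hiso (Fr.iso_f hF)]
      exact hu.2
  have hvu : Val Fr u 0 := ⟨hu, by rw [hiso.2, conj_zero hF]; ring⟩
  have hvA := D.val u 0 hvu
  have key : ∀ t' : V, hh t' t' = 0 → hh t' Fr.e = 0 →
      (hh t' (A u) = 0 ↔ hh t' (phi hF hn α u) = 0) := by
    intro t' ht' ht'e
    by_cases ht0 : t' = 0
    · rw [ht0, hh_zero_left hF, hh_zero_left hF]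
    obtain ⟨t, ht, hpar⟩ := phi_surj hF hn α (v' := t') ⟨ht0, ht'⟩
    have hte : hh t Fr.e = 0 := by
      rw [← phi_perp hF hn α ht (Fr.iso_e hF), hpe.perp_iff', ← hpar.perp_iff]
      exact ht'e
    have hφte : hh (phi hF hn α t) Fr.e = 0 := by
      rw [← hpar.perp_iff]
      exact ht'e
    have h1 := phi_equiv hF hn α (Em Fr u 0) (Em Fr (A u) (Ψ u 0)) (D.em u 0 hvu) ht
    rw [hpar.perp_iff, hpar.perp_iff, phi_perp hF hn α ht hiso, ← Em_par_iff hF hvu hte,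
      ← Em_par_iff hF hvA hφte]
    constructor
    · intro h2
      exact phi_inj hF hn α ht (ht.mulVec _) (h2.trans h1)
    · intro h2
      exact (phi_par hF hn α ht h2).trans h1.symm
  have h1 : hh (phi hF hn α u) (A u) = 0 := (key _ hφu.2 hφW.1).mpr hφu.2
  obtain ⟨l, k, hlk⟩ := mem_span_of_iso_perp hF (a := Fr.e) (b := A u) hφu.2 hφW.1 h1
    (fun t ht hte htA => (key t ht hte).mp htA)
  have hl : l = 0 := by
    have h2 := congrArg (fun y : V => hh y Fr.f) hlk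
    simp only [herm_add_left, herm_smul_left, hφW.2, Fr.ef, (D.mapsW hF hu).2] at h2
    linear_combination -h2
  rw [hl, zero_smul, zero_add] at hlk
  refine ⟨k, ?_, hlk⟩
  rintro rfl
  rw [zero_smul] at hlk
  exact hφu.1 hlk

/-! ### Torus elements -/

/-- A hyperbolic pair inside the complement of the frame. -/
structure HypW (Fr : HFrame n F q) (u u' : Fin n → F) : Prop where
  hu : InW Fr u
  hu' : InW Fr u'
  uu : Cfsg.hermForm n F q u u = 0
  u'u' : Cfsg.hermForm n F q u' u' = 0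
  uu' : Cfsg.hermForm n F q u u' = 1
  u'u : Cfsg.hermForm n F q u' u = 1

theorem hypDil_fix {e f x : V} (a : F) (hff : hh f f = 0) (h1 : hh x f = 0) (h2 : hh x e = 0) :
    hypDil q e f a *ᵥ x = x := by
  classical
  rw [hypDil_mulVec _ _ _ hff, h1, h2, mul_zero, mul_zero, zero_smul, zero_smul, add_zero, add_zero]

theorem hypDil_e {e f : V} (a : F) (hff : hh f f = 0) (hef : hh e f = 1) (hee : hh e e = 0) :
    hypDil q e f a *ᵥ e = a • e := by
  classical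
  rw [hypDil_mulVec _ _ _ hff, hef, hee]
  module

theorem hypDil_f {e f : V} (a : F) (hff : hh f f = 0) (hfe : hh f e = 1) :
    hypDil q e f a *ᵥ f = (a ^ q)⁻¹ • f := by
  classical
  rw [hypDil_mulVec _ _ _ hff, hff, hfe]
  module

/-- The torus element `e ↦ a e`, `f ↦ a^{-q} f`, `u ↦ a^q u`, `u' ↦ a⁻¹ u'`. -/
noncomputable def tor4 (Fr : HFrame n F q) (u u' : Fin n → F) (a : F) : ↥(Cfsg.SU n F q) :=
  toSU (hypDil q Fr.e Fr.f a * hypDil q u u' (a ^ q))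

include hF in
theorem tor4_coe {u u' : V} (H : HypW Fr u u') {a : F} (ha : a ≠ 0) :
    (tor4 Fr u u' a).1.1 = hypDil q Fr.e Fr.f a * hypDil q u u' (a ^ q) := by
  classical
  apply toSU_coe
  · exact isHermIso_mul (isHermIso_hypDil hF _ _ a ha Fr.ee Fr.ff Fr.ef Fr.fe)
      (isHermIso_hypDil hF _ _ (a ^ q) (pow_ne_zero _ ha) H.uu H.u'u' H.uu' H.u'u)
  · rw [Matrix.det_mul, det_hypDil _ _ _ Fr.ef Fr.fe, det_hypDil _ _ _ H.uu' H.u'u, conj_conj hF]
    have := pow_ne_zero q ha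
    field_simp

include hF in
theorem tor4_e {u u' : V} (H : HypW Fr u u') {a : F} (ha : a ≠ 0) :
    (tor4 Fr u u' a).1.1 *ᵥ Fr.e = a • Fr.e := by
  rw [tor4_coe hF H ha, ← Matrix.mulVec_mulVec,
    hypDil_fix _ H.u'u' (H.hu'.e_left hF) (H.hu.e_left hF), hypDil_e _ Fr.ff Fr.ef Fr.ee]

include hF in
theorem tor4_f {u u' : V} (H : HypW Fr u u') {a : F} (ha : a ≠ 0) :
    (tor4 Fr u u' a).1.1 *ᵥ Fr.f = (a ^ q)⁻¹ • Fr.f := by
  rw [tor4_coe hF H ha, ← Matrix.mulVec_mulVec,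
    hypDil_fix _ H.u'u' (H.hu'.f_left hF) (H.hu.f_left hF), hypDil_f _ Fr.ff Fr.fe]

include hF in
theorem tor4_u {u u' : V} (H : HypW Fr u u') {a : F} (ha : a ≠ 0) :
    (tor4 Fr u u' a).1.1 *ᵥ u = a ^ q • u := by
  rw [tor4_coe hF H ha, ← Matrix.mulVec_mulVec, hypDil_e _ H.u'u' H.uu' H.uu, Matrix.mulVec_smul,
    hypDil_fix _ Fr.ff H.hu.2 H.hu.1]

/-- The torus element `e ↦ a e`, `f ↦ a^{-q} f`, `w ↦ a^{q-1} w` for `n = 3`. -/
noncomputable def tor3 (Fr : HFrame n F q) (a : F) : ↥(Cfsg.SU n F q) :=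
  toSU ((a ^ q * a⁻¹) • hypDil q Fr.e Fr.f (a * a * (a ^ q)⁻¹))

include hF in
theorem tor3_coe (hn3 : n = 3) {a : F} (ha : a ≠ 0) :
    (tor3 Fr a).1.1 = (a ^ q * a⁻¹) • hypDil q Fr.e Fr.f (a * a * (a ^ q)⁻¹) := by
  classical
  subst hn3
  have haq := pow_ne_zero q ha
  have ht : a * a * (a ^ q)⁻¹ ≠ 0 := mul_ne_zero (mul_ne_zero ha ha) (inv_ne_zero haq)
  have hsq : (a ^ q * a⁻¹) ^ q = a * (a ^ q)⁻¹ := by rw [mul_pow, conj_conj hF, inv_pow]
  apply toSU_coe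
  · intro u v
    rw [Matrix.smul_mulVec, Matrix.smul_mulVec, herm_smul_left, herm_smul_right,
      isHermIso_hypDil hF _ _ _ ht Fr.ee Fr.ff Fr.ef Fr.fe, hsq]
    field_simp
  · have htq : (a * a * (a ^ q)⁻¹) ^ q = a ^ q * a ^ q * a⁻¹ := by
      rw [mul_pow, mul_pow, inv_pow, conj_conj hF]
    rw [Matrix.det_smul, Fintype.card_fin, det_hypDil _ _ _ Fr.ef Fr.fe, htq]
    field_simp

include hF in
theorem tor3_e (hn3 : n = 3) {a : F} (ha : a ≠ 0) : (tor3 Fr a).1.1 *ᵥ Fr.e = a • Fr.e := by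
  have haq := pow_ne_zero q ha
  rw [tor3_coe hF hn3 ha, Matrix.smul_mulVec, hypDil_e _ Fr.ff Fr.ef Fr.ee, smul_smul]
  congr 1
  field_simp

include hF in
theorem tor3_f (hn3 : n = 3) {a : F} (ha : a ≠ 0) :
    (tor3 Fr a).1.1 *ᵥ Fr.f = (a ^ q)⁻¹ • Fr.f := by
  have haq := pow_ne_zero q ha
  have htq : (a * a * (a ^ q)⁻¹) ^ q = a ^ q * a ^ q * a⁻¹ := by
    rw [mul_pow, mul_pow, inv_pow, conj_conj hF]
  rw [tor3_coe hF hn3 ha, Matrix.smul_mulVec, hypDil_f _ Fr.ff Fr.fe, smul_smul, htq]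
  congr 1
  field_simp

include hF in
theorem tor3_w (hn3 : n = 3) {a : F} (ha : a ≠ 0) {w : V} (hw : InW Fr w) :
    (tor3 Fr a).1.1 *ᵥ w = (a ^ q * a⁻¹) • w := by
  rw [tor3_coe hF hn3 ha, Matrix.smul_mulVec, hypDil_fix _ Fr.ff hw.2 hw.1]

end Cfsg.Agent.Lib.Helper43.AutPSU
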