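import Mathlib
import Cfsg.Agent.Lib.Helper43.AutPSU.Levi

set_option autoImplicit false

/-!
# Semilinearity of the action on the radical
-/

namespace Cfsg.Agent.Lib.Helper43.AutPSU

open Matrix Cfsg.Agent.Lib.Helper13 Cfsg.Agent.Lib.Helper45 Cfsg.Agent.Lib.Helper44

set_option linter.unusedSectionVars false

variable {n : ℕ} {F : Type*} [Field F] [Fintype F] {q : ℕ}

local notation "V" => Fin n → F
local notation "Mx" => Matrix (Fin n) (Fin n) F
set_option quotPrecheck false in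
local notation "SUn" => ↥(Cfsg.SU n F q)
local notation "PSUn" => Cfsg.PSU n F q
local notation "hh" => Cfsg.hermForm n F q

/-! ### Multiplicativity from generators -/

theorem add_map_zero {τ : F → F} (hadd : ∀ x y : F, τ (x + y) = τ x + τ y) : τ 0 = 0 := by
  have := hadd 0 0
  rw [add_zero] at this
  exact left_eq_add.mp this

theorem add_map_neg {τ : F → F} (hadd : ∀ x y : F, τ (x + y) = τ x + τ y) (x : F) :
    τ (-x) = -τ x := by
  have := hadd x (-x)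
  rw [add_neg_cancel, add_map_zero hadd] at this
  exact eq_neg_of_add_eq_zero_right this.symm

theorem add_map_sub {τ : F → F} (hadd : ∀ x y : F, τ (x + y) = τ x + τ y) (x y : F) :
    τ (x - y) = τ x - τ y := by
  rw [sub_eq_add_neg, hadd, add_map_neg hadd, sub_eq_add_neg]

/-- A map multiplicative with respect to squares is multiplicative. -/
theorem mul_of_sq {τ : F → F} (hadd : ∀ x y : F, τ (x + y) = τ x + τ y)
    (hsq : ∀ c μ : F, τ (c * c * μ) = τ (c * c) * τ μ) : ∀ l μ : F, τ (l * μ) = τ l * τ μ := by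
  intro l μ
  by_cases h2 : (2 : F) = 0
  · have hchar : ringChar F = 2 := CharP.ringChar_of_prime_eq_zero Nat.prime_two (by exact_mod_cast h2)
    obtain ⟨c, rfl⟩ := FiniteField.isSquare_of_char_two hchar l
    exact hsq c μ
  · have h1 : l = (l + 1) / 2 * ((l + 1) / 2) - (l - 1) / 2 * ((l - 1) / 2) := by
      field_simp
      ring
    have h3 : l * μ = (l + 1) / 2 * ((l + 1) / 2) * μ - (l - 1) / 2 * ((l - 1) / 2) * μ := by
      rw [← sub_mul, ← h1]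
    rw [h3, add_map_sub hadd, hsq, hsq, ← sub_mul, ← add_map_sub hadd, ← h1]

theorem exists_norm_one_cube_ne_one (hF : Fintype.card F = q ^ 2) (hq3 : 3 ≤ q) :
    ∃ c : F, c ^ (q + 1) = 1 ∧ c ^ 3 ≠ 1 := by
  classical
  have hcard := card_norm_one_finset hF
  have h3 : (Polynomial.nthRoots 3 (1 : F)).toFinset.card ≤ 3 :=
    (Multiset.toFinset_card_le _).trans (Polynomial.card_nthRoots 3 1)
  obtain ⟨c, hc, hc'⟩ : ∃ c ∈ Finset.univ.filter (fun c : F => c ^ (q + 1) = 1),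
      c ∉ (Polynomial.nthRoots 3 (1 : F)).toFinset := by
    apply Finset.exists_mem_notMem_of_card_lt_card
    rw [hcard]
    omega
  refine ⟨c, (Finset.mem_filter.mp hc).2, ?_⟩
  intro h
  apply hc'
  rw [Multiset.mem_toFinset, Polynomial.mem_nthRoots (by norm_num)]
  exact h

/-- A map multiplicative with respect to the scalars of the three-dimensional torus is
multiplicative. -/
theorem mul_of_rho (hF : Fintype.card F = q ^ 2) (hq3 : 3 ≤ q) {τ : F → F}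
    (hadd : ∀ x y : F, τ (x + y) = τ x + τ y) (h1 : τ 1 = 1)
    (hρ : ∀ a : F, a ≠ 0 → ∀ μ : F,
      τ (a ^ q * (a ^ q * a⁻¹) * μ) = τ (a ^ q * (a ^ q * a⁻¹)) * τ μ) :
    ∀ l μ : F, τ (l * μ) = τ l * τ μ := by
  classical
  have h0 := add_map_zero hadd
  -- the fixed field
  have hfix : ∀ r : F, r ^ q = r → ∀ μ : F, τ (r * μ) = τ r * τ μ := by
    intro r hr μ
    by_cases hr0 : r = 0
    · rw [hr0, zero_mul, h0, zero_mul]
    · have := hρ r hr0 μ
      rwa [hr, mul_inv_cancel₀ hr0, mul_one] at this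
  -- an element outside the fixed field
  obtain ⟨c, hc, hc3⟩ := exists_norm_one_cube_ne_one hF hq3
  obtain ⟨a, ha0, hac⟩ := exists_hilbert90 hF c hc
  have haq := pow_ne_zero q ha0
  obtain ⟨ν, hν⟩ : ∃ ν : F, ν = a ^ q * (a ^ q * a⁻¹) := ⟨_, rfl⟩
  have hνq : ν ^ q ≠ ν := by
    intro h
    apply hc3
    rw [hν, mul_pow, mul_pow, conj_conj hF, inv_pow] at h
    rw [← hac]
    field_simp
    field_simp at h
    linear_combination h
  have hνm : ∀ μ : F, τ (ν * μ) = τ ν * τ μ := by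
    intro μ
    rw [hν]
    exact hρ a ha0 μ
  have hD : ν - ν ^ q ≠ 0 := fun h => hνq (sub_eq_zero.mp h).symm
  have hDq : (ν - ν ^ q) ^ q = -(ν - ν ^ q) := by
    rw [conj_sub hF, conj_conj hF]
    ring
  intro l μ
  obtain ⟨r₂, hr₂⟩ : ∃ r₂ : F, r₂ = (l - l ^ q) / (ν - ν ^ q) := ⟨_, rfl⟩
  have hr₂q : r₂ ^ q = r₂ := by
    rw [hr₂, div_pow, hDq, conj_sub hF, conj_conj hF, div_neg, ← neg_div, neg_sub]
  obtain ⟨r₁, hr₁⟩ : ∃ r₁ : F, r₁ = l - r₂ * ν := ⟨_, rfl⟩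
  have hr₁q : r₁ ^ q = r₁ := by
    have h3 : r₂ * (ν - ν ^ q) = l - l ^ q := by rw [hr₂, div_mul_cancel₀ _ hD]
    rw [hr₁, conj_sub hF, mul_pow, hr₂q]
    linear_combination h3
  have hl : l = r₁ + r₂ * ν := by rw [hr₁]; ring
  have e1 : τ (r₂ * ν * μ) = τ (r₂ * ν) * τ μ := by
    rw [mul_assoc, hfix r₂ hr₂q, hνm, hfix r₂ hr₂q, mul_assoc]
  rw [hl, add_mul, hadd, hadd, hfix r₁ hr₁q, e1, add_mul]

variable {Fr : HFrame n F q}

variable (hF : Fintype.card F = q ^ 2) (hn : 3 ≤ n)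

variable {α : MulAut (Cfsg.PSU n F q)} {A : (Fin n → F) → (Fin n → F)}
  {Ψ : (Fin n → F) → F → F}

/-! ### The scalar function of a line -/

include hF hn in
theorem exists_tau_line (D : RadData Fr α A Ψ) (hE : α '' Rt Fr.e = Rt Fr.e) {v : V}
    (hv : InW Fr v) (hv0 : v ≠ 0) (hline : ∀ μ : F, ∃ t : F, A (μ • v) = t • A v) :
    ∃ τ : F → F, (∀ μ : F, A (μ • v) = τ μ • A v) ∧ (∀ x y : F, τ (x + y) = τ x + τ y) ∧
      τ 1 = 1 := by
  have hAv : A v ≠ 0 := fun h => hv0 (D.A_inj hF hn hE hv h)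
  choose τ hτ using hline
  refine ⟨τ, hτ, fun x y => ?_, ?_⟩
  · have h1 : A ((x + y) • v) = A (x • v) + A (y • v) := by
      rw [add_smul, D.A_add hF hn (hv.smul x) (hv.smul y)]
    rw [hτ, hτ, hτ, ← add_smul] at h1
    have h2 : (τ (x + y) - (τ x + τ y)) • A v = 0 := by rw [sub_smul, h1, sub_self]
    rcases smul_eq_zero.mp h2 with h | h
    · exact sub_eq_zero.mp h
    · exact absurd h hAv
  · have h1 := hτ 1
    rw [one_smul] at h1
    have h2 : (τ 1 - 1) • A v = 0 := by rw [sub_smul, ← h1, one_smul, sub_self]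
    rcases smul_eq_zero.mp h2 with h | h
    · exact sub_eq_zero.mp h
    · exact absurd h hAv

include hF hn in
theorem tau_torus (D : RadData Fr α A Ψ) (hE : α '' Rt Fr.e = Rt Fr.e)
    (hF0 : α '' Rt Fr.f = Rt Fr.f) {v : V} (hv : InW Fr v) (hv0 : v ≠ 0) {τ : F → F}
    (hτ : ∀ μ : F, A (μ • v) = τ μ • A v) (h1 : τ 1 = 1) {x x' : SUn}
    (hx' : α (pm x) = pm x') {a b g g' : F} (hxe : x.1.1 *ᵥ Fr.e = a • Fr.e)
    (hxf : x.1.1 *ᵥ Fr.f = b • Fr.f) (hxv : x.1.1 *ᵥ v = g • v)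
    (hx'v : x'.1.1 *ᵥ A v = g' • A v) :
    ∀ μ : F, τ (a ^ q * g * μ) = τ (a ^ q * g) * τ μ := by
  have hAv : A v ≠ 0 := fun h => hv0 (D.A_inj hF hn hE hv h)
  obtain ⟨a', b', hxe', hxf'⟩ := levi_fix hF hn hE hF0 hx' hxe hxf
  have key : ∀ μ : F, τ (a ^ q * g * μ) = a' ^ q * τ μ * g' := by
    intro μ
    obtain ⟨c, hval⟩ := exists_val hF (hv.smul μ)
    have h2 := (levi hF hn D hx' hxe hxf hxe' hxf' hval).1
    rw [Matrix.mulVec_smul, hxv, smul_smul, smul_smul, hτ, hτ, Matrix.mulVec_smul, hx'v, smul_smul,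
      smul_smul] at h2
    have h3 : (τ (a ^ q * μ * g) - a' ^ q * τ μ * g') • A v = 0 := by
      rw [sub_smul, h2, sub_self]
    rcases smul_eq_zero.mp h3 with h | h
    · have h4 := sub_eq_zero.mp h
      rw [show a ^ q * g * μ = a ^ q * μ * g by ring, h4]
    · exact absurd h hAv
  intro μ
  have k1 := key 1
  rw [mul_one, h1] at k1
  rw [key μ, k1]
  ring

/-! ### Semilinearity on a line -/

include hF hn in
theorem semi_iso (D : RadData Fr α A Ψ) (hE : α '' Rt Fr.e = Rt Fr.e)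
    (hF0 : α '' Rt Fr.f = Rt Fr.f) {u : V} (hu : InW Fr u) (hiso : Iso q u) :
    ∃ τ : F →+* F, ∀ μ : F, A (μ • u) = τ μ • A u := by
  have hpar := A_par_phi hF hn D hE hF0 hu hiso
  have hline : ∀ μ : F, ∃ t : F, A (μ • u) = t • A u := by
    intro μ
    by_cases hμ : μ = 0
    · exact ⟨0, by rw [hμ, zero_smul, zero_smul, (D.zero hF hn).1]⟩
    · have h1 := A_par_phi hF hn D hE hF0 (hu.smul μ) (hiso.smul hμ)
      have h2 := phi_par hF hn α hiso (Par.smul hμ)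
      obtain ⟨t, -, ht⟩ := (hpar.trans h2).trans h1.symm
      exact ⟨t, ht⟩
  obtain ⟨τ, hτ, hadd, h1⟩ := exists_tau_line hF hn D hE hu hiso.1 hline
  obtain ⟨u', hu', hu'iso, huu', hu'u⟩ := exists_inW_partner hF hu hiso
  have H : HypW Fr u u' := ⟨hu, hu', hiso.2, hu'iso, huu', hu'u⟩
  have hsq : ∀ c μ : F, τ (c * c * μ) = τ (c * c) * τ μ := by
    intro c μ
    by_cases hc : c = 0
    · rw [hc, zero_mul, zero_mul, add_map_zero hadd, zero_mul]
    have ha : c ^ q ≠ 0 := pow_ne_zero _ hc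
    obtain ⟨x', hx'⟩ := pm_surjective (α (pm (tor4 Fr u u' (c ^ q))))
    have hxu := tor4_u hF H ha
    have h3 := phi_equiv hF hn α _ x' hx'.symm hiso
    rw [hxu] at h3
    have h4 : Par (A u) (x'.1.1 *ᵥ A u) :=
      ((hpar.trans (phi_par hF hn α hiso (Par.smul (pow_ne_zero _ ha)))).trans h3.symm).trans
        (hpar.symm.mulVec x'.1.1)
    obtain ⟨g', -, hg'⟩ := h4
    have := tau_torus hF hn D hE hF0 hu hiso.1 hτ h1 hx'.symm (tor4_e hF H ha) (tor4_f hF H ha)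
      hxu hg' μ
    rwa [conj_conj hF] at this
  have hmul := mul_of_sq hadd hsq
  exact ⟨{ toFun := τ
           map_one' := h1
           map_mul' := hmul
           map_zero' := add_map_zero hadd
           map_add' := hadd }, hτ⟩

include hF hn in
theorem semi_three (hn3 : n = 3) (hq3 : 3 ≤ q) (D : RadData Fr α A Ψ)
    (hE : α '' Rt Fr.e = Rt Fr.e) (hF0 : α '' Rt Fr.f = Rt Fr.f) {w₀ : V} (hw : InW Fr w₀)
    (hw0 : w₀ ≠ 0) : ∃ τ : F →+* F, ∀ μ : F, A (μ • w₀) = τ μ • A w₀ := by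
  have hAv : A w₀ ≠ 0 := fun h => hw0 (D.A_inj hF hn hE hw h)
  have hAW := D.mapsW hF hw
  have hline : ∀ μ : F, ∃ t : F, A (μ • w₀) = t • A w₀ := fun μ =>
    inW_line hn3 hAW hAv (D.mapsW hF (hw.smul μ))
  obtain ⟨τ, hτ, hadd, h1⟩ := exists_tau_line hF hn D hE hw hw0 hline
  have hρ : ∀ a : F, a ≠ 0 → ∀ μ : F,
      τ (a ^ q * (a ^ q * a⁻¹) * μ) = τ (a ^ q * (a ^ q * a⁻¹)) * τ μ := by
    intro a ha μ
    obtain ⟨x', hx'⟩ := pm_surjective (α (pm (tor3 Fr a)))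
    obtain ⟨a', b', hxe', hxf'⟩ := levi_fix hF hn hE hF0 hx'.symm (tor3_e hF hn3 ha)
      (tor3_f hF hn3 ha)
    obtain ⟨g', hg'⟩ := inW_line hn3 hAW hAv (levi_inW hF hxe' hxf' hAW)
    exact tau_torus hF hn D hE hF0 hw hw0 hτ h1 hx'.symm (tor3_e hF hn3 ha) (tor3_f hF hn3 ha)
      (tor3_w hF hn3 ha hw) hg' μ
  have hmul := mul_of_rho hF hq3 hadd h1 hρ
  exact ⟨{ toFun := τ
           map_one' := h1
           map_mul' := hmul
           map_zero' := add_map_zero hadd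
           map_add' := hadd }, hτ⟩

/-! ### Consistency -/

theorem semi_of_par {A : V → V} {τ : F →+* F} {u₁ u₂ : V} (h : Par u₁ u₂)
    (h₁ : ∀ μ : F, A (μ • u₁) = τ μ • A u₁) : ∀ μ : F, A (μ • u₂) = τ μ • A u₂ := by
  obtain ⟨l, -, rfl⟩ := h
  intro μ
  rw [smul_smul, h₁, h₁, map_mul, smul_smul]

include hF hn in
theorem semi_cons (D : RadData Fr α A Ψ) (hE : α '' Rt Fr.e = Rt Fr.e) {τ₁ τ₂ τ₃ : F →+* F}
    {u₁ u₂ : V} (hu₁ : InW Fr u₁) (hu₂ : InW Fr u₂) (h10 : u₁ ≠ 0) (h20 : u₂ ≠ 0)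
    (hnp : ¬ Par u₂ u₁) (h₁ : ∀ μ : F, A (μ • u₁) = τ₁ μ • A u₁)
    (h₂ : ∀ μ : F, A (μ • u₂) = τ₂ μ • A u₂)
    (h₃ : ∀ μ : F, A (μ • (u₁ + u₂)) = τ₃ μ • A (u₁ + u₂)) : ∀ μ : F, τ₁ μ = τ₂ μ := by
  have hA2 : A u₂ ≠ 0 := fun h => h20 (D.A_inj hF hn hE hu₂ h)
  have hsurj : Function.Surjective τ₂ := Finite.surjective_of_injective τ₂.injective
  intro μ
  have e1 := h₃ μ
  rw [smul_add, D.A_add hF hn (hu₁.smul μ) (hu₂.smul μ), D.A_add hF hn hu₁ hu₂, h₁, h₂, smul_add]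
    at e1
  have e2 : (τ₃ μ - τ₁ μ) • A u₁ = (τ₂ μ - τ₃ μ) • A u₂ := by
    rw [sub_smul, sub_smul, sub_eq_sub_iff_add_eq_add, ← e1]
    abel
  have hc1 : τ₃ μ - τ₁ μ = 0 := by
    by_contra hc
    obtain ⟨l, hl⟩ := hsurj ((τ₃ μ - τ₁ μ)⁻¹ * (τ₂ μ - τ₃ μ))
    have e3 : A u₁ = A (l • u₂) := by
      rw [h₂, hl, ← smul_smul, ← e2, smul_smul, inv_mul_cancel₀ hc, one_smul]
    have e4 : A (u₁ - l • u₂) = 0 := by
      have := D.A_add hF hn (hu₁.sub (hu₂.smul l)) (hu₂.smul l)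
      rw [sub_add_cancel, ← e3] at this
      exact right_eq_add.mp this
    have e5 := sub_eq_zero.mp (D.A_inj hF hn hE (hu₁.sub (hu₂.smul l)) e4)
    apply hnp
    refine ⟨l, ?_, e5⟩
    rintro rfl
    rw [zero_smul] at e5
    exact h10 e5
  have hc2 : τ₂ μ - τ₃ μ = 0 := by
    rw [hc1, zero_smul] at e2
    rcases smul_eq_zero.mp e2.symm with h | h
    · exact h
    · exact absurd h hA2
  rw [← sub_eq_zero.mp hc1, sub_eq_zero.mp hc2]

end Cfsg.Agent.Lib.Helper43.AutPSU
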