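import Mathlib
import Cfsg.Agent.Lib.Helper43.AutPSU.Semi

set_option autoImplicit false

/-!
# Semilinearity of the action on the radical: the whole complement
-/

namespace Cfsg.Agent.Lib.Helper43.AutPSU

open Matrix Cfsg.Agent.Lib.Helper13 Cfsg.Agent.Lib.Helper45 Cfsg.Agent.Lib.Helper44

set_option linter.unusedSectionVars false

variable {n : ℕ} {F : Type*} [Field F] [Fintype F] {q : ℕ}

local notation "V" => Fin n → F
local notation "Mx" => Matrix (Fin n) (Fin n) F
set_option quotPrecheck false in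
local notation "SUn" => ↥(Cfsg.SU n F q)
local notation "PSUn" => Cfsg.PSU n F q
local notation "hh" => Cfsg.hermForm n F q

variable {Fr : HFrame n F q}

variable (hF : Fintype.card F = q ^ 2) (hn : 3 ≤ n)

variable {α : MulAut (Cfsg.PSU n F q)} {A : (Fin n → F) → (Fin n → F)}
  {Ψ : (Fin n → F) → F → F}

include hF hn in
theorem exists_semilinear (h32 : ¬ (n = 3 ∧ q = 2)) (D : RadData Fr α A Ψ)
    (hE : α '' Rt Fr.e = Rt Fr.e) (hF0 : α '' Rt Fr.f = Rt Fr.f) :
    ∃ τ : F →+* F, ∀ w : V, InW Fr w → ∀ μ : F, A (μ • w) = τ μ • A w := by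
  by_cases hn3 : n = 3
  · have hq3 : 3 ≤ q := by
      have := two_le_q hF
      omega
    obtain ⟨w₀, hw₀, hw₀0⟩ := exists_inW_ne_zero (Fr := Fr) hn
    obtain ⟨τ, hτ⟩ := semi_three hF hn hn3 hq3 D hE hF0 hw₀ hw₀0
    refine ⟨τ, fun w hw μ => ?_⟩
    obtain ⟨b, rfl⟩ := inW_line hn3 hw₀ hw₀0 hw
    rw [smul_smul, hτ, hτ, map_mul, smul_smul]
  · have hn4 : 4 ≤ n := by omega
    obtain ⟨u₀, hu₀, hiso₀⟩ := exists_inW_iso (Fr := Fr) hF hn4
    obtain ⟨τ, hτ⟩ := semi_iso hF hn D hE hF0 hu₀ hiso₀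
    refine ⟨τ, ?_⟩
    -- two isotropic vectors with isotropic sum
    have hstep : ∀ u : V, InW Fr u → Iso q u → ¬ Par u u₀ → hh (u₀ + u) (u₀ + u) = 0 →
        ∀ μ : F, A (μ • u) = τ μ • A u := by
      intro u hu hiso hnp hsum
      obtain ⟨τ₂, hτ₂⟩ := semi_iso hF hn D hE hF0 hu hiso
      have hne : u₀ + u ≠ 0 := by
        intro h
        apply hnp
        refine ⟨-1, by norm_num, ?_⟩
        rw [neg_one_smul]
        exact eq_neg_of_add_eq_zero_left h
      obtain ⟨τ₃, hτ₃⟩ := semi_iso hF hn D hE hF0 (hu₀.add hu) ⟨hne, hsum⟩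
      have := semi_cons hF hn D hE hu₀ hu hiso₀.1 hiso.1 hnp hτ hτ₂ hτ₃
      intro μ
      rw [hτ₂, this]
    have hisoall : ∀ u : V, InW Fr u → Iso q u → ∀ μ : F, A (μ • u) = τ μ • A u := by
      intro u hu hiso
      by_cases hpar : Par u₀ u
      · exact semi_of_par hpar hτ
      · by_cases hperp : hh u₀ u = 0
        · apply hstep u hu hiso (fun h => hpar h.symm)
          rw [herm_add_left, herm_add_right hF, herm_add_right hF, hiso₀.2, hiso.2, hperp,
            hh_swap_zero hF hperp]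
          ring
        · have hperp' : hh u u₀ ≠ 0 := fun h => hperp (hh_swap_zero hF h)
          obtain ⟨i, hi0, hi⟩ := exists_skew hF
          have hs0 : i / hh u u₀ ≠ 0 := div_ne_zero hi0 hperp'
          have h3 := hstep ((i / hh u u₀) • u) (hu.smul _) (hiso.smul hs0)
            (fun h => hpar ((Par.smul hs0).trans h).symm) (by
              rw [herm_add_left, herm_add_right hF, herm_add_right hF, hiso₀.2,
                (hiso.smul hs0).2, herm_smul_left, herm_smul_right, div_pow, hi, herm_conj hF]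
              field_simp
              ring)
          have h4 : Par ((i / hh u u₀) • u) u := (Par.smul hs0).symm
          exact semi_of_par h4 h3
    intro w hw
    refine inW_induction hF hn4 (fun w => ∀ μ : F, A (μ • w) = τ μ • A w) ?_ ?_ w hw
    · intro u hu huu
      by_cases hu0 : u = 0
      · intro μ
        rw [hu0, smul_zero, (D.zero hF hn).1, smul_zero]
      · exact hisoall u hu ⟨hu0, huu⟩
    · intro u v hu hv h1 h2 μ
      rw [smul_add, D.A_add hF hn (hu.smul μ) (hv.smul μ), h1, h2, D.A_add hF hn hu hv, smul_add]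

end Cfsg.Agent.Lib.Helper43.AutPSU
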