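import Mathlib
import Cfsg.Agent.Lib.Helper43.AutPSU.SemiAll

set_option autoImplicit false

/-!
# The form and the quadratic part of the action on the radical
-/

namespace Cfsg.Agent.Lib.Helper43.AutPSU

open Matrix Cfsg.Agent.Lib.Helper13 Cfsg.Agent.Lib.Helper45 Cfsg.Agent.Lib.Helper44

set_option linter.unusedSectionVars false

variable {n : ℕ} {F : Type*} [Field F] [Fintype F] {q : ℕ}

local notation "V" => Fin n → F
local notation "Mx" => Matrix (Fin n) (Fin n) F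
set_option quotPrecheck false in
local notation "SUn" => ↥(Cfsg.SU n F q)
local notation "PSUn" => Cfsg.PSU n F q
local notation "hh" => Cfsg.hermForm n F q

variable {Fr : HFrame n F q}

variable (hF : Fintype.card F = q ^ 2) (hn : 3 ≤ n)

variable {α : MulAut (Cfsg.PSU n F q)} {A : (Fin n → F) → (Fin n → F)}
  {Ψ : (Fin n → F) → F → F}

include hF hn in
/-- The multiplier. -/
theorem exists_mu (D : RadData Fr α A Ψ) {τ : F →+* F}
    (hτ : ∀ w : V, InW Fr w → ∀ μ : F, A (μ • w) = τ μ • A w) :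
    ∃ μ₀ : F, μ₀ ≠ 0 ∧ μ₀ ^ q = μ₀ ∧ ∀ s : F, s ^ q = -s → Ψ 0 s = μ₀ * τ s := by
  obtain ⟨w₁, hw₁, hw₁0⟩ := exists_inW_ne_zero (Fr := Fr) hn
  obtain ⟨w₂, hw₂, h12⟩ := exists_inW_pair hF hw₁ hw₁0
  have h21 : hh w₂ w₁ = 1 := by rw [← herm_conj hF, h12, one_pow]
  have hK : ∀ l : F,
      τ l * hh (A w₁) (A w₂) - (τ l * hh (A w₁) (A w₂)) ^ q = Ψ 0 (l - l ^ q) := by
    intro l
    have h := D.kappa hF hn (hw₁.smul l) hw₂
    rw [hτ w₁ hw₁, herm_smul_left, herm_smul_right, herm_smul_left, herm_smul_right, h12, h21,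
      mul_one, mul_one] at h
    rw [← h, mul_pow, herm_conj hF]
  have hB : hh (A w₁) (A w₂) ^ q = hh (A w₁) (A w₂) := by
    have h := hK 1
    rw [map_one, one_mul, one_pow, sub_self, (D.zero hF hn).2] at h
    exact (sub_eq_zero.mp h).symm
  refine ⟨hh (A w₁) (A w₂), ?_, hB, ?_⟩
  · intro h0
    obtain ⟨i, hi0, hi⟩ := exists_skew hF
    obtain ⟨l, hl⟩ := exists_skew_repr hF i hi
    have h := hK l
    rw [h0, mul_zero, zero_pow (by have := two_le_q hF; omega), sub_zero, hl] at h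
    have := D.psi_inj hF hn hi (skew_zero hF) (by rw [← h, (D.zero hF hn).2])
    exact hi0 this
  · intro s hs
    obtain ⟨l, rfl⟩ := exists_skew_repr hF s hs
    rw [← hK l, mul_pow, hB, map_sub, map_pow]
    ring

include hF hn in
/-- The form is preserved up to the multiplier and the field automorphism. -/
theorem form_eq (D : RadData Fr α A Ψ) {τ : F →+* F}
    (hτ : ∀ w : V, InW Fr w → ∀ μ : F, A (μ • w) = τ μ • A w) {μ₀ : F} (hμq : μ₀ ^ q = μ₀)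
    (hΨ : ∀ s : F, s ^ q = -s → Ψ 0 s = μ₀ * τ s) {w₁ w₂ : V} (hw₁ : InW Fr w₁)
    (hw₂ : InW Fr w₂) : hh (A w₁) (A w₂) = μ₀ * τ (hh w₁ w₂) := by
  have hsurj : Function.Surjective τ := Finite.surjective_of_injective τ.injective
  have e1 : hh (A w₁) (A w₂) ^ q = hh (A w₂) (A w₁) := herm_conj hF _ _ _
  have e2 : τ (hh w₂ w₁) = τ (hh w₁ w₂) ^ q := by rw [← herm_conj hF n w₁ w₂, map_pow]
  have hK : ∀ t : F, t * (hh (A w₁) (A w₂) - μ₀ * τ (hh w₁ w₂)) =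
      (t * (hh (A w₁) (A w₂) - μ₀ * τ (hh w₁ w₂))) ^ q := by
    intro t
    obtain ⟨l, rfl⟩ := hsurj t
    have h := D.kappa hF hn (hw₁.smul l) hw₂
    have hs : (l * hh w₁ w₂ - l ^ q * hh w₂ w₁) ^ q = -(l * hh w₁ w₂ - l ^ q * hh w₂ w₁) := by
      rw [conj_sub hF, mul_pow, mul_pow, conj_conj hF, herm_conj hF, herm_conj hF]
      ring
    rw [hτ w₁ hw₁, herm_smul_left, herm_smul_right, herm_smul_left, herm_smul_right, hΨ _ hs]
      at h
    simp only [map_sub, map_mul, map_pow] at h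
    rw [e2] at h
    rw [mul_pow, conj_sub hF, mul_pow, hμq, e1]
    linear_combination h
  have h1 := hK 1
  rw [one_mul] at h1
  obtain ⟨θ, hθ⟩ := exists_not_fixed hF
  have h2 := hK θ
  rw [mul_pow, ← h1] at h2
  have h3 : (θ - θ ^ q) * (hh (A w₁) (A w₂) - μ₀ * τ (hh w₁ w₂)) = 0 := by
    linear_combination h2
  rcases mul_eq_zero.mp h3 with h | h
  · exact absurd (sub_eq_zero.mp h).symm hθ
  · exact sub_eq_zero.mp h

include hF hn in
theorem dset_of_one (D : RadData Fr α A Ψ) {τ : F →+* F} {μ₀ : F}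
    (hΨ : ∀ s : F, s ^ q = -s → Ψ 0 s = μ₀ * τ s) {w : V} {c : F} (hv : Val Fr w c)
    (h : Ψ w c = μ₀ * τ c) : ∀ c' : F, Val Fr w c' → Ψ w c' = μ₀ * τ c' := by
  intro c' hv'
  have hs := hv.sub_skew hF hv'
  have h1 := D.Psi_add_skew hF hn hv hs
  rw [add_sub_cancel] at h1
  rw [h1, h, hΨ _ hs, map_sub]
  ring

include hF hn in
theorem dset_add (D : RadData Fr α A Ψ) {τ : F →+* F} {μ₀ : F}
    (hΨ : ∀ s : F, s ^ q = -s → Ψ 0 s = μ₀ * τ s)
    (hform : ∀ w₁ w₂ : V, InW Fr w₁ → InW Fr w₂ → hh (A w₁) (A w₂) = μ₀ * τ (hh w₁ w₂))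
    {w w' : V} (hw : InW Fr w) (hw' : InW Fr w')
    (h : ∀ c : F, Val Fr w c → Ψ w c = μ₀ * τ c)
    (h' : ∀ c : F, Val Fr w' c → Ψ w' c = μ₀ * τ c) :
    ∀ c : F, Val Fr (w + w') c → Ψ (w + w') c = μ₀ * τ c := by
  obtain ⟨c, hv⟩ := exists_val hF hw
  obtain ⟨c', hv'⟩ := exists_val hF hw'
  apply dset_of_one hF hn D hΨ (hv.mul hF hv')
  rw [(D.mul hF hn hv hv').2, h c hv, h' c' hv', hform w' w hw' hw, map_sub, map_add]
  ring

include hF hn in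
theorem dset_torus (D : RadData Fr α A Ψ) (hE : α '' Rt Fr.e = Rt Fr.e)
    (hF0 : α '' Rt Fr.f = Rt Fr.f) {τ : F →+* F} {μ₀ : F} (hμ0 : μ₀ ≠ 0)
    (hΨ : ∀ s : F, s ^ q = -s → Ψ 0 s = μ₀ * τ s)
    (hform : ∀ w₁ w₂ : V, InW Fr w₁ → InW Fr w₂ → hh (A w₁) (A w₂) = μ₀ * τ (hh w₁ w₂))
    {x : SUn} {a b g : F} (hxe : x.1.1 *ᵥ Fr.e = a • Fr.e) (hxf : x.1.1 *ᵥ Fr.f = b • Fr.f)
    (ha : a ^ (q + 1) = 1) {w : V} (hw : InW Fr w) (hxw : x.1.1 *ᵥ w = g • w)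
    (hρ : (a ^ q * g) ^ (q + 1) = 1) :
    ∀ c : F, Val Fr ((a ^ q * g - 1) • w) c → Ψ ((a ^ q * g - 1) • w) c = μ₀ * τ c := by
  obtain ⟨x', hx'⟩ := pm_surjective (α (pm x))
  obtain ⟨a', b', hxe', hxf'⟩ := levi_fix hF hn hE hF0 hx'.symm hxe hxf
  -- the norm of a'
  have ha' : a' ^ (q + 1) = 1 := by
    obtain ⟨i, hi0, hi⟩ := exists_skew hF
    have h := (levi hF hn D hx'.symm hxe hxf hxe' hxf' (Val.zero hF hi)).2
    rw [Matrix.mulVec_zero, smul_zero, ha, one_mul, hΨ i hi] at h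
    have h2 : μ₀ * τ i ≠ 0 := mul_ne_zero hμ0 (by rw [Ne, map_eq_zero]; exact hi0)
    have h3 : (a' ^ (q + 1) - 1) * (μ₀ * τ i) = 0 := by linear_combination -h
    rcases mul_eq_zero.mp h3 with h4 | h4
    · exact sub_eq_zero.mp h4
    · exact absurd h4 h2
  obtain ⟨c, hv⟩ := exists_val hF hw
  have h1 := (levi hF hn D hx'.symm hxe hxf hxe' hxf' hv).2
  rw [hxw, smul_smul, ha, ha', one_mul, one_mul] at h1
  have hH : hh w w ^ q = hh w w := hh_self_fix hF w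
  have hρ' : (a ^ q * g) ^ q * (a ^ q * g) = 1 := by rw [← pow_succ]; exact hρ
  have hv2 : Val Fr ((a ^ q * g - 1) • w) ((a ^ q * g - 1) * hh w w) := by
    refine ⟨hw.smul _, ?_⟩
    rw [herm_smul_left, herm_smul_right, mul_pow, hH, conj_sub hF, one_pow]
    linear_combination (hh w w) * hρ'
  apply dset_of_one hF hn D hΨ hv2
  have h2 := (D.mul hF hn hv hv2).2
  have e1 : w + (a ^ q * g - 1) • w = (a ^ q * g) • w := by module
  have e2 : c + (a ^ q * g - 1) * hh w w - hh ((a ^ q * g - 1) • w) w = c := by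
    rw [herm_smul_left]
    ring
  rw [e1, e2, h1, hform _ _ (hw.smul _) hw, herm_smul_left] at h2
  linear_combination -h2

include hF hn in
theorem psi_eq (h32 : ¬ (n = 3 ∧ q = 2)) (D : RadData Fr α A Ψ) (hE : α '' Rt Fr.e = Rt Fr.e)
    (hF0 : α '' Rt Fr.f = Rt Fr.f) {τ : F →+* F} {μ₀ : F} (hμ0 : μ₀ ≠ 0)
    (hΨ : ∀ s : F, s ^ q = -s → Ψ 0 s = μ₀ * τ s)
    (hform : ∀ w₁ w₂ : V, InW Fr w₁ → InW Fr w₂ → hh (A w₁) (A w₂) = μ₀ * τ (hh w₁ w₂)) :
    ∀ w : V, InW Fr w → ∀ c : F, Val Fr w c → Ψ w c = μ₀ * τ c := by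
  by_cases hn3 : n = 3
  · have hq3 : 3 ≤ q := by
      have := two_le_q hF
      omega
    obtain ⟨a, ha, ha3⟩ := exists_norm_one_cube_ne_one hF hq3
    have ha0 := ne_zero_of_norm_one ha
    have haq := conj_eq_inv hF ha
    have hρ1 : a ^ q * (a ^ q * a⁻¹) - 1 ≠ 0 := by
      rw [haq]
      intro h
      apply ha3
      have h' : a⁻¹ * (a⁻¹ * a⁻¹) = 1 := sub_eq_zero.mp h
      have h3 : a ^ 3 * (a⁻¹ * (a⁻¹ * a⁻¹)) = 1 := by field_simp
      rw [h', mul_one] at h3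
      exact h3
    have hρ : (a ^ q * (a ^ q * a⁻¹)) ^ (q + 1) = 1 := by
      rw [haq, mul_pow, mul_pow, inv_pow, ha]
      norm_num
    intro w hw
    have := dset_torus hF hn D hE hF0 hμ0 hΨ hform (tor3_e hF hn3 ha0) (tor3_f hF hn3 ha0) ha
      (hw.smul (a ^ q * (a ^ q * a⁻¹) - 1)⁻¹) (tor3_w hF hn3 ha0 (hw.smul _)) hρ
    rw [smul_smul, mul_inv_cancel₀ hρ1, one_smul] at this
    exact this
  · have hn4 : 4 ≤ n := by omega
    obtain ⟨a, ha, hane⟩ := exists_norm_one_sq_ne_one hF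
    have ha0 := ne_zero_of_norm_one ha
    have haq := conj_eq_inv hF ha
    have hρ1 : a ^ q * a ^ q - 1 ≠ 0 := by
      rw [haq]
      intro h
      apply hane
      have h' : a⁻¹ * a⁻¹ = 1 := sub_eq_zero.mp h
      have := eq_inv_of_mul_eq_one_left h'
      rw [inv_inv] at this
      exact this.symm
    have hρ : (a ^ q * a ^ q) ^ (q + 1) = 1 := by
      rw [haq, mul_pow, inv_pow, ha]
      norm_num
    intro w hw
    refine inW_induction hF hn4 (fun w => ∀ c : F, Val Fr w c → Ψ w c = μ₀ * τ c) ?_ ?_ w hw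
    · intro u hu huu
      by_cases hu0 : u = 0
      · intro c hv
        rw [hu0] at hv ⊢
        exact hΨ c (hv.skew hF)
      · have hiso' : Iso q ((a ^ q * a ^ q - 1)⁻¹ • u) :=
          Iso.smul (⟨hu0, huu⟩ : Iso q u) (inv_ne_zero hρ1)
        obtain ⟨u', hu', hu'iso, huu', hu'u⟩ := exists_inW_partner hF (hu.smul _) hiso'
        have H : HypW Fr ((a ^ q * a ^ q - 1)⁻¹ • u) u' :=
          ⟨hu.smul _, hu', hiso'.2, hu'iso, huu', hu'u⟩
        have := dset_torus hF hn D hE hF0 hμ0 hΨ hform (tor4_e hF H ha0) (tor4_f hF H ha0) ha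
          (hu.smul _) (tor4_u hF H ha0) hρ
        rw [smul_smul, mul_inv_cancel₀ hρ1, one_smul] at this
        exact this
    · intro u v hu hv h1 h2
      exact dset_add hF hn D hΨ hform hu hv h1 h2

/-- The normal form of an automorphism on the radical of the parabolic subgroup. -/
structure IsPara (Fr : HFrame n F q) (α : MulAut (Cfsg.PSU n F q))
    (A : (Fin n → F) → (Fin n → F)) (τ : F → F) (μ₀ : F) : Prop where
  mu_ne : μ₀ ≠ 0
  mu_fix : μ₀ ^ q = μ₀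
  mapsW : ∀ w, InW Fr w → InW Fr (A w)
  add : ∀ w w', InW Fr w → InW Fr w' → A (w + w') = A w + A w'
  smul : ∀ w, InW Fr w → ∀ μ : F, A (μ • w) = τ μ • A w
  form : ∀ w w', InW Fr w → InW Fr w' →
    Cfsg.hermForm n F q (A w) (A w') = μ₀ * τ (Cfsg.hermForm n F q w w')
  val : ∀ w c, Val Fr w c → Val Fr (A w) (μ₀ * τ c)
  em : ∀ w c, Val Fr w c → α (pm (Em Fr w c)) = pm (Em Fr (A w) (μ₀ * τ c))

include hF hn in
theorem exists_para (h32 : ¬ (n = 3 ∧ q = 2)) (α : MulAut PSUn) (hE : α '' Rt Fr.e = Rt Fr.e)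
    (hF0 : α '' Rt Fr.f = Rt Fr.f) :
    ∃ (A : V → V) (τ : F →+* F) (μ₀ : F), IsPara Fr α A τ μ₀ := by
  obtain ⟨A, Ψ, D⟩ := exists_radData hF hn α hE
  obtain ⟨τ, hτ⟩ := exists_semilinear hF hn h32 D hE hF0
  obtain ⟨μ₀, hμ0, hμq, hΨ⟩ := exists_mu hF hn D hτ
  have hform : ∀ w₁ w₂ : V, InW Fr w₁ → InW Fr w₂ → hh (A w₁) (A w₂) = μ₀ * τ (hh w₁ w₂) :=
    fun w₁ w₂ hw₁ hw₂ => form_eq hF hn D hτ hμq hΨ hw₁ hw₂
  have hpsi := psi_eq hF hn h32 D hE hF0 hμ0 hΨ hform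
  refine ⟨A, τ, μ₀, hμ0, hμq, fun w hw => D.mapsW hF hw, fun w w' hw hw' => D.A_add hF hn hw hw',
    hτ, hform, fun w c hv => ?_, fun w c hv => ?_⟩
  · rw [← hpsi w hv.1 c hv]
    exact D.val w c hv
  · rw [← hpsi w hv.1 c hv]
    exact D.em w c hv

end Cfsg.Agent.Lib.Helper43.AutPSU
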