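import Mathlib
import Cfsg.Agent.Lib.Helper43.AutPSU.Form

set_option autoImplicit false

/-!
# The standard automorphisms of `PSU_n(q)` and vectors
-/

namespace Cfsg.Agent.Lib.Helper43.AutPSU

open Matrix Cfsg.Agent.Lib.Helper13 Cfsg.Agent.Lib.Helper45 Cfsg.Agent.Lib.Helper44
open Cfsg.Agent.Lib.Helper8.PSUAut

set_option linter.unusedSectionVars false

variable {n : ℕ} {F : Type*} [Field F] [Fintype F] {q : ℕ}

local notation "V" => Fin n → F
local notation "Mx" => Matrix (Fin n) (Fin n) F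
set_option quotPrecheck false in
local notation "SUn" => ↥(Cfsg.SU n F q)
local notation "PSUn" => Cfsg.PSU n F q
local notation "hh" => Cfsg.hermForm n F q
local notation "GLn" => GL (Fin n) F

/-! ### The twist of a vector by a field automorphism -/

/-- Apply a field automorphism to the coordinates. -/
def tw (τ : F ≃+* F) (v : Fin n → F) : Fin n → F := fun i => τ (v i)

theorem tw_add (τ : F ≃+* F) (u v : V) : tw τ (u + v) = tw τ u + tw τ v := by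
  ext i
  simp [tw]

theorem tw_sub (τ : F ≃+* F) (u v : V) : tw τ (u - v) = tw τ u - tw τ v := by
  ext i
  simp [tw]

theorem tw_smul (τ : F ≃+* F) (a : F) (v : V) : tw τ (a • v) = τ a • tw τ v := by
  ext i
  simp [tw]

theorem tw_zero (τ : F ≃+* F) : tw τ (0 : V) = 0 := by
  ext i
  simp [tw]

theorem tw_symm (τ : F ≃+* F) (v : V) : tw τ.symm (tw τ v) = v := by
  ext i
  simp [tw]

theorem tw_symm' (τ : F ≃+* F) (v : V) : tw τ (tw τ.symm v) = v := by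
  ext i
  simp [tw]

theorem hh_tw (τ : F ≃+* F) (u v : V) : hh (tw τ u) (tw τ v) = τ (hh u v) :=
  hermForm_map τ u v

theorem tw_mulVec (τ : F ≃+* F) (M : Mx) (v : V) : tw τ (M *ᵥ v) = M.map τ *ᵥ tw τ v := by
  ext k
  exact RingHom.map_mulVec (τ : F →+* F) M v k

theorem tw_ne_zero (τ : F ≃+* F) {v : V} (hv : v ≠ 0) : tw τ v ≠ 0 := by
  intro h
  apply hv
  rw [← tw_symm τ v, h, tw_zero]

/-! ### Field automorphisms -/

theorem fU_pm (τ : RingAut F) (s : SUn) : fU τ (pm s) = pm (fAutU τ s) := rfl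

theorem fAutU_mulVec (τ : RingAut F) (s : SUn) (v : V) :
    (fAutU τ s).1.1 *ᵥ tw τ v = tw τ (s.1.1 *ᵥ v) := by
  rw [tw_mulVec]
  rfl

theorem fAutU_tvU (hF : Fintype.card F = q ^ 2) (τ : RingAut F) {u : V} (hu : hh u u = 0) {c : F}
    (hc : c ^ q = -c) : fAutU τ (tvU u c : SUn) = tvU (tw τ u) (τ c) := by
  have hu' : hh (tw τ u) (tw τ u) = 0 := by rw [hh_tw, hu, map_zero]
  have hc' : (τ c) ^ q = -(τ c) := by rw [← map_pow, hc, map_neg]
  apply su_ext'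
  intro v
  have hv : v = tw τ (tw τ.symm v) := (tw_symm' τ v).symm
  rw [hv, fAutU_mulVec, tvU_mulVec hF hu hc, tvU_mulVec hF hu' hc', tw_add, tw_smul, hh_tw,
    map_mul]

theorem fU_Rt (hF : Fintype.card F = q ^ 2) (τ : RingAut F) {u : V} (hu : hh u u = 0) :
    fU τ '' (Rt u : Set PSUn) = Rt (tw τ u) := by
  apply Set.Subset.antisymm
  · rintro _ ⟨x, ⟨c, hc, rfl⟩, rfl⟩
    exact ⟨τ c, by rw [← map_pow, hc, map_neg], by rw [fU_pm, fAutU_tvU hF τ hu hc]⟩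
  · rintro _ ⟨c, hc, rfl⟩
    have hc' : (τ.symm c) ^ q = -(τ.symm c) := by rw [← map_pow, hc, map_neg]
    exact ⟨pm (tvU u (τ.symm c)), ⟨_, hc', rfl⟩, by
      rw [fU_pm, fAutU_tvU hF τ hu hc', τ.apply_symm_apply]⟩

/-! ### Unitary similitudes -/

theorem glU_inv_mulVec (g : GLn) (v : V) : ((g⁻¹ : GLn) : Mx) *ᵥ ((g : Mx) *ᵥ v) = v := by
  rw [Matrix.mulVec_mulVec, Units.inv_mul, Matrix.one_mulVec]

theorem glU_mulVec_inv (g : GLn) (v : V) : (g : Mx) *ᵥ (((g⁻¹ : GLn) : Mx) *ᵥ v) = v := by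
  rw [Matrix.mulVec_mulVec, Units.mul_inv, Matrix.one_mulVec]

theorem cU_pm (x : ↥(GUs n F q)) (s : SUn) : cU x (pm s) = pm (uAut x s) := rfl

theorem uAut_mulVec (x : ↥(GUs n F q)) (s : SUn) (v : V) :
    (uAut x s).1.1 *ᵥ (((x : GLn) : Mx) *ᵥ v) = ((x : GLn) : Mx) *ᵥ (s.1.1 *ᵥ v) := by
  have h : (uAut x s).1.1 = ((x : GLn) : Mx) * s.1.1 * (((x : GLn)⁻¹ : GLn) : Mx) := rfl
  rw [h, ← Matrix.mulVec_mulVec, ← Matrix.mulVec_mulVec, glU_inv_mulVec]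

theorem uAut_tvU (hF : Fintype.card F = q ^ 2) (x : ↥(GUs n F q)) {e : F} (he0 : e ≠ 0)
    (he : ∀ u v : V, hh (((x : GLn) : Mx) *ᵥ u) (((x : GLn) : Mx) *ᵥ v) = e * hh u v)
    (heq : e ^ q = e) {u : V} (hu : hh u u = 0) {c : F} (hc : c ^ q = -c) :
    uAut x (tvU u c : SUn) = tvU (((x : GLn) : Mx) *ᵥ u) (c / e) := by
  have hu' : hh (((x : GLn) : Mx) *ᵥ u) (((x : GLn) : Mx) *ᵥ u) = 0 := by rw [he, hu, mul_zero]
  have hc' : (c / e) ^ q = -(c / e) := by rw [div_pow, hc, heq, neg_div]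
  apply su_ext'
  intro v
  have hv : v = ((x : GLn) : Mx) *ᵥ ((((x : GLn)⁻¹ : GLn) : Mx) *ᵥ v) :=
    (glU_mulVec_inv _ v).symm
  rw [hv, uAut_mulVec, tvU_mulVec hF hu hc, tvU_mulVec hF hu' hc', Matrix.mulVec_add,
    Matrix.mulVec_smul, he]
  congr 2
  field_simp

theorem cU_Rt (hF : Fintype.card F = q ^ 2) (x : ↥(GUs n F q)) {e : F} (he0 : e ≠ 0)
    (he : ∀ u v : V, hh (((x : GLn) : Mx) *ᵥ u) (((x : GLn) : Mx) *ᵥ v) = e * hh u v)
    (heq : e ^ q = e) {u : V} (hu : hh u u = 0) :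
    cU x '' (Rt u : Set PSUn) = Rt (((x : GLn) : Mx) *ᵥ u) := by
  apply Set.Subset.antisymm
  · rintro _ ⟨y, ⟨c, hc, rfl⟩, rfl⟩
    exact ⟨c / e, by rw [div_pow, hc, heq, neg_div], by
      rw [cU_pm, uAut_tvU hF x he0 he heq hu hc]⟩
  · rintro _ ⟨c, hc, rfl⟩
    have hc' : (c * e) ^ q = -(c * e) := by rw [mul_pow, hc, heq, neg_mul]
    refine ⟨pm (tvU u (c * e)), ⟨_, hc', rfl⟩, ?_⟩
    rw [cU_pm, uAut_tvU hF x he0 he heq hu hc', mul_div_assoc, div_self he0, mul_one]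

/-! ### Special unitary matrices as similitudes -/

/-- A special unitary matrix as a unitary similitude. -/
def suToGUs (s : ↥(Cfsg.SU n F q)) : ↥(GUs n F q) :=
  ⟨Matrix.SpecialLinearGroup.toGL s.1, ⟨1, fun u v => by
    rw [Units.val_one, one_mul]
    exact s.2 u v⟩⟩

theorem suToGUs_coe (s : SUn) : (((suToGUs s : ↥(GUs n F q)) : GLn) : Mx) = s.1.1 := rfl

theorem suToGUs_inv_coe (s : SUn) :
    ((((suToGUs s : ↥(GUs n F q)) : GLn)⁻¹ : GLn) : Mx) = (s⁻¹).1.1 := by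
  have h : ((suToGUs s : ↥(GUs n F q)) : GLn)⁻¹ =
      ((suToGUs s⁻¹ : ↥(GUs n F q)) : GLn) := by
    rw [inv_eq_iff_mul_eq_one]
    apply Units.ext
    show s.1.1 * (s⁻¹).1.1 = 1
    rw [← coe_mul, mul_inv_cancel, coe_one]
  rw [h, suToGUs_coe]

theorem cU_suToGUs (s : SUn) : (cU (suToGUs s) : MulAut PSUn) = MulAut.conj (pm s) := by
  ext x
  obtain ⟨t, rfl⟩ := pm_surjective x
  rw [cU_pm, MulAut.conj_apply, ← map_inv, ← map_mul, ← map_mul]
  congr 1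

/-! ### The link with the Prelude predicates -/

theorem isInduced_cU_fU (g : GLn) (hg : g ∈ Cfsg.GU n F q) (τ : RingAut F) :
    Cfsg.IsInducedBySemilinearPSU g τ (cU (ofGU g hg) * fU τ : MulAut PSUn) := by
  intro s s' h
  show cU (ofGU g hg) (fU τ (pm s)) = pm s'
  rw [fU_pm, cU_pm]
  congr 1
  apply Subtype.ext
  apply Subtype.ext
  rw [h]
  rfl

end Cfsg.Agent.Lib.Helper43.AutPSU
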