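import Mathlib
import Cfsg.Agent.Lib.Helper43.AutPSU.Auts

set_option autoImplicit false

/-!
# The structure of `Aut(PSU_n(q))`

Every automorphism of `PSU_n(q)`, `n ≥ 3`, `(n, q) ≠ (3, 2)`, is induced by a semilinear
unitary similitude.
-/

namespace Cfsg.Agent.Lib.Helper43.AutPSU

open Matrix Cfsg.Agent.Lib.Helper13 Cfsg.Agent.Lib.Helper45 Cfsg.Agent.Lib.Helper44
open Cfsg.Agent.Lib.Helper8.PSUAut

set_option linter.unusedSectionVars false

variable {n : ℕ} {F : Type*} [Field F] [Fintype F] {q : ℕ}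

local notation "V" => Fin n → F
local notation "Mx" => Matrix (Fin n) (Fin n) F
set_option quotPrecheck false in
local notation "SUn" => ↥(Cfsg.SU n F q)
local notation "PSUn" => Cfsg.PSU n F q
local notation "hh" => Cfsg.hermForm n F q
local notation "GLn" => GL (Fin n) F

variable {Fr : HFrame n F q}

variable (hF : Fintype.card F = q ^ 2) (hn : 3 ≤ n)

section build

variable {α : MulAut (Cfsg.PSU n F q)} {A : (Fin n → F) → (Fin n → F)} {τ : F ≃+* F} {μ₀ : F}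

include hF in
theorem IsPara.A_zero (P : IsPara Fr α A τ μ₀) : A 0 = 0 := by
  have := P.smul 0 (InW.zero hF) 0
  rwa [zero_smul, map_zero, zero_smul] at this

/-- The semilinear extension of the action on the complement. -/
def G0 (Fr : HFrame n F q) (A : (Fin n → F) → (Fin n → F)) (τ : F ≃+* F) (μ₀ : F)
    (v : Fin n → F) : Fin n → F :=
  (μ₀ * τ (Cfsg.hermForm n F q v Fr.f)) • Fr.e + τ (Cfsg.hermForm n F q v Fr.e) • Fr.f +
    A (prW Fr v)

theorem G0_add (P : IsPara Fr α A τ μ₀) (u v : V) :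
    G0 Fr A τ μ₀ (u + v) = G0 Fr A τ μ₀ u + G0 Fr A τ μ₀ v := by
  unfold G0
  rw [herm_add_left, herm_add_left, prW_add, P.add _ _ (prW_inW Fr u) (prW_inW Fr v), map_add,
    map_add]
  module

theorem G0_smul (P : IsPara Fr α A τ μ₀) (a : F) (v : V) :
    G0 Fr A τ μ₀ (a • v) = τ a • G0 Fr A τ μ₀ v := by
  unfold G0
  rw [herm_smul_left, herm_smul_left, prW_smul, P.smul _ (prW_inW Fr v), map_mul, map_mul]
  module

include hF in
theorem G0_e (P : IsPara Fr α A τ μ₀) : G0 Fr A τ μ₀ Fr.e = μ₀ • Fr.e := by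
  unfold G0
  rw [Fr.ef, Fr.ee, prW_e, P.A_zero hF, map_one, map_zero]
  module

include hF in
theorem G0_f (P : IsPara Fr α A τ μ₀) : G0 Fr A τ μ₀ Fr.f = Fr.f := by
  unfold G0
  rw [Fr.ff, Fr.fe, prW_f, P.A_zero hF, map_one, map_zero]
  module

theorem G0_w {w : V} (hw : InW Fr w) : G0 Fr A τ μ₀ w = A w := by
  unfold G0
  rw [hw.1, hw.2, prW_of_inW hw, map_zero]
  module

include hF in
theorem G0_form (P : IsPara Fr α A τ μ₀) (u v : V) :
    hh (G0 Fr A τ μ₀ u) (G0 Fr A τ μ₀ v) = μ₀ * τ (hh u v) := by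
  have hu := prW_inW Fr u
  have hv := prW_inW Fr v
  have hAu := P.mapsW _ hu
  have hAv := P.mapsW _ hv
  have h1 : hh u v = hh (hh u Fr.f • Fr.e + hh u Fr.e • Fr.f + prW Fr u)
      (hh v Fr.f • Fr.e + hh v Fr.e • Fr.f + prW Fr v) := by
    rw [← decomp Fr u, ← decomp Fr v]
  have h2 : hh u v = hh u Fr.f * hh v Fr.e ^ q + hh u Fr.e * hh v Fr.f ^ q +
      hh (prW Fr u) (prW Fr v) := by
    rw [h1]
    simp only [herm_add_left, herm_add_right hF, herm_smul_left, herm_smul_right, Fr.ee, Fr.ff,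
      Fr.ef, Fr.fe, hu.1, hu.2, hv.e_left hF, hv.f_left hF]
    ring
  unfold G0
  simp only [herm_add_left, herm_add_right hF, herm_smul_left, herm_smul_right, Fr.ee, Fr.ff,
    Fr.ef, Fr.fe, hAu.1, hAu.2, hAv.e_left hF, hAv.f_left hF, P.form _ _ hu hv]
  rw [h2]
  simp only [map_add, map_mul, map_pow, mul_pow, P.mu_fix]
  ring

include hF in
/-- The unitary similitude extending the action on the radical. -/
theorem exists_gus (P : IsPara Fr α A τ μ₀) : ∃ g : ↥(GUs n F q),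
    (∀ v : V, ((g : GLn) : Mx) *ᵥ tw τ v = G0 Fr A τ μ₀ v) ∧
    (∀ u v : V, hh (((g : GLn) : Mx) *ᵥ u) (((g : GLn) : Mx) *ᵥ v) = μ₀ * hh u v) := by
  have hlin : IsLinearMap F (fun v : V => G0 Fr A τ μ₀ (tw τ.symm v)) := by
    constructor
    · intro u v
      show G0 Fr A τ μ₀ (tw τ.symm (u + v)) =
        G0 Fr A τ μ₀ (tw τ.symm u) + G0 Fr A τ μ₀ (tw τ.symm v)
      rw [tw_add, G0_add P]
    · intro a v
      show G0 Fr A τ μ₀ (tw τ.symm (a • v)) = a • G0 Fr A τ μ₀ (tw τ.symm v)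
      rw [tw_smul, G0_smul P, τ.apply_symm_apply]
  obtain ⟨M, hM⟩ : ∃ M : Mx, ∀ v : V, M *ᵥ v = G0 Fr A τ μ₀ (tw τ.symm v) := by
    refine ⟨LinearMap.toMatrix' (hlin.mk' _), fun v => ?_⟩
    rw [← Matrix.toLin'_apply, Matrix.toLin'_toMatrix']
    rfl
  have hsim : ∀ u v : V, hh (M *ᵥ u) (M *ᵥ v) = μ₀ * hh u v := by
    intro u v
    rw [hM, hM, G0_form hF P, hh_tw, τ.apply_symm_apply]
  have hinj : Function.Injective M.mulVec := by
    intro u v huv
    have h1 : ∀ y : V, hh y (u - v) = 0 := by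
      intro y
      have h2 := hsim y (u - v)
      rw [Matrix.mulVec_sub, show M *ᵥ u = M *ᵥ v from huv, sub_self, hh_zero_right hF] at h2
      exact (mul_eq_zero.mp h2.symm).resolve_left P.mu_ne
    exact sub_eq_zero.mp (eq_zero_of_perp hF h1)
  have hunit : IsUnit M := Matrix.mulVec_injective_iff_isUnit.mp hinj
  have hcoe : ((hunit.unit : GLn) : Mx) = M := IsUnit.unit_spec hunit
  refine ⟨⟨hunit.unit, ⟨Units.mk0 μ₀ P.mu_ne, fun u v => ?_⟩⟩, fun v => ?_, fun u v => ?_⟩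
  · rw [hcoe]
    exact hsim u v
  · show ((hunit.unit : GLn) : Mx) *ᵥ tw τ v = _
    rw [hcoe, hM, tw_symm]
  · show hh (((hunit.unit : GLn) : Mx) *ᵥ u) (((hunit.unit : GLn) : Mx) *ᵥ v) = _
    rw [hcoe]
    exact hsim u v

include hF in
/-- The standard automorphism acts on the radical as the given one. -/
theorem gamma_Em (P : IsPara Fr α A τ μ₀) (g : ↥(GUs n F q))
    (hg : ∀ v : V, ((g : GLn) : Mx) *ᵥ tw τ v = G0 Fr A τ μ₀ v) {w : V} {c : F}
    (hv : Val Fr w c) :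
    (cU g * fU (τ : RingAut F) : MulAut PSUn) (pm (Em Fr w c)) =
      pm (Em Fr (A w) (μ₀ * τ c)) := by
  show cU g (fU τ (pm (Em Fr w c))) = _
  rw [fU_pm, cU_pm]
  congr 1
  apply su_ext'
  intro y
  obtain ⟨v, hy⟩ : ∃ v : V, y = ((g : GLn) : Mx) *ᵥ tw τ v :=
    ⟨tw τ.symm ((((g : GLn)⁻¹ : GLn) : Mx) *ᵥ y), by rw [tw_symm', glU_mulVec_inv]⟩
  have hG := G0_form hF P
  have h1 : hh (G0 Fr A τ μ₀ v) Fr.e = τ (hh v Fr.e) := by
    have h2 := hG v Fr.e
    rw [G0_e hF P, herm_smul_right, P.mu_fix] at h2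
    exact mul_left_cancel₀ P.mu_ne h2
  have h3 : hh (G0 Fr A τ μ₀ v) (A w) = μ₀ * τ (hh v w) := by
    rw [← G0_w (A := A) (τ := τ) (μ₀ := μ₀) hv.1, hG]
  rw [hy, uAut_mulVec, fAutU_mulVec, Em_mulVec hF hv]
  simp only [tw_add, tw_sub, tw_smul, Matrix.mulVec_add, Matrix.mulVec_sub, Matrix.mulVec_smul,
    hg]
  rw [Em_mulVec hF (P.val w c hv), h1, h3, G0_e hF P, G0_w hv.1]
  simp only [map_mul]
  module

include hF in
theorem gamma_Rt_f (P : IsPara Fr α A τ μ₀) (g : ↥(GUs n F q))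
    (hg : ∀ v : V, ((g : GLn) : Mx) *ᵥ tw τ v = G0 Fr A τ μ₀ v)
    (hsim : ∀ u v : V, hh (((g : GLn) : Mx) *ᵥ u) (((g : GLn) : Mx) *ᵥ v) = μ₀ * hh u v) :
    (cU g * fU (τ : RingAut F) : MulAut PSUn) '' Rt Fr.f = Rt Fr.f := by
  have : (cU g * fU (τ : RingAut F) : MulAut PSUn) '' Rt Fr.f =
      cU g '' (fU (τ : RingAut F) '' Rt Fr.f) := by
    rw [Set.image_image]
    rfl
  rw [this, fU_Rt hF τ Fr.ff, cU_Rt hF g P.mu_ne hsim P.mu_fix (by rw [hh_tw, Fr.ff, map_zero]),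
    hg, G0_f hF P]

end build

include hF hn in
/-- An automorphism fixing the radical pointwise and the root group of `f` is trivial. -/
theorem eq_one_of_fix (h32 : ¬ (n = 3 ∧ q = 2)) (β : MulAut PSUn)
    (hEm : ∀ (w : V) (c : F), Val Fr w c → β (pm (Em Fr w c)) = pm (Em Fr w c))
    (hFf : β '' Rt Fr.f = Rt Fr.f) : β = 1 := by
  have hpf : Par Fr.f (phi hF hn β Fr.f) := phi_par_of_image hF hn β (Fr.iso_f hF) Fr.ff hFf
  have hE : β '' Rt Fr.e = Rt Fr.e := by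
    have h1 : ∀ c : F, c ^ q = -c → β (pm (tvU Fr.e c)) = pm (tvU Fr.e c) := by
      intro c hc
      rw [← Em_zero hF hc, hEm 0 c (Val.zero hF hc)]
    apply Set.Subset.antisymm
    · rintro _ ⟨x, ⟨c, hc, rfl⟩, rfl⟩
      exact ⟨c, hc, (h1 c hc).symm⟩
    · rintro _ ⟨c, hc, rfl⟩
      exact ⟨_, ⟨c, hc, rfl⟩, h1 c hc⟩
  have hpe : Par Fr.e (phi hF hn β Fr.e) := phi_par_of_image hF hn β (Fr.iso_e hF) Fr.ee hE
  -- points off `e^⊥`
  have h1 : ∀ y : V, Iso q y → hh y Fr.e ≠ 0 → Par y (phi hF hn β y) := by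
    intro y hy hye
    obtain ⟨a, ha0, w, hw, c, hyw⟩ : ∃ a : F, a ≠ 0 ∧ ∃ w : V, InW Fr w ∧ ∃ c : F,
        y = a • (Fr.f + w + c • Fr.e) := by
      refine ⟨hh y Fr.e, hye, (hh y Fr.e)⁻¹ • prW Fr y, (prW_inW Fr y).smul _,
        (hh y Fr.e)⁻¹ * hh y Fr.f, ?_⟩
      have := decomp Fr y
      rw [smul_add, smul_add, smul_smul, smul_smul, ← mul_assoc, mul_inv_cancel₀ hye, one_smul,
        one_mul]
      exact this.trans (by module)
    have hy0' : Fr.f + w + c • Fr.e ≠ 0 := by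
      intro h0
      apply hy.1
      rw [hyw, h0, smul_zero]
    have hiso' : hh (Fr.f + w + c • Fr.e) (Fr.f + w + c • Fr.e) = 0 := by
      have h := hy.2
      rw [hyw, herm_smul_left, herm_smul_right] at h
      exact (mul_eq_zero.mp ((mul_eq_zero.mp h).resolve_left ha0)).resolve_left
        (pow_ne_zero _ ha0)
    have hval : Val Fr w c := by
      refine ⟨hw, ?_⟩
      have h := hiso'
      simp only [herm_add_left, herm_add_right hF, herm_smul_left, herm_smul_right, Fr.ff, Fr.fe,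
        Fr.ef, Fr.ee, hw.1, hw.2, hw.e_left hF, hw.f_left hF] at h
      linear_combination h
    have h2 := phi_equiv hF hn β (Em Fr w c) (Em Fr w c) (hEm w c hval) (Fr.iso_f hF)
    rw [Em_f hF hval] at h2
    have h3 := hpf.mulVec (Em Fr w c).1.1
    rw [Em_f hF hval] at h3
    have h4 : Par (Fr.f + w + c • Fr.e) y := ⟨a, ha0, hyw⟩
    exact (h4.symm.trans (h3.trans h2)).trans (phi_par hF hn β ⟨hy0', hiso'⟩ h4)
  -- all points
  have h2 : ∀ y : V, Iso q y → Par y (phi hF hn β y) := by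
    intro y hy
    by_cases hye : hh y Fr.e = 0
    swap
    · exact h1 y hy hye
    by_cases hpar : Par Fr.e y
    · exact (hpar.symm.trans hpe).trans (phi_par hF hn β (Fr.iso_e hF) hpar)
    have hey : hh Fr.e y = 0 := hh_swap_zero hF hye
    have hey' : hh Fr.e (phi hF hn β y) = 0 := by
      rw [← hpe.perp_iff, phi_perp hF hn β (Fr.iso_e hF) hy]
      exact hey
    have hS : ∀ z : V, Iso q z → hh z Fr.e ≠ 0 → hh z y = 0 → hh z (phi hF hn β y) = 0 := by
      intro z hz hze hzy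
      rw [← (h1 z hz hze).perp_iff, phi_perp hF hn β hz hy]
      exact hzy
    obtain ⟨x, hxy, hxe⟩ : ∃ x : V, hh x y = 0 ∧ hh x Fr.e ≠ 0 := by
      by_contra hcon
      push Not at hcon
      exact hpar (par_of_perp_imp hF (Fr.e_ne_zero hF) hcon).symm
    have hex : hh Fr.e x ≠ 0 := fun h => hxe (hh_swap_zero hF h)
    obtain ⟨l, hl⟩ := exists_iso_add hF x Fr.e Fr.ee hex
    have hz₀y : hh (x + l • Fr.e) y = 0 := by
      rw [herm_add_left, herm_smul_left, hxy, hey]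
      ring
    have hz₀e : hh (x + l • Fr.e) Fr.e ≠ 0 := by
      rw [herm_add_left, herm_smul_left, Fr.ee, mul_zero, add_zero]
      exact hxe
    have hz₀0 : x + l • Fr.e ≠ 0 := by
      intro h
      rw [h, hh_zero_left hF] at hz₀e
      exact hz₀e rfl
    have hz₀ := hS _ ⟨hz₀0, hl⟩ hz₀e hz₀y
    have hcase : ∀ t : V, hh t y = 0 → hh t Fr.e ≠ 0 → hh t (phi hF hn β y) = 0 := by
      intro t hty hte
      have het : hh Fr.e t ≠ 0 := fun h => hte (hh_swap_zero hF h)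
      obtain ⟨k, hk⟩ := exists_iso_add hF t Fr.e Fr.ee het
      have h3e : hh (t + k • Fr.e) Fr.e ≠ 0 := by
        rw [herm_add_left, herm_smul_left, Fr.ee, mul_zero, add_zero]
        exact hte
      have h30 : t + k • Fr.e ≠ 0 := by
        intro h
        rw [h, hh_zero_left hF] at h3e
        exact h3e rfl
      have h3 := hS _ ⟨h30, hk⟩ h3e (by rw [herm_add_left, herm_smul_left, hty, hey]; ring)
      rw [herm_add_left, herm_smul_left, hey', mul_zero, add_zero] at h3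
      exact h3
    apply par_of_perp_imp hF (phi_iso hF hn β hy).1
    intro t hty
    by_cases hte : hh t Fr.e = 0
    · have h3 := hcase (t + (x + l • Fr.e)) (by rw [herm_add_left, hty, hz₀y, add_zero])
        (by rw [herm_add_left, hte, zero_add]; exact hz₀e)
      rw [herm_add_left, hz₀, add_zero] at h3
      exact h3
    · exact hcase t hty hte
  ext x
  obtain ⟨s, rfl⟩ := pm_surjective x
  obtain ⟨s', hs'⟩ := pm_surjective (β (pm s))
  rw [MulAut.one_apply, ← hs']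
  apply (pm_eq_of_par hF hn h32 s s' _).symm
  intro y hy
  have h3 := phi_equiv hF hn β s s' hs'.symm hy
  have h4 := (h2 y hy).mulVec s'.1.1
  have h5 := h2 (s.1.1 *ᵥ y) (hy.mulVec s)
  exact h5.trans (h4.trans h3).symm

include hF hn in
theorem exists_para' (h32 : ¬ (n = 3 ∧ q = 2)) (α : MulAut PSUn)
    (hE : α '' Rt Fr.e = Rt Fr.e) (hF0 : α '' Rt Fr.f = Rt Fr.f) :
    ∃ (A : V → V) (τ : F ≃+* F) (μ₀ : F), IsPara Fr α A τ μ₀ := by
  obtain ⟨A, τ, μ₀, P⟩ := exists_para hF hn h32 α hE hF0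
  exact ⟨A, RingEquiv.ofBijective τ ⟨τ.injective, Finite.surjective_of_injective τ.injective⟩,
    μ₀, P⟩

include hF hn in
/-- The structure theorem for normalised automorphisms. -/
theorem aut_normalized (h32 : ¬ (n = 3 ∧ q = 2)) (α : MulAut PSUn)
    (hE : α '' Rt Fr.e = Rt Fr.e) (hF0 : α '' Rt Fr.f = Rt Fr.f) :
    ∃ (g : ↥(GUs n F q)) (τ : RingAut F), α = cU g * fU τ := by
  obtain ⟨A, τ, μ₀, P⟩ := exists_para' hF hn h32 α hE hF0
  obtain ⟨g, hg, hsim⟩ := exists_gus hF P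
  refine ⟨g, τ, ?_⟩
  have h1 : (cU g * fU (τ : RingAut F))⁻¹ * α = 1 := by
    apply eq_one_of_fix (Fr := Fr) hF hn h32
    · intro w c hv
      rw [MulAut.mul_apply, P.em w c hv, ← gamma_Em hF P g hg hv, MulAut.inv_apply_self]
    · have h2 := gamma_Rt_f hF P g hg hsim
      apply Set.Subset.antisymm
      · rintro _ ⟨x, hx, rfl⟩
        have h3 : α x ∈ (Rt Fr.f : Set PSUn) := by
          rw [← hF0]
          exact ⟨x, hx, rfl⟩
        rw [← h2] at h3
        obtain ⟨y, hy, e⟩ := h3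
        rw [MulAut.mul_apply, ← e, MulAut.inv_apply_self]
        exact hy
      · intro y hy
        have h3 : (cU g * fU (τ : RingAut F) : MulAut PSUn) y ∈ (Rt Fr.f : Set PSUn) := by
          rw [← h2]
          exact ⟨y, hy, rfl⟩
        rw [← hF0] at h3
        obtain ⟨x, hx, e⟩ := h3
        exact ⟨x, hx, by rw [MulAut.mul_apply, e, MulAut.inv_apply_self]⟩
  exact (inv_mul_eq_one.mp h1).symm

include hF hn in
/-- `SU` is transitive on hyperbolic pairs. -/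
theorem exists_su_pair (Fr Fr' : HFrame n F q) :
    ∃ s : SUn, s.1.1 *ᵥ Fr.e = Fr'.e ∧ s.1.1 *ᵥ Fr.f = Fr'.f := by
  obtain ⟨g₁, hg₁⟩ := exists_su_map hF hn (Fr.e_ne_zero hF) Fr.ee (Fr'.e_ne_zero hF) Fr'.ee
  obtain ⟨x, hx⟩ : ∃ x : V, x = g₁.1.1 *ᵥ Fr.f := ⟨_, rfl⟩
  have hxe : hh x Fr'.e = 1 := by rw [hx, ← hg₁, hh_su, Fr.fe]
  have hxx : hh x x = 0 := by rw [hx, hh_su, Fr.ff]
  have hw := prW_inW Fr' x
  obtain ⟨w, hw'⟩ : ∃ w : V, w = prW Fr' x := ⟨_, rfl⟩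
  obtain ⟨c, hc'⟩ : ∃ c : F, c = hh x Fr'.f := ⟨_, rfl⟩
  rw [← hw'] at hw
  have hdec : x = Fr'.f + w + c • Fr'.e := by
    have h := decomp Fr' x
    rw [hxe, one_smul, ← hw', ← hc'] at h
    exact h.trans (by module)
  have hval : Val Fr' w c := by
    refine ⟨hw, ?_⟩
    have h := hxx
    rw [hdec] at h
    simp only [herm_add_left, herm_add_right hF, herm_smul_left, herm_smul_right, Fr'.ff, Fr'.fe,
      Fr'.ef, Fr'.ee, hw.1, hw.2, hw.e_left hF, hw.f_left hF] at h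
    linear_combination h
  have h1 : (Em Fr' w c).1.1 *ᵥ Fr'.f = x := by rw [Em_f hF hval, ← hdec]
  refine ⟨(Em Fr' w c)⁻¹ * g₁, ?_, ?_⟩
  · rw [mulVec_mul, hg₁]
    have h2 := inv_mulVec (Em Fr' w c) Fr'.e
    rw [Em_e hF hval] at h2
    exact h2
  · rw [mulVec_mul, ← hx]
    have h2 := inv_mulVec (Em Fr' w c) Fr'.f
    rw [h1] at h2
    exact h2

include hF hn in
/-- **Structure theorem**: every automorphism of `PSU_n(q)` is induced by a semilinear unitary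
similitude. -/
theorem aut_structure (h32 : ¬ (n = 3 ∧ q = 2)) (α : MulAut PSUn) :
    ∃ (g : ↥(GUs n F q)) (τ : RingAut F), α = cU g * fU τ := by
  obtain ⟨Fr⟩ := exists_frame (n := n) (q := q) hF (by omega)
  have he := phi_iso hF hn α (Fr.iso_e hF)
  have hf := phi_iso hF hn α (Fr.iso_f hF)
  have hne : hh (phi hF hn α Fr.f) (phi hF hn α Fr.e) ≠ 0 := by
    rw [Ne, phi_perp hF hn α (Fr.iso_f hF) (Fr.iso_e hF), Fr.fe]
    exact one_ne_zero
  obtain ⟨k, hk⟩ : ∃ k : F, k = hh (phi hF hn α Fr.f) (phi hF hn α Fr.e) := ⟨_, rfl⟩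
  rw [← hk] at hne
  obtain ⟨Fr', hFr'e, hFr'f⟩ : ∃ Fr' : HFrame n F q, Fr'.e = phi hF hn α Fr.e ∧
      Fr'.f = k⁻¹ • phi hF hn α Fr.f :=
    ⟨{ e := phi hF hn α Fr.e
       f := k⁻¹ • phi hF hn α Fr.f
       ee := he.2
       ff := by rw [herm_smul_left, herm_smul_right, hf.2, mul_zero, mul_zero]
       ef := by
        rw [herm_smul_right, ← herm_conj hF, ← hk, inv_pow,
          inv_mul_cancel₀ (pow_ne_zero _ hne)]
       fe := by rw [herm_smul_left, ← hk, inv_mul_cancel₀ hne] }, rfl, rfl⟩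
  obtain ⟨s, hs1, hs2⟩ := exists_su_pair hF hn Fr Fr'
  rw [hFr'e] at hs1
  rw [hFr'f] at hs2
  have hconj : ∀ u : V, Iso q u → ((MulAut.conj (pm s))⁻¹ * α : MulAut PSUn) '' Rt u =
      Rt ((s⁻¹).1.1 *ᵥ phi hF hn α u) := by
    intro u hu
    rw [← conj_Rt hF s⁻¹ (phi_iso hF hn α hu).2, ← phi_Rt hF hn α hu, Set.image_image]
    apply Set.image_congr
    intro z _
    rw [MulAut.mul_apply, MulAut.conj_inv_apply, map_inv, inv_inv]
  have hE : ((MulAut.conj (pm s))⁻¹ * α : MulAut PSUn) '' Rt Fr.e = Rt Fr.e := by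
    rw [hconj Fr.e (Fr.iso_e hF), ← hs1, inv_mulVec]
  have hF0 : ((MulAut.conj (pm s))⁻¹ * α : MulAut PSUn) '' Rt Fr.f = Rt Fr.f := by
    rw [hconj Fr.f (Fr.iso_f hF)]
    have h1 : phi hF hn α Fr.f = k • (s.1.1 *ᵥ Fr.f) := by
      rw [hs2, smul_smul, mul_inv_cancel₀ hne, one_smul]
    rw [h1, Matrix.mulVec_smul, inv_mulVec, Rt_smul hF hne Fr.ff]
  obtain ⟨g, τ, e⟩ := aut_normalized (Fr := Fr) hF hn h32 _ hE hF0
  refine ⟨suToGUs s * g, τ, ?_⟩
  rw [map_mul, cU_suToGUs, mul_assoc, ← e, mul_inv_cancel_left]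

end Cfsg.Agent.Lib.Helper43.AutPSU
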